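import Mathlib
import Cfsg.Prelude.Def_CaseTheorems
import Cfsg.Prelude.Def_SporadicB

/-! Definitions for the linear-group form of Gagola's theorem (S4841). -/

set_option autoImplicit false

namespace CF.Gg

/-- A faithful module in characteristic `p` in which the stabilizer of every nonzero vector is a
Sylow `p`-subgroup, for a group without nontrivial normal `p`-subgroup. -/
structure St (p : ℕ) {H : Type*} [Group H] {V : Type*} [AddCommGroup V] [Module (ZMod p) V]
    (ρ : H →* Module.End (ZMod p) V) : Prop where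
  inj : Function.Injective ρ
  nt : ∃ v : V, v ≠ 0
  syl : ∀ v : V, v ≠ 0 → ∃ P : Sylow p H, ∀ g : H, g ∈ (P : Subgroup H) ↔ ρ g v = v
  core : ∀ N : Subgroup H, N.Normal → IsPGroup p N → N = ⊥

/-- Transitivity on the nonzero vectors. -/
def Tr {p : ℕ} {H : Type*} [Group H] {V : Type*} [AddCommGroup V] [Module (ZMod p) V]
    (ρ : H →* Module.End (ZMod p) V) : Prop :=
  ∀ v w : V, v ≠ 0 → w ≠ 0 → ∃ g : H, ρ g v = w

/-- The vectors fixed by a subgroup. -/
def fixS {p : ℕ} {H : Type*} [Group H] {V : Type*} [AddCommGroup V] [Module (ZMod p) V]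
    (ρ : H →* Module.End (ZMod p) V) (K : Subgroup H) : Submodule (ZMod p) V where
  carrier := {v | ∀ g ∈ K, ρ g v = v}
  add_mem' := fun {a b} ha hb g hg => by rw [map_add, ha g hg, hb g hg]
  zero_mem' := fun g _ => map_zero _
  smul_mem' := fun c a ha g hg => by rw [map_smul, ha g hg]

theorem mem_fixS {p : ℕ} {H : Type*} [Group H] {V : Type*} [AddCommGroup V] [Module (ZMod p) V]
    {ρ : H →* Module.End (ZMod p) V} {K : Subgroup H} {v : V} :
    v ∈ fixS ρ K ↔ ∀ g ∈ K, ρ g v = v := Iff.rfl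

/-- The six shapes of the conclusion. -/
def Concl (p : ℕ) (H : Type*) [Group H] : Prop :=
  (∃ (F : Type) (_ : Field F) (_ : Fintype F), (∃ a : ℕ, Fintype.card F = p ^ a) ∧ 2 < Fintype.card F ∧
      ∃ S : Subgroup H, S.Normal ∧ Nonempty (S ≃* Matrix.SpecialLinearGroup (Fin 2) F) ∧ (∃ k : ℕ, S.index = p ^ k) ∧
        (∃ h : H, S ⊔ Subgroup.zpowers h = ⊤) ∧ Subgroup.centralizer (S : Set H) = (Subgroup.center S).map S.subtype) ∨
   (p = 3 ∧ ∃ S : Subgroup H, S.Normal ∧ S.index = 2 ∧ Nonempty (S ≃* Matrix.SpecialLinearGroup (Fin 2) (ZMod 5)) ∧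
        Subgroup.centralizer (S : Set H) = (Subgroup.center S).map S.subtype ∧ ∀ K : Subgroup H, ¬ Subgroup.IsComplement' S K) ∨
   (p = 3 ∧ Nonempty (H ≃* Matrix.SpecialLinearGroup (Fin 2) (ZMod 13))) ∨
   (p = 11 ∧ Nonempty (H ≃* Matrix.SpecialLinearGroup (Fin 2) (ZMod 5))) ∨
   (p = 29 ∧ Nonempty (H ≃* Matrix.SpecialLinearGroup (Fin 2) (ZMod 5) × Multiplicative (ZMod 7))) ∨
   (p = 59 ∧ Nonempty (H ≃* Matrix.SpecialLinearGroup (Fin 2) (ZMod 5) × Multiplicative (ZMod 29)))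

/-- Case alpha: every element of order 3 centralizes every 2-subgroup it normalizes. -/
def Alpha (H : Type*) [Group H] : Prop :=
  ∀ x : H, orderOf x = 3 → ∀ T : Subgroup H, IsPGroup 2 T → (∀ a ∈ T, x * a * x⁻¹ ∈ T) →
    ∀ a ∈ T, Commute x a

/-- The elements fixing the image of `ρ t + 1` pointwise. -/
def El {H : Type*} [Group H] {V : Type*} [AddCommGroup V] [Module (ZMod 2) V]
    (ρ : H →* Module.End (ZMod 2) V) (t : H) : Subgroup H where
  carrier := {g | ρ g * (ρ t + 1) = ρ t + 1}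
  mul_mem' := fun {a b} ha hb => by
    have ha' : ρ a * (ρ t + 1) = ρ t + 1 := ha
    have hb' : ρ b * (ρ t + 1) = ρ t + 1 := hb
    show ρ (a * b) * (ρ t + 1) = ρ t + 1
    rw [map_mul, mul_assoc, hb', ha']
  one_mem' := by
    show ρ 1 * (ρ t + 1) = ρ t + 1
    rw [map_one, one_mul]
  inv_mem' := fun {a} ha => by
    have ha' : ρ a * (ρ t + 1) = ρ t + 1 := ha
    show ρ a⁻¹ * (ρ t + 1) = ρ t + 1
    conv_lhs => rw [← ha', ← mul_assoc, ← map_mul, inv_mul_cancel, map_one, one_mul]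

theorem mem_El {H : Type*} [Group H] {V : Type*} [AddCommGroup V] [Module (ZMod 2) V]
    {ρ : H →* Module.End (ZMod 2) V} {t g : H} :
    g ∈ El ρ t ↔ ρ g * (ρ t + 1) = ρ t + 1 := Iff.rfl

/-- No conjugate of `El ρ t` other than itself centralizes it. -/
def NC {H : Type*} [Group H] {V : Type*} [AddCommGroup V] [Module (ZMod 2) V]
    (ρ : H →* Module.End (ZMod 2) V) (t : H) : Prop :=
  ∀ g : H, (∀ a ∈ El ρ t, ∀ b ∈ El ρ (g * t * g⁻¹), Commute a b) → g * t * g⁻¹ ∈ El ρ t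

/-- A natural `SL₂(Φ)`-structure: scalars `s`, matrix units `n` and `n'`, with all the
transvections realised in the group. -/
structure Dat0 {H : Type*} [Group H] {V : Type*} [AddCommGroup V] [Module (ZMod 2) V]
    (ρ : H →* Module.End (ZMod 2) V) {Φ : Type} [Field Φ] (s : Φ →+* Module.End (ZMod 2) V)
    (n n' : Module.End (ZMod 2) V) : Prop where
  nn : n * n = 0
  nn' : n' * n' = 0
  unit : n * n' + n' * n = 1
  sn : ∀ μ : Φ, s μ * n = n * s μ
  sn' : ∀ μ : Φ, s μ * n' = n' * s μ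
  up : ∀ μ : Φ, ∃ g : H, ρ g = 1 + s μ * n
  low : ∀ μ : Φ, ∃ g : H, ρ g = 1 + s μ * n'

/-- The datum of case alpha at the involution `t`. -/
def Dat {H : Type*} [Group H] {V : Type*} [AddCommGroup V] [Module (ZMod 2) V]
    (ρ : H →* Module.End (ZMod 2) V) (t : H) : Prop :=
  ∃ (Φ : Type) (_ : Field Φ) (_ : Fintype Φ) (s : Φ →+* Module.End (ZMod 2) V)
    (n' : Module.End (ZMod 2) V), 8 ≤ Fintype.card Φ ∧ Dat0 ρ s (ρ t + 1) n'

end CF.Gg
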