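import Cfsg.Agent.Gg.A

/-! More definitions for case alpha of S4841. -/

set_option autoImplicit false

namespace CF.Gg

variable {H : Type*} [Group H] {V : Type*} [AddCommGroup V] [Module (ZMod 2) V]

/-- The elements commuting with the whole `SL₂(Φ)`-structure. -/
def CK (ρ : H →* Module.End (ZMod 2) V) {Φ : Type} [Field Φ] (s : Φ →+* Module.End (ZMod 2) V)
    (n n' : Module.End (ZMod 2) V) : Subgroup H where
  carrier := {z | Commute (ρ z) n ∧ Commute (ρ z) n' ∧ ∀ μ : Φ, Commute (ρ z) (s μ)}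
  mul_mem' := fun {a b} ha hb => by
    refine ⟨?_, ?_, fun μ => ?_⟩ <;> rw [map_mul]
    · exact ha.1.mul_left hb.1
    · exact ha.2.1.mul_left hb.2.1
    · exact (ha.2.2 μ).mul_left (hb.2.2 μ)
  one_mem' := by
    refine ⟨?_, ?_, fun μ => ?_⟩ <;> rw [map_one] <;> exact Commute.one_left _
  inv_mem' := fun {a} ha => by
    have key : ∀ γ : Module.End (ZMod 2) V, Commute (ρ a) γ → Commute (ρ a⁻¹) γ := by
      intro γ hγ
      have h1 : ρ a⁻¹ * ρ a = 1 := by rw [← map_mul, inv_mul_cancel, map_one]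
      have h2 : ρ a * ρ a⁻¹ = 1 := by rw [← map_mul, mul_inv_cancel, map_one]
      calc ρ a⁻¹ * γ = ρ a⁻¹ * γ * (ρ a * ρ a⁻¹) := by rw [h2, mul_one]
        _ = ρ a⁻¹ * (γ * ρ a) * ρ a⁻¹ := by simp only [mul_assoc]
        _ = ρ a⁻¹ * (ρ a * γ) * ρ a⁻¹ := by rw [hγ.eq]
        _ = γ * ρ a⁻¹ := by rw [← mul_assoc, h1, one_mul]
    exact ⟨key _ ha.1, key _ ha.2.1, fun μ => key _ (ha.2.2 μ)⟩

theorem mem_CK {ρ : H →* Module.End (ZMod 2) V} {Φ : Type} [Field Φ]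
    {s : Φ →+* Module.End (ZMod 2) V} {n n' : Module.End (ZMod 2) V} {z : H} :
    z ∈ CK ρ s n n' ↔ Commute (ρ z) n ∧ Commute (ρ z) n' ∧ ∀ μ : Φ, Commute (ρ z) (s μ) := Iff.rfl

/-- The diagonal element `diag(μ, μ⁻¹)`. -/
def tor {Φ : Type} [Field Φ] (s : Φ →+* Module.End (ZMod 2) V) (n n' : Module.End (ZMod 2) V)
    (μ : Φ) : Module.End (ZMod 2) V := s μ * (n * n') + s μ⁻¹ * (n' * n)

/-- Two commuting distinct elation groups, each with its datum. -/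
structure Two (ρ : H →* Module.End (ZMod 2) V) {Φ : Type} [Field Φ] [Fintype Φ] (t t' : H)
    (s s' : Φ →+* Module.End (ZMod 2) V) (n' m' : Module.End (ZMod 2) V) : Prop where
  st : St 2 ρ
  al : Alpha H
  big : 8 ≤ Fintype.card Φ
  ht : orderOf t = 2
  ht' : orderOf t' = 2
  D : Dat0 ρ s (ρ t + 1) n'
  D' : Dat0 ρ s' (ρ t' + 1) m'
  comm : ∀ a ∈ El ρ t, ∀ b ∈ El ρ t', Commute a b
  ne : t' ∉ El ρ t
  card : Nat.card (El ρ t) = Nat.card (El ρ t')

end CF.Gg
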