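import Cfsg.Agent.Gg.A

set_option autoImplicit false
set_option linter.style.haveILetI false
set_option linter.unusedSectionVars false

namespace CF.Gg

variable {p : ℕ} [Fact p.Prime] {H : Type*} [Group H] [Finite H] {V : Type*} [AddCommGroup V]
  [Module (ZMod p) V] [Finite V] {ρ : H →* Module.End (ZMod p) V}

omit [Finite V] in
theorem pel (h : St p ρ) {g : H} {v : V} (hv : v ≠ 0) (hg : ρ g v = v) : ∃ k : ℕ, g ^ p ^ k = 1 := by
  obtain ⟨P, hP⟩ := h.syl v hv
  obtain ⟨k, hk⟩ := P.isPGroup' ⟨g, (hP g).2 hg⟩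
  exact ⟨k, by simpa using congrArg Subtype.val hk⟩

omit [Finite V] in
theorem fpf (h : St p ρ) {g : H} (hc : (orderOf g).Coprime p) (hg1 : g ≠ 1) {v : V} (hg : ρ g v = v) :
    v = 0 := by
  by_contra hv
  obtain ⟨k, hk⟩ := pel h hv hg
  have h1 : orderOf g ∣ p ^ k := orderOf_dvd_of_pow_eq_one hk
  have h2 : orderOf g = 1 := Nat.Coprime.eq_one_of_dvd (hc.pow_right k) h1
  exact hg1 (orderOf_eq_one_iff.1 h2)

omit [Finite V] in
/-- a subgroup fixing a nonzero vector is a p-group -/
theorem pgrp (h : St p ρ) (K : Subgroup H) {v : V} (hv : v ≠ 0) (hK : ∀ g ∈ K, ρ g v = v) :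
    IsPGroup p K := by
  intro g
  obtain ⟨k, hk⟩ := pel h hv (hK g g.2)
  exact ⟨k, Subtype.ext (by simpa using hk)⟩

omit [Finite H] in
theorem card_pow (W : Submodule (ZMod p) V) : ∃ m : ℕ, Nat.card W = p ^ m := by
  refine ⟨Module.finrank (ZMod p) W, ?_⟩
  rw [Module.natCard_eq_pow_finrank (K := ZMod p) (V := W), Nat.card_zmod]

omit [Finite H] in
/-- a p-subgroup stabilizing a nonzero subspace fixes a nonzero vector of it -/
theorem pfix (K : Subgroup H) (hK : IsPGroup p K) (W : Submodule (ZMod p) V) (hW : W ≠ ⊥)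
    (hKW : ∀ g ∈ K, ∀ w ∈ W, ρ g w ∈ W) : ∃ w ∈ W, w ≠ 0 ∧ ∀ g ∈ K, ρ g w = w := by
  letI : MulAction K W :=
    { smul := fun g w => ⟨ρ g w, hKW g g.2 w w.2⟩
      one_smul := fun w => Subtype.ext (by
        show ρ ((1 : K) : H) (w : V) = w
        simp)
      mul_smul := fun a b w => Subtype.ext (by
        show ρ ((a * b : K) : H) (w : V) = ρ (a : H) (ρ (b : H) (w : V))
        simp) }
  obtain ⟨m, hm⟩ := card_pow W
  have hm0 : m ≠ 0 := by
    rintro rfl
    apply hW
    rw [pow_zero] at hm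
    haveI := (Nat.card_eq_one_iff_unique.1 hm).1
    exact Submodule.eq_bot_of_subsingleton
  have hd : p ∣ Nat.card W := by rw [hm]; exact dvd_pow_self p hm0
  have h0 : (0 : W) ∈ MulAction.fixedPoints K W := by
    intro g
    exact Subtype.ext (map_zero (ρ (g : H)))
  obtain ⟨b, hb, hb0⟩ := hK.exists_fixed_point_of_prime_dvd_card_of_fixed_point W hd h0
  refine ⟨b, b.2, fun e => hb0 (Subtype.ext e.symm), fun g hg => ?_⟩
  exact congrArg Subtype.val (hb ⟨g, hg⟩)

omit [Finite V] in
theorem St.normal (h : St p ρ) (L : Subgroup H) [L.Normal] : St p (ρ.comp L.subtype) where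
  inj := h.inj.comp L.subtype_injective
  nt := h.nt
  syl := fun v hv => by
    obtain ⟨P, hP⟩ := h.syl v hv
    obtain ⟨Q, hQ⟩ := (P.isPGroup'.comap_subtype (K := L)).exists_le_sylow
    obtain ⟨R, hR⟩ := (Q.isPGroup'.map L.subtype).exists_le_sylow
    obtain ⟨g, hg⟩ := MulAction.exists_smul_eq H R P
    -- the conjugate of Q lies in P ∩ L, so cardinalities agree
    have hle : ∀ x : L, x ∈ (Q : Subgroup L) → (⟨g * x * g⁻¹, Subgroup.Normal.conj_mem ‹_› _ x.2 g⟩ : L) ∈
        (P : Subgroup H).comap L.subtype := by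
      intro x hx
      have : (x : H) ∈ (R : Subgroup H) := hR ⟨x, hx, rfl⟩
      show g * x * g⁻¹ ∈ (P : Subgroup H)
      rw [← hg, Sylow.coe_subgroup_smul]
      exact Subgroup.smul_mem_pointwise_smul _ (MulAut.conj g) _ this
    have hcard : Nat.card (Q : Subgroup L) ≤ Nat.card ((P : Subgroup H).comap L.subtype) := by
      refine Nat.card_le_card_of_injective (fun x => ⟨_, hle x.1 x.2⟩) ?_
      intro a b hab
      have : g * a * g⁻¹ = g * b * g⁻¹ := congrArg (fun z => ((z.1 : L) : H)) hab
      exact Subtype.ext (Subtype.ext (by simpa using this))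
    have heq : (P : Subgroup H).comap L.subtype = Q := Subgroup.eq_of_le_of_card_ge hQ hcard
    refine ⟨Q, fun x => ?_⟩
    rw [← heq]
    exact hP x
  core := fun N hN hp => by
    -- the join of all normal p-subgroups of L
    let M : Subgroup H := ⨅ P : Sylow p H, (P : Subgroup H)
    have hMn : M.Normal := ⟨fun x hx g => by
      rw [Subgroup.mem_iInf] at hx ⊢
      intro P
      have := hx (g⁻¹ • P)
      rw [Sylow.coe_subgroup_smul, Subgroup.mem_pointwise_smul_iff_inv_smul_mem] at this
      simpa using this⟩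
    have hMp : IsPGroup p M := (default : Sylow p H).isPGroup'.to_le (iInf_le _ _)
    have hM := h.core M hMn hMp
    rw [eq_bot_iff]
    intro x hx
    have hxM : (x : H) ∈ M := by
      rw [Subgroup.mem_iInf]
      intro P
      -- P ∩ L is contained in a Sylow of L which contains N; and equals it
      obtain ⟨Q, hQ⟩ := (P.isPGroup'.comap_subtype (K := L)).exists_le_sylow
      obtain ⟨R, hR⟩ := (Q.isPGroup'.map L.subtype).exists_le_sylow
      obtain ⟨g, hg⟩ := MulAction.exists_smul_eq H R P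
      have hle : ∀ x : L, x ∈ (Q : Subgroup L) →
          (⟨g * x * g⁻¹, Subgroup.Normal.conj_mem ‹_› _ x.2 g⟩ : L) ∈
          (P : Subgroup H).comap L.subtype := by
        intro x hx
        have : (x : H) ∈ (R : Subgroup H) := hR ⟨x, hx, rfl⟩
        show g * x * g⁻¹ ∈ (P : Subgroup H)
        rw [← hg, Sylow.coe_subgroup_smul]
        exact Subgroup.smul_mem_pointwise_smul _ (MulAut.conj g) _ this
      have hcard : Nat.card (Q : Subgroup L) ≤ Nat.card ((P : Subgroup H).comap L.subtype) := by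
        refine Nat.card_le_card_of_injective (fun x => ⟨_, hle x.1 x.2⟩) ?_
        intro a b hab
        have : g * a * g⁻¹ = g * b * g⁻¹ := congrArg (fun z => ((z.1 : L) : H)) hab
        exact Subtype.ext (Subtype.ext (by simpa using this))
      have heq : (P : Subgroup H).comap L.subtype = Q := Subgroup.eq_of_le_of_card_ge hQ hcard
      have : N ≤ Q := by
        have := hp.inf_normalizer_sylow Q
        haveI := hN
        exact IsPGroup.le_sylow_of_normal hp Q
      have hx' := this hx
      rw [← heq] at hx'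
      exact hx'
    rw [hM, Subgroup.mem_bot] at hxM
    exact Subgroup.mem_bot.2 (Subtype.ext hxM)

omit [Finite V] in
theorem St.equiv (h : St p ρ) {H' : Type*} [Group H'] (e : H' ≃* H) : St p (ρ.comp e.toMonoidHom) where
  inj := h.inj.comp e.injective
  nt := h.nt
  syl := fun v hv => by
    obtain ⟨P, hP⟩ := h.syl v hv
    haveI : Finite H' := Finite.of_equiv H e.symm.toEquiv
    have hs : Function.Surjective e.symm.toMonoidHom := e.symm.surjective
    refine ⟨P.mapSurjective hs, fun g => ?_⟩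
    rw [Sylow.coe_mapSurjective, Subgroup.mem_map]
    constructor
    · rintro ⟨x, hx, rfl⟩
      simpa using (hP x).1 hx
    · intro hg
      exact ⟨e g, (hP _).2 hg, by simp⟩
  core := fun N hN hp => by
    have := h.core (N.map e.toMonoidHom) (hN.map _ e.surjective) (hp.map _)
    exact (Subgroup.map_eq_bot_iff_of_injective _ e.injective).1 this

omit [Finite H] [Finite V] in
theorem B1_smul_mem (g : H) (P : Sylow p H) {v : V} (hv : v ∈ fixS ρ (P : Subgroup H)) :
    ρ g v ∈ fixS ρ ((g • P : Sylow p H) : Subgroup H) := by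
  intro x hx
  rw [Sylow.coe_subgroup_smul, Subgroup.mem_pointwise_smul_iff_inv_smul_mem] at hx
  have := hv _ hx
  simp only [MulAut.smul_def, MulAut.conj_inv_apply] at this
  calc ρ x (ρ g v) = ρ g (ρ (g⁻¹ * x * g) v) := by
        rw [← Module.End.mul_apply, ← Module.End.mul_apply, ← map_mul, ← map_mul]; congr 2; group
    _ = ρ g v := by rw [this]

omit [Finite H] [Finite V] in
theorem B1_inj (g : H) : Function.Injective (ρ g) := by
  intro a b hab
  have := congrArg (ρ g⁻¹) hab
  simpa [← Module.End.mul_apply, ← map_mul] using this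

omit [Finite H] in
theorem B1_card_le (g : H) (P : Sylow p H) :
    Nat.card (fixS ρ (P : Subgroup H)) ≤ Nat.card (fixS ρ ((g • P : Sylow p H) : Subgroup H)) := by
  refine Nat.card_le_card_of_injective (fun v => ⟨ρ g v, B1_smul_mem g P v.2⟩) ?_
  intro a b hab
  exact Subtype.ext (B1_inj g (congrArg Subtype.val hab))

theorem B1_card_eq (P Q : Sylow p H) :
    Nat.card (fixS ρ (P : Subgroup H)) = Nat.card (fixS ρ (Q : Subgroup H)) := by
  obtain ⟨g, rfl⟩ := MulAction.exists_smul_eq H P Q
  refine le_antisymm (B1_card_le g P) ?_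
  have := B1_card_le (ρ := ρ) g⁻¹ (g • P)
  rwa [inv_smul_smul] at this

theorem count (h : St p ρ) (P : Sylow p H) :
    Nat.card V - 1 = Nat.card (Sylow p H) * (Nat.card (fixS ρ P) - 1) := by
  classical
  haveI := Fintype.ofFinite V
  haveI := Fintype.ofFinite (Sylow p H)
  let f : V → Sylow p H := fun v => if hv : v ≠ 0 then (h.syl v hv).choose else P
  have hf : ∀ v, v ≠ 0 → ∀ g, g ∈ (f v : Subgroup H) ↔ ρ g v = v := by
    intro v hv
    simp only [f, dif_pos hv]
    exact (h.syl v hv).choose_spec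
  have h1 : Nat.card V - 1 = (Finset.univ.erase (0 : V)).card := by
    rw [Finset.card_erase_of_mem (Finset.mem_univ _), Finset.card_univ, Nat.card_eq_fintype_card]
  rw [h1, Finset.card_eq_sum_card_fiberwise (f := f) (t := Finset.univ) (fun _ _ => Finset.mem_univ _)]
  rw [Finset.sum_congr rfl (g := fun _ => Nat.card (fixS ρ (P : Subgroup H)) - 1)]
  · rw [Finset.sum_const, Finset.card_univ, Nat.card_eq_fintype_card (α := Sylow p H), smul_eq_mul]
  intro Q _
  rw [B1_card_eq P Q]
  have : (Finset.univ.erase (0 : V)).filter (fun v => f v = Q) =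
      (Finset.univ.filter (fun v => v ∈ fixS ρ (Q : Subgroup H))).erase 0 := by
    ext v
    simp only [Finset.mem_filter, Finset.mem_erase, Finset.mem_univ, and_true, true_and]
    constructor
    · rintro ⟨hv, rfl⟩
      exact ⟨hv, fun g hg => (hf v hv g).1 hg⟩
    · rintro ⟨hv, hQ⟩
      refine ⟨hv, Sylow.ext ?_⟩
      exact Q.is_maximal' (f v).isPGroup' (fun g hg => (hf v hv g).2 (hQ g hg))
  rw [this, Finset.card_erase_of_mem (by simp), Nat.card_eq_fintype_card, Fintype.card_subtype]

theorem fix_ne (h : St p ρ) (P : Sylow p H) : 1 < Nat.card (fixS ρ (P : Subgroup H)) := by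
  obtain ⟨v, hv⟩ := h.nt
  obtain ⟨Q, hQ⟩ := h.syl v hv
  rw [B1_card_eq P Q]
  haveI : Nontrivial (fixS ρ (Q : Subgroup H)) :=
    ⟨⟨⟨v, fun g hg => (hQ g).1 hg⟩, 0, fun e => hv (congrArg Subtype.val e)⟩⟩
  exact Finite.one_lt_card

/-- The action on the nonzero vectors. -/
@[reducible] def B1_act (ρ : H →* Module.End (ZMod p) V) : MulAction H {v : V // v ≠ 0} where
  smul := fun g v => ⟨ρ g v, fun e => v.2 (B1_inj g (by rw [e, map_zero]))⟩
  one_smul := fun v => Subtype.ext (by
    show ρ 1 (v : V) = v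
    simp)
  mul_smul := fun a b v => Subtype.ext (by
    show ρ (a * b) (v : V) = ρ a (ρ b (v : V))
    simp)

omit [Finite H] in
theorem B1_card_ne : Nat.card {v : V // v ≠ 0} = Nat.card V - 1 := by
  classical
  haveI := Fintype.ofFinite V
  rw [Nat.card_eq_fintype_card, Nat.card_eq_fintype_card, Fintype.card_subtype_compl,
    Fintype.card_subtype_eq]

theorem B1_orbit (h : St p ρ) (P : Sylow p H) (v : {v : V // v ≠ 0}) :
    letI := B1_act ρ
    Nat.card (MulAction.orbit H v) = (P : Subgroup H).index := by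
  letI := B1_act ρ
  obtain ⟨Q, hQ⟩ := h.syl v v.2
  have hs : MulAction.stabilizer H v = Q := by
    ext g
    rw [MulAction.mem_stabilizer_iff, hQ]
    exact ⟨fun e => congrArg Subtype.val e, fun e => Subtype.ext e⟩
  rw [Nat.card_coe_set_eq, ← MulAction.index_stabilizer, hs]
  have h1 := (P : Subgroup H).card_mul_index
  have h2 := (Q : Subgroup H).card_mul_index
  have h3 : Nat.card (P : Subgroup H) = Nat.card (Q : Subgroup H) := Nat.card_congr (Sylow.equiv P Q).toEquiv
  rw [h3, ← h2] at h1
  exact (Nat.eq_of_mul_eq_mul_left Nat.card_pos h1).symm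

theorem index_dvd (h : St p ρ) (P : Sylow p H) : (P : Subgroup H).index ∣ Nat.card V - 1 := by
  classical
  letI := B1_act ρ
  rw [← B1_card_ne, Nat.card_congr (MulAction.selfEquivSigmaOrbits' H {v : V // v ≠ 0})]
  haveI := Fintype.ofFinite (MulAction.orbitRel.Quotient H {v : V // v ≠ 0})
  rw [Nat.card_sigma]
  refine Finset.dvd_sum fun ω _ => ?_
  induction ω using Quotient.inductionOn' with
  | h v =>
    have := B1_orbit h P v
    rw [← this]
    rfl

theorem index_eq (h : St p ρ) (ht : Tr ρ) (P : Sylow p H) :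
    Nat.card V - 1 = (P : Subgroup H).index := by
  letI := B1_act ρ
  obtain ⟨v, hv⟩ := h.nt
  rw [← B1_card_ne, ← B1_orbit h P ⟨v, hv⟩]
  have : MulAction.orbit H (⟨v, hv⟩ : {v : V // v ≠ 0}) = Set.univ := by
    refine Set.eq_univ_of_forall fun w => ?_
    obtain ⟨g, hg⟩ := ht v w hv w.2
    exact ⟨g, Subtype.ext hg⟩
  rw [this, Nat.card_univ]

end CF.Gg
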