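import Cfsg.Agent.Gg.B1
import Cfsg.Agent.Fgs1.FPF2
import Cfsg.Agent.Solv.CyclicMax

/-! S4841, block B2: subgroups of order prime to `p` act freely. -/

set_option autoImplicit false

namespace CF.Gg
open Subgroup CF.Fgs1.Fpf

variable {p : ℕ} [Fact p.Prime] {H : Type*} [Group H] [Finite H] {V : Type*} [AddCommGroup V]
  [Module (ZMod p) V] [Finite V] {ρ : H →* Module.End (ZMod p) V}

theorem B2_fpf (h : St p ρ) (K : Subgroup H) (hc : (Nat.card K).Coprime p) : FPF K := by
  have : Nontrivial V := h.nt.elim fun v hv => ⟨v, 0, hv⟩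
  have hf : IsFpf (ρ.comp K.subtype) := fun g hg v hv =>
    fpf h (g := (g : H)) (by
      rw [orderOf_coe]
      exact hc.coprime_dvd_left (orderOf_dvd_natCard g)) (fun e => hg (Subtype.ext e)) hv
  refine fpf_of_char (Fact.out : p.Prime)
    ((Nat.Prime.coprime_iff_not_dvd Fact.out).1 hc.symm) ?_ _ hf.nz
  rw [← map_natCast (algebraMap (ZMod p) (Module.End (ZMod p) V)), ZMod.natCast_self, map_zero]

theorem cyc (h : St p ρ) (K : Subgroup H) (hc : (Nat.card K).Coprime p)
    (hK : IsMulCommutative K ∨ ∃ a b : ℕ, a.Prime ∧ b.Prime ∧ Nat.card K = a * b) :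
    IsCyclic K := by
  rcases subsingleton_or_nontrivial K with _ | _
  · infer_instance
  obtain ⟨L, _, _, ι, N, hι, hN, hn, hs⟩ := (B2_fpf h K hc).exists_semiReg
  refine (MonoidHom.ofInjective hι).isCyclic.mpr ?_
  rcases hK with hK | ⟨a, b, ha, hb, hK⟩
  · have : IsMulCommutative ι.range := ⟨⟨by
      rintro ⟨_, x, rfl⟩ ⟨_, y, rfl⟩
      exact Subtype.ext (by
        simp only [coe_mul, ← map_mul, IsMulCommutative.is_comm.comm x y])⟩⟩
    exact hs.isCyclic_of_isMulCommutative le_normalizer_of_normal hN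
  · exact hs.isCyclic_of_card_eq_mul le_normalizer_of_normal hN ha hb
      ((Nat.card_congr (MonoidHom.ofInjective hι).toEquiv).symm.trans hK)

theorem rcyc (h : St p ρ) {r : ℕ} (hr : r.Prime) (hr2 : r ≠ 2) (hrp : r ≠ p) (K : Subgroup H)
    (hK : IsPGroup r K) : IsCyclic K := by
  have := Fact.mk hr
  obtain ⟨n, hn⟩ := hK.exists_card_eq
  have h1 := (B2_fpf h K (hn ▸ Nat.Coprime.pow_left n
    ((Nat.coprime_primes hr Fact.out).2 hrp))).isCyclic_of_odd hr2 (P := ⊤) (hK.to_subgroup ⊤)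
  exact isCyclic_of_surjective _ (topEquiv (G := K)).surjective

theorem B2_cent {G : Type*} [Group G] [Finite G] {r : ℕ} [Fact r.Prime] (R : Sylow r G)
    [IsCyclic R] (hG : commutator G = ⊤) {m : G} (hm : m ∈ center G) (hr : m ^ r = 1) :
    m = 1 := by
  letI : CommGroup R := IsCyclic.commGroup
  have h1 := MonoidHom.transfer_eq_pow (MonoidHom.id (R : Subgroup G)) m fun k g _ => by
    rw [mul_assoc, ← mem_center_iff.1 (pow_mem hm k) g, inv_mul_cancel_left]
  have h2 : m ∈ (MonoidHom.transfer (MonoidHom.id (R : Subgroup G))).ker :=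
    Abelianization.commutator_subset_ker _ (hG ▸ mem_top m)
  rw [MonoidHom.mem_ker, h1] at h2
  have h3 : m ^ (R : Subgroup G).index = 1 := congrArg Subtype.val h2
  exact orderOf_eq_one_iff.1 (Nat.eq_one_of_dvd_coprimes
    ((Nat.Prime.coprime_iff_not_dvd Fact.out).2 R.not_dvd_index)
    (orderOf_dvd_of_pow_eq_one hr) (orderOf_dvd_of_pow_eq_one h3))

theorem noCent (h : St p ρ) (K : Subgroup H) (hK : ⁅K, K⁆ = K) {r : ℕ} (hr : r.Prime) (hr2 : r ≠ 2)
    (hrp : r ≠ p) (M : Subgroup H) (hM : M ≤ K) (hc : Nat.card M = r)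
    (hn : ∀ k ∈ K, ∀ m ∈ M, k * m * k⁻¹ ∈ M) : False := by
  have := Fact.mk hr
  have h1 : commutator K = ⊤ := map_injective K.subtype_injective (by
    rw [map_subtype_commutator, hK, ← MonoidHom.range_eq_map, range_subtype])
  have h2 : (M.subgroupOf K).Normal := ⟨fun m hm k => hn k k.2 m hm⟩
  have h3 : IsCyclic (M.subgroupOf K) :=
    isCyclic_of_prime_card ((Nat.card_congr (subgroupOfEquivOfLe hM).toEquiv).trans hc)
  have h4 := Solv.commutator_le_centralizer_of_cyclic (M.subgroupOf K)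
  obtain ⟨R⟩ : Nonempty (Sylow r K) := inferInstance
  have h5 := rcyc h hr hr2 hrp _ (R.isPGroup'.map K.subtype)
  have h6 : IsCyclic R :=
    isCyclic_of_surjective _ (equivMapOfInjective _ _ K.subtype_injective).symm.surjective
  have h7 : M = ⊥ := eq_bot_iff.2 fun m hm => congrArg Subtype.val
    (B2_cent R h1 (m := ⟨m, hM hm⟩)
      (mem_center_iff.2 fun g => (h4 (h1 ▸ mem_top g) _ hm).symm)
      (Subtype.ext (congrArg Subtype.val (hc ▸ pow_card_eq_one' (x := (⟨m, hm⟩ : M))) :)))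
  rw [h7, card_bot] at hc
  exact hr.one_lt.ne hc

theorem inv_neg (h : St p ρ) (hp : p ≠ 2) {a : H} (ha : orderOf a = 2) : ρ a = -1 := by
  have h1 : a ≠ 1 := by
    rintro rfl
    simp at ha
  ext v
  refine eq_neg_of_add_eq_zero_left (fpf h (ha ▸ (Nat.coprime_primes Nat.prime_two Fact.out).2
    hp.symm) h1 ?_)
  change ρ a (ρ a v + v) = ρ a v + v
  rw [map_add, ← Module.End.mul_apply, ← map_mul, ← pow_two, ← ha, pow_orderOf_eq_one, map_one,
    add_comm]
  rfl

theorem inv_unique (h : St p ρ) (hp : p ≠ 2) {a b : H} (ha : orderOf a = 2) (hb : orderOf b = 2) :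
    a = b :=
  h.inj ((inv_neg h hp ha).trans (inv_neg h hp hb).symm)

end CF.Gg
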