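import Cfsg.Agent.Gg.B1
import Cfsg.Agent.S0200

/-! Basics in characteristic two for S4841. -/

set_option autoImplicit false

namespace CF.Gg

open Module

variable {H : Type*} [Group H] [Finite H] {V : Type*} [AddCommGroup V]
  [Module (ZMod 2) V] [Finite V] {ρ : H →* Module.End (ZMod 2) V}

omit [Finite V] in
theorem E0_vv (x : V) : x + x = 0 := by
  rw [← two_smul (ZMod 2), show (2 : ZMod 2) = 0 from rfl, zero_smul]

omit [Finite V] in
theorem E0_two (x : End (ZMod 2) V) : x + x = 0 := LinearMap.ext fun v => E0_vv (x v)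

omit [Finite V] in
theorem E0_eq {x y : V} : x + y = 0 ↔ x = y :=
  ⟨fun h => add_right_cancel (h.trans (E0_vv y).symm), fun h => h ▸ E0_vv x⟩

omit [Finite H] [Finite V] in
theorem E0_ker {g : H} {v : V} : v ∈ LinearMap.ker (ρ g + 1) ↔ ρ g v = v := by
  rw [LinearMap.mem_ker, LinearMap.add_apply, End.one_apply, E0_eq]

omit [Finite H] [Finite V] in
theorem E0_sq (g : H) : (ρ g + 1) * (ρ g + 1) = ρ (g * g) + 1 := by
  rw [map_mul, add_mul, mul_add, mul_one, one_mul, add_assoc, ← add_assoc (ρ g), E0_two, zero_add]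

omit [Finite H] [Finite V] in
theorem E0_le {g : H} (h : g * g = 1) : LinearMap.range (ρ g + 1) ≤ LinearMap.ker (ρ g + 1) := by
  rintro _ ⟨v, rfl⟩
  rw [LinearMap.mem_ker, ← End.mul_apply, E0_sq, h, map_one, E0_two, LinearMap.zero_apply]

omit [Finite H] in
theorem E0_tt {t : H} (ht : orderOf t = 2) : t * t = 1 := by rw [← pow_two, ← ht, pow_orderOf_eq_one]

theorem free (h : St 2 ρ) {t : H} (ht : orderOf t = 2) :
    LinearMap.ker (ρ t + 1) = LinearMap.range (ρ t + 1) := by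
  obtain ⟨g, g1, go, hg⟩ := Cfsg.Agent.S0200.result t ht fun N n p m => by
    rw [h.core N n p, Subgroup.mem_bot] at m
    simp [m] at ht
  have tt := E0_tt ht
  have k : t * g * (t * g) = 1 := by
    have : t * g * (t * g) = t * g * t⁻¹ * (t * t) * g := by group
    rw [this, hg, tt, mul_one, inv_mul_cancel]
  have d : LinearMap.ker (ρ t + 1) ⊓ LinearMap.ker (ρ (t * g) + 1) = ⊥ := by
    refine (Submodule.eq_bot_iff _).2 fun v hv => fpf h (Nat.coprime_two_right.2 go) g1 ?_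
    have a := E0_ker.1 hv.1
    have b := E0_ker.1 hv.2
    have : g = t * (t * g) := by rw [← mul_assoc, tt, one_mul]
    rw [this, map_mul, End.mul_apply, b, a]
  have := Submodule.finrank_sup_add_finrank_inf_eq (LinearMap.ker (ρ t + 1)) (LinearMap.ker (ρ (t * g) + 1))
  rw [d, finrank_bot] at this
  have := Submodule.finrank_le (LinearMap.ker (ρ t + 1) ⊔ LinearMap.ker (ρ (t * g) + 1))
  have := Submodule.finrank_mono (E0_le (ρ := ρ) k)
  have := LinearMap.finrank_range_add_finrank_ker (ρ (t * g) + 1)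
  have := LinearMap.finrank_range_add_finrank_ker (ρ t + 1)
  exact (Submodule.eq_of_le_of_finrank_le (E0_le tt) (by omega)).symm

theorem E0_dim (h : St 2 ρ) {t : H} (ht : orderOf t = 2) :
    2 * finrank (ZMod 2) (LinearMap.range (ρ t + 1)) = finrank (ZMod 2) V := by
  have := LinearMap.finrank_range_add_finrank_ker (ρ t + 1)
  rw [free h ht] at this
  omega

theorem El_self {t : H} (ht : orderOf t = 2) : t ∈ El ρ t := by
  rw [mem_El, mul_add, ← map_mul, E0_tt ht, map_one, mul_one, add_comm]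

theorem El_conj (t g a : H) : g * a * g⁻¹ ∈ El ρ (g * t * g⁻¹) ↔ a ∈ El ρ t := by
  have key : ∀ t g a : H, a ∈ El ρ t → g * a * g⁻¹ ∈ El ρ (g * t * g⁻¹) := fun t g a m => by
    have e : ρ (g * t * g⁻¹) + 1 = ρ g * (ρ t + 1) * ρ g⁻¹ := by
      rw [mul_add, add_mul, mul_one, ← map_mul, ← map_mul, ← map_mul, mul_inv_cancel, map_one]
    rw [mem_El, e, ← mul_assoc, ← mul_assoc, ← map_mul, inv_mul_cancel_right, map_mul, mul_assoc (ρ g),
      mem_El.1 m]
  refine ⟨fun m => ?_, key t g a⟩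
  simpa [mul_assoc] using key _ g⁻¹ _ m

omit [Finite H] [Finite V] in
theorem E0_mem {t g : H} : g ∈ El ρ t ↔ LinearMap.range (ρ t + 1) ≤ LinearMap.ker (ρ g + 1) :=
  ⟨fun m => by
    rintro _ ⟨v, rfl⟩
    exact E0_ker.2 (congrArg (· v) (mem_El.1 m)),
   fun m => LinearMap.ext fun v => E0_ker.1 (m ⟨v, rfl⟩)⟩

omit [Finite H] [Finite V] in
theorem E0_one (h : St 2 ρ) {g : H} (e : ρ g + 1 = 0) : g = 1 :=
  h.inj (by rw [map_one]; exact add_right_cancel (e.trans (E0_two 1).symm))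

/-- g fixes a subspace of half dimension -/
theorem El_sq (h : St 2 ρ) {t : H} (ht : orderOf t = 2) {g : H} (hg : g ∈ El ρ t) : g * g = 1 := by
  obtain ⟨v, hv⟩ : ∃ v, (ρ t + 1) v ≠ 0 := by
    by_contra k
    push Not at k
    simp [E0_one h (LinearMap.ext k)] at ht
  obtain ⟨k, hk⟩ := pel h hv (congrArg (· v) (mem_El.1 hg))
  clear hv
  induction k generalizing g with
  | zero => simp [show g = 1 by simpa using hk]
  | succ k ih =>
    have e := ih (mul_mem hg hg) (by rw [← pow_two, ← pow_mul, ← pow_succ', hk])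
    by_contra n
    have d := E0_dim h (orderOf_eq_prime (by rw [pow_two, e]) n)
    rw [← free h (orderOf_eq_prime (by rw [pow_two, e]) n), ← E0_sq] at d
    have d' := E0_dim h ht
    have := Submodule.finrank_mono (E0_mem.1 hg)
    have q : LinearMap.ker (ρ g + 1) = LinearMap.ker ((ρ g + 1) * (ρ g + 1)) :=
      Submodule.eq_of_le_of_finrank_le (fun v m => by
        rw [LinearMap.mem_ker, End.mul_apply, LinearMap.mem_ker.1 m, map_zero]) (by omega)
    have r : ∀ v, (ρ g + 1) ((ρ g + 1) v) = 0 → (ρ g + 1) v = 0 := fun v m => by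
      rw [← LinearMap.mem_ker, q]; exact m
    refine n (E0_one h ?_)
    rw [← E0_sq]
    ext v
    refine r _ (r _ ?_)
    have := E0_le (ρ := ρ) e ⟨v, rfl⟩
    rwa [← E0_sq] at this

theorem El_range (h : St 2 ρ) {t : H} (ht : orderOf t = 2) {g : H} (hg : g ∈ El ρ t) (hg1 : g ≠ 1) :
    LinearMap.range (ρ g + 1) = LinearMap.range (ρ t + 1) := by
  have o : orderOf g = 2 := orderOf_eq_prime (by rw [pow_two, El_sq h ht hg]) hg1
  have := E0_dim h ht
  have := E0_dim h o
  exact (Submodule.eq_of_le_of_finrank_le (free h o ▸ E0_mem.1 hg) (by omega)).symm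

theorem El_eq (h : St 2 ρ) {t : H} (ht : orderOf t = 2) {g : H} (hg : g ∈ El ρ t) (hg1 : g ≠ 1) :
    El ρ g = El ρ t := by
  ext a
  rw [E0_mem, E0_mem, El_range h ht hg hg1]

theorem El_mul (h : St 2 ρ) {t : H} (ht : orderOf t = 2) {a b : H} (ha : a ∈ El ρ t) (hb : b ∈ El ρ t) :
    (ρ a + 1) * (ρ b + 1) = 0 := by
  by_cases k : b = 1
  · rw [k, map_one, E0_two, mul_zero]
  · rw [← El_eq h ht hb k] at ha
    rw [add_mul, mem_El.1 ha, one_mul, E0_two]

theorem El_comm (h : St 2 ρ) {t : H} (ht : orderOf t = 2) {a b : H} (ha : a ∈ El ρ t) (hb : b ∈ El ρ t) :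
    Commute a b := by
  have e := (El_mul h ht ha hb).trans (El_mul h ht hb ha).symm
  refine h.inj ?_
  rw [map_mul, map_mul]
  have : ρ a * ρ b + (ρ a + ρ b + 1) = ρ b * ρ a + (ρ a + ρ b + 1) := by
    convert e using 1 <;> noncomm_ring
  exact add_right_cancel this

theorem El_pgroup (h : St 2 ρ) {t : H} (ht : orderOf t = 2) : IsPGroup 2 (El ρ t) := fun g =>
  ⟨1, Subtype.ext (by simpa [pow_two] using El_sq h ht g.2)⟩

theorem E0_fp3 (h : St 2 ρ) {x : H} (h3 : x ^ 3 = 1) (h1 : x ≠ 1) {v : V} (e : ρ x v = v) : v = 0 :=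
  haveI : Fact (Nat.Prime 3) := ⟨Nat.prime_three⟩
  fpf h (by rw [orderOf_eq_prime h3 h1]; decide) h1 e

theorem quad (h : St 2 ρ) {x : H} (hx : orderOf x = 3) : ρ x * ρ x + ρ x + 1 = 0 := by
  have h3 : x ^ 3 = 1 := hx ▸ pow_orderOf_eq_one x
  have e : ρ x * (ρ x * ρ x) = 1 := by rw [← map_mul, ← map_mul, ← map_one ρ, ← h3, pow_three]
  ext v
  refine E0_fp3 h h3 (fun k => by simp [k] at hx) ?_
  rw [← End.mul_apply, mul_add, mul_add, e, mul_one, add_comm 1, add_assoc, add_comm 1, ← add_assoc]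

/-- (x + y)(x + y⁻¹) = 0; a singular factor gives a fixed vector of a 3-element -/
theorem three_comm (h : St 2 ρ) {x y : H} (hx : orderOf x = 3) (hy : orderOf y = 3) (hc : Commute x y) :
    y = x ∨ y = x⁻¹ := by
  have x3 : x ^ 3 = 1 := hx ▸ pow_orderOf_eq_one x
  have y3 : y ^ 3 = 1 := hy ▸ pow_orderOf_eq_one y
  by_contra k
  push Not at k
  obtain ⟨v, hv⟩ := h.nt
  have c : ρ y * ρ x = ρ x * ρ y := (hc.map ρ).eq.symm
  have yy : ρ y * (ρ y * ρ y) = 1 := by rw [← map_mul, ← map_mul, ← map_one ρ, ← y3, pow_three]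
  have e : (ρ x + ρ y) * (ρ x + ρ y * ρ y) = 0 := by
    have : (ρ x + ρ y) * (ρ x + ρ y * ρ y) = ρ x * ρ x + ρ x + 1 + ρ x * (ρ y * ρ y + ρ y + 1) -
        (ρ x + ρ x) := by
      rw [add_mul, mul_add, mul_add, c, yy]; noncomm_ring
    rw [this, quad h hx, quad h hy, E0_two, mul_zero, add_zero, sub_zero]
  have a : (ρ x + ρ y * ρ y) v = 0 := by
    refine E0_fp3 h (x := x⁻¹ * y) (by rw [hc.inv_left.mul_pow, inv_pow, x3, y3]; simp)
      (fun q => k.1 (inv_mul_eq_one.1 q).symm) ?_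
    have := E0_eq.1 (congrArg (· v) e)
    rw [map_mul, End.mul_apply]
    refine (congrArg _ this.symm).trans ?_
    rw [← End.mul_apply, ← map_mul, inv_mul_cancel, map_one, End.one_apply]
  refine hv (E0_fp3 h (x := y * x) (by rw [hc.symm.mul_pow, x3, y3, mul_one])
    (fun q => k.2 (eq_inv_of_mul_eq_one_left q)) ?_)
  rw [map_mul, End.mul_apply, E0_eq.1 a, ← End.mul_apply, yy, End.one_apply]

/-- an element fixing a nonzero row of a nonzero operator is a 2-element -/
theorem two_of_right (h : St 2 ρ) {g : H} {β : Module.End (ZMod 2) V} (hβ : β ≠ 0) (hg : β * ρ g = β) :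
    ∃ k : ℕ, g ^ 2 ^ k = 1 := by
  have : ¬ Function.Injective (ρ g + 1 : End (ZMod 2) V) := fun i => hβ <| by
    ext v
    obtain ⟨w, rfl⟩ := Finite.surjective_of_injective i v
    rw [← End.mul_apply, mul_add, hg, mul_one, E0_two]
    rfl
  rw [← LinearMap.ker_eq_bot, ← Ne, Submodule.ne_bot_iff] at this
  obtain ⟨v, m, hv⟩ := this
  exact pel h hv (E0_ker.1 m)

end CF.Gg
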