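import Cfsg.Agent.Gg.E0

/-! Lemma A: two elements of order three whose quotient is a `2`-element. -/

set_option autoImplicit false

namespace CF.Gg

open LinearMap Module

section
variable {R : Type*} [Ring R] (h2 : (1 : R) + 1 = 0) {c e e' : R}
include h2

theorem E1_pow (h : e * e = 1 + c * e) (i : ℕ) : e ^ 2 ^ (i + 1) = 1 + (c * e) ^ 2 ^ i := by
  induction' i with i ih
  · simpa [sq] using h
  · rw [pow_succ 2 (i + 1), pow_mul, ih, pow_succ 2 i, pow_mul]
    linear_combination (norm := noncomm_ring) (c * e) ^ 2 ^ i * h2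

theorem E1_D (k : Commute c e) (k' : Commute c e') (h : e * e = 1 + c * e)
    (h' : e' * e' = 1 + c * e') (i : ℕ) :
    e ^ 2 ^ i + e' ^ 2 ^ i = c ^ (2 ^ i - 1) * (e + e') := by
  induction' i with i ih
  · simp
  · have := Nat.two_pow_pos i
    rw [E1_pow h2 h, E1_pow h2 h', k.mul_pow, k'.mul_pow,
      show 2 ^ (i + 1) - 1 = 2 ^ i + (2 ^ i - 1) by omega, pow_add, mul_assoc, ← ih]
    linear_combination (norm := noncomm_ring) h2

theorem E1_u (i : ℕ) : (e + 1) ^ 2 ^ i = e ^ 2 ^ i + 1 := by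
  induction' i with i ih
  · simp
  · rw [pow_succ, pow_mul, pow_mul, ih]
    linear_combination (norm := noncomm_ring) e ^ 2 ^ i * h2

end

variable {H : Type*} [Group H] [Finite H] {V : Type*} [AddCommGroup V]
  [Module (ZMod 2) V] [Finite V] {ρ : H →* Module.End (ZMod 2) V}

omit [Finite H] [Finite V] in
theorem E1_two : (1 : End (ZMod 2) V) + 1 = 0 := by
  rw [← two_smul (ZMod 2), show (2 : ZMod 2) = 0 from rfl, zero_smul]

omit [Finite H] [Finite V] in
theorem E1_le (u : End (ZMod 2) V) (a b : ℕ) : ker (u ^ a) ≤ ker (u ^ (b + a)) := fun v hv => by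
  rw [mem_ker, pow_add, End.mul_apply, mem_ker.1 hv, map_zero]

omit [Finite H] [Finite V] in
theorem E1_nil {u : End (ZMod 2) V} {k n : ℕ} (h : ker (u ^ (k + 1)) ≤ ker (u ^ k))
    (e : u ^ (k + n) = 0) : u ^ k = 0 := by
  have := E1_le u k 1
  rw [add_comm] at this
  rw [← ker_eq_top, End.ker_pow_constant (le_antisymm this h) n, e, ker_zero]

theorem E1_step (h : St 2 ρ) {x y : H} (hx : orderOf x = 3) (hy : orderOf y = 3) {j : ℕ}
    (hd : (x * y⁻¹) ^ 2 ^ (j + 2) = 1) : (x * y⁻¹) ^ 2 ^ (j + 1) = 1 := by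
  have h2 := E1_two (V := V)
  have iv : ∀ {x : H}, orderOf x = 3 → ρ x⁻¹ = ρ x + 1 := fun {x} hx => by
    rw [inv_eq_of_mul_eq_one_right (show x * (x * x) = 1 by
      rw [← pow_three, ← hx, pow_orderOf_eq_one]), map_mul]
    linear_combination (norm := noncomm_ring) quad h hx - (ρ x + 1) * h2
  have q := quad h hx
  by_contra ne
  obtain ⟨d, hdd⟩ : ∃ d, d = x * y⁻¹ := ⟨_, rfl⟩
  rw [← hdd] at hd ne
  obtain ⟨c, hc⟩ : ∃ c, c = ρ d + ρ d⁻¹ := ⟨_, rfl⟩
  have e1 : ρ d = ρ x * (ρ y + 1) := by rw [hdd, map_mul, iv hy]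
  have e2 : ρ d⁻¹ = ρ y * (ρ x + 1) := by rw [hdd, mul_inv_rev, inv_inv, map_mul, iv hx]
  have cx : Commute c (ρ x) := by
    rw [hc, e1, e2]
    change _ * _ = _ * _
    linear_combination (norm := noncomm_ring) ρ y * q - q * ρ y
  have cd : ∀ g, Commute d g → Commute c (ρ g) := fun g k =>
    hc ▸ (k.map ρ).add_left (k.inv_left.map ρ)
  have cx' : Commute c (ρ x⁻¹) := iv hx ▸ cx.add_right (.one_right _)
  have s1 : ρ d * ρ d = 1 + c * ρ d := by
    rw [hc, add_mul, ← map_mul ρ d⁻¹, inv_mul_cancel, map_one]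
    linear_combination (norm := noncomm_ring) -h2
  have s2 : ρ (x * d * x⁻¹) * ρ (x * d * x⁻¹) = 1 + c * ρ (x * d * x⁻¹) := by
    rw [← map_mul, conj_mul, map_mul, map_mul, map_mul, s1, mul_add, add_mul, mul_one, ← map_mul,
      mul_inv_cancel, map_one, map_mul, map_mul, ← mul_assoc, ← cx.eq]
    simp only [mul_assoc]
  have c2 : Commute c (ρ (x * d * x⁻¹)) := by
    rw [map_mul, map_mul]
    exact (cx.mul_right (cd d (.refl d))).mul_right cx'
  have s3 : ρ d + ρ (x * d * x⁻¹) = ρ x * (ρ d + 1) + c * (ρ x * ρ x) := by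
    rw [map_mul, map_mul, iv hx, hc, e2, e1]
    linear_combination (norm := noncomm_ring) q * (ρ y * ρ x) - ρ x * ρ y * q - ρ y * ρ x * q +
      ρ x * ρ y * h2
  have D := E1_D h2 (cd d (.refl d)) c2 s1 s2 (j + 1)
  have p1 := E1_pow h2 s1 j
  have p2 := E1_pow h2 s1 (j + 1)
  have p3 := E1_u (e := ρ d) h2 (j + 1)
  have p4 := E1_u (e := ρ d) h2 (j + 2)
  have hm := Nat.two_pow_pos j
  obtain ⟨m, em⟩ : ∃ m, 2 ^ j = m + 1 := ⟨2 ^ j - 1, by omega⟩
  have e3 : 2 ^ (j + 1) = 2 * m + 2 := by omega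
  have e4 : 2 ^ (j + 2) = 4 * m + 4 := by rw [pow_succ, e3]; omega
  rw [e3] at ne
  rw [e4] at hd
  simp only [e3, e4, em, ← map_pow, hd, map_one, (cd d (.refl d)).mul_pow] at D p1 p2 p3 p4
  have c0 : c ^ (2 * m + 2) = 0 := by
    have := congrArg (· * ρ (d ^ (2 * m + 2))⁻¹) (left_eq_add.1 p2)
    simpa [mul_assoc, ← map_mul, -map_pow] using this
  have t2 : d ^ (2 * m + 2) * d ^ (2 * m + 2) = 1 := by rw [← pow_add, ← hd]; congr 1; omega
  have ft := free h (orderOf_eq_prime (p := 2) (by rw [sq, t2]) ne)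
  set u := ρ d + 1 with hu
  have u0 : u ^ (4 * m + 4) = 0 := p4.trans h2
  have fin : u ^ (2 * m + 2) ≠ 0 := fun k => ne (h.inj (by
    rw [map_one]
    linear_combination (norm := noncomm_ring) k - p3 - h2))
  have cu : Commute c u := (cd d (.refl d)).add_right (.one_right _)
  have uu : c = ρ d⁻¹ * u ^ 2 := by
    rw [show u ^ 2 = ρ d * c by
      rw [← (cd d (.refl d)).eq, hu]
      linear_combination (norm := noncomm_ring) s1 + (ρ d + 1) * h2, ← mul_assoc, ← map_mul]
    simp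
  obtain ⟨z, hz⟩ : ∃ z, z = d ^ (2 * m + 2) * (x * d * x⁻¹) ^ (2 * m + 2) := ⟨_, rfl⟩
  have z1 : ρ z = 1 + c ^ (2 * m + 1) * (ρ x * u) := by
    have a1 : ρ ((x * d * x⁻¹) ^ (2 * m + 2)) =
        ρ (d ^ (2 * m + 2)) + c ^ (2 * m + 1) * (ρ x * u) := by
      rw [s3, show 2 * m + 2 - 1 = 2 * m + 1 from rfl, mul_add, ← mul_assoc _ c, ← pow_succ, c0,
        zero_mul, add_zero] at D
      linear_combination (norm := noncomm_ring) D - ρ (d ^ (2 * m + 2)) * h2
    rw [hz, map_mul, a1, mul_add, ← map_mul, t2, map_one, p1, add_mul, one_mul, mul_assoc,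
      ← mul_assoc (ρ _), ← ((cd _ ((Commute.refl d).pow_right _)).pow_left _).eq, mul_assoc,
      ← mul_assoc (c ^ (m + 1)), ← pow_add, show m + 1 + (2 * m + 1) = 2 * m + 2 + m by omega,
      pow_add c (2 * m + 2), c0]
    simp
  have z2 : z * z = 1 := h.inj (by
    have : c ^ (2 * m + 1) * (ρ x * u) * (c ^ (2 * m + 1) * (ρ x * u)) = 0 := by
      rw [mul_assoc, ← mul_assoc (ρ x * u), ← ((cx.mul_right cu).pow_left _).eq, mul_assoc,
        ← mul_assoc, ← pow_add, show 2 * m + 1 + (2 * m + 1) = 2 * m + 2 + 2 * m by omega,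
        pow_add, c0]
      simp
    rw [map_mul, map_one, z1]
    linear_combination (norm := noncomm_ring) this + c ^ (2 * m + 1) * (ρ x * u) * h2)
  have z3 : ρ z + 1 = ρ (x * d⁻¹ ^ (2 * m + 1)) * u ^ (4 * m + 3) := by
    have : Commute (ρ d⁻¹) (u ^ 2) :=
      ((((Commute.refl d).inv_left.map ρ).add_right (.one_right _)).pow_right 2)
    rw [z1, ← mul_assoc, (cx.pow_left _).eq, map_mul, map_pow, uu, this.mul_pow, ← pow_mul,
      show 4 * m + 3 = 2 * (2 * m + 1) + 1 by omega, pow_succ u]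
    linear_combination (norm := noncomm_ring) h2
  have z4 : ker (ρ z + 1) = ker (u ^ (4 * m + 3)) := by
    rw [z3]
    exact ker_comp_of_ker_eq_bot _ (ker_eq_bot.2 ((End.isUnit_iff _).1 ((Group.isUnit _).map ρ)).1)
  rw [← p3] at ft
  by_cases k : z = 1
  · rw [k, map_one, h2, ker_zero, eq_comm, ker_eq_top] at z4
    have l : ker (u ^ (2 * m + 2)) ≤ ker (u ^ (2 * m + 1)) := by
      rw [ft]
      rintro _ ⟨v, rfl⟩
      rw [mem_ker, ← End.mul_apply, ← pow_add, show 2 * m + 1 + (2 * m + 2) = 4 * m + 3 by omega, z4]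
      rfl
    exact fin (by rw [pow_succ, E1_nil (n := 2 * m + 2) l (by rw [← z4]; congr 1; omega), zero_mul])
  · have fz := free h (orderOf_eq_prime (p := 2) (by rw [sq, z2]) k)
    have := Module.Finite.of_finite (R := ZMod 2) (M := V)
    have r1 := (ρ z + 1).finrank_range_add_finrank_ker
    have r2 := (u ^ (2 * m + 2)).finrank_range_add_finrank_ker
    rw [← fz, z4] at r1
    rw [← ft] at r2
    refine fin (E1_nil (n := 2 * m + 2) ?_ (by rw [← u0]; congr 1; omega))
    have l1 := E1_le u (2 * m + 2) (2 * m + 1)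
    have l2 := E1_le u (2 * m + 2 + 1) (2 * m)
    rw [show 2 * m + 1 + (2 * m + 2) = 4 * m + 3 by omega] at l1
    rw [show 2 * m + (2 * m + 2 + 1) = 4 * m + 3 by omega] at l2
    exact l2.trans (Submodule.eq_of_le_of_finrank_eq l1 (by omega)).ge

theorem lemA (h : St 2 ρ) {x y : H} (hx : orderOf x = 3) (hy : orderOf y = 3) {k : ℕ}
    (hd : (x * y⁻¹) ^ 2 ^ k = 1) : (x * y⁻¹) ^ 2 = 1 := by
  induction' k with k ih
  · rw [pow_zero, pow_one] at hd
    rw [hd, one_pow]
  rcases k with _ | k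
  · simpa using hd
  · exact ih (E1_step h hx hy hd)

theorem beta_pair (h : St 2 ρ) (hA : ¬ Alpha H) :
    ∃ x e : H, orderOf x = 3 ∧ orderOf e = 2 ∧ orderOf (x * e) = 3 := by
  simp only [Alpha, not_forall] at hA
  obtain ⟨x, hx, T, hT, hn, a, ha, k⟩ := hA
  have hy : orderOf (a * x * a⁻¹) = 3 := by rw [← hx]; exact (MulAut.conj a).orderOf_eq x
  have h1 : x * (a * x * a⁻¹)⁻¹ ∈ T := by
    have := mul_mem (hn a ha) (inv_mem ha)
    simpa [mul_assoc] using this
  obtain ⟨n, e⟩ := hT ⟨_, h1⟩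
  refine ⟨x⁻¹, x * (a * x * a⁻¹)⁻¹, by rwa [orderOf_inv], orderOf_eq_prime
    (lemA h hx hy (congrArg Subtype.val e)) fun e => k ?_, by rwa [inv_mul_cancel_left, orderOf_inv]⟩
  exact eq_mul_inv_iff_mul_eq.1 (mul_inv_eq_one.1 e)

theorem alpha_eq (h : St 2 ρ) (hA : Alpha H) {x y : H} (hx : orderOf x = 3) (hy : orderOf y = 3)
    {k : ℕ} (hd : (x * y⁻¹) ^ 2 ^ k = 1) : x = y := by
  have h1 := lemA h hx hy hd
  have x3 : x ^ 3 = 1 := hx ▸ pow_orderOf_eq_one x
  have y3 : y⁻¹ ^ 3 = 1 := by rw [inv_pow, ← hy, pow_orderOf_eq_one, inv_one]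
  obtain ⟨d, hdd⟩ : ∃ d, d = x * y⁻¹ := ⟨_, rfl⟩
  rw [← hdd] at h1
  rw [show y⁻¹ = x⁻¹ * d by rw [hdd, inv_mul_cancel_left]] at y3
  have xi : x⁻¹ = x * x := inv_eq_of_mul_eq_one_right (by rw [← pow_three, x3])
  have b2 : (x * d * x⁻¹) ^ 2 = 1 := by rw [conj_pow, h1]; simp
  have e1 : x * (x * d * x⁻¹) * x⁻¹ * (x * d * x⁻¹ * d) = 1 := by
    have k : ∀ g, x * (x * g) = x⁻¹ * g := fun g => by rw [xi, mul_assoc]
    rw [← y3, pow_three]
    simp only [mul_assoc, inv_mul_cancel_left, k]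
  have di : d⁻¹ = d := inv_eq_of_mul_eq_one_right (by rw [← sq, h1])
  have bi : (x * d * x⁻¹)⁻¹ = x * d * x⁻¹ := inv_eq_of_mul_eq_one_right (by rw [← sq, b2])
  have e2 : x * (x * d * x⁻¹) * x⁻¹ = d * (x * d * x⁻¹) := by
    rw [eq_inv_of_mul_eq_one_left e1, mul_inv_rev, di, bi]
  have cm : Commute d (x * d * x⁻¹) := by
    have : (d * (x * d * x⁻¹)) ^ 2 = 1 := by rw [← e2, conj_pow, b2]; simp
    have := inv_eq_of_mul_eq_one_right ((sq _).symm.trans this)
    rw [mul_inv_rev, di, bi] at this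
    exact this.symm
  let T := Subgroup.closure {d, x * d * x⁻¹}
  have m1 : d ∈ T := Subgroup.subset_closure (by simp)
  have m2 : x * d * x⁻¹ ∈ T := Subgroup.subset_closure (by simp)
  have hT : ∀ g ∈ T, g ^ 2 = 1 := fun g hg => by
    have hc : ∀ a ∈ T, ∀ b ∈ T, Commute a b := fun a ha b hb => by
      induction ha, hb using Subgroup.closure_induction₂ with
      | mem a b p q => rcases p with rfl | rfl <;> rcases q with rfl | rfl <;>
          first | exact .refl _ | exact cm | exact cm.symm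
      | one_left => exact .one_left _
      | one_right => exact .one_right _
      | mul_left _ _ _ _ _ _ p q => exact p.mul_left q
      | mul_right _ _ _ _ _ _ p q => exact p.mul_right q
      | inv_left _ _ _ _ p => exact p.inv_left
      | inv_right _ _ _ _ p => exact p.inv_right
    induction hg using Subgroup.closure_induction with
    | mem g hg => rcases hg with rfl | rfl <;> assumption
    | one => simp
    | mul a b p q p' q' => rw [(hc a p b q).mul_pow, p', q', one_mul]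
    | inv a _ p => rw [inv_pow, p, inv_one]
  have := hA x hx T (fun g => ⟨1, Subtype.ext (by simpa using hT g g.2)⟩) (fun a ha => by
    induction ha using Subgroup.closure_induction with
    | mem g hg =>
      rcases hg with rfl | rfl
      · exact m2
      · exact e2 ▸ mul_mem m1 m2
    | one => simp
    | mul a b _ _ p q => rw [← conj_mul]; exact mul_mem p q
    | inv a _ p => rw [← conj_inv]; exact inv_mem p) d m1
  rw [this.inv_left.mul_pow, inv_pow, x3, pow_succ, h1] at y3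
  exact mul_inv_eq_one.1 (hdd ▸ by simpa using y3)

end CF.Gg
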