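import Cfsg.Agent.Gg.B2
import Cfsg.Agent.S0721

/-! S4841, `p = 2`: a simple normal subgroup. -/

set_option autoImplicit false

namespace CF.Gg

open Subgroup

theorem E2_perfect {H : Type*} [Group H] [Finite H] (hns : ¬ Group.IsSolvable H) :
    ∃ K : Subgroup H, K.Normal ∧ K ≠ ⊥ ∧ ⁅K, K⁆ = K := by
  obtain ⟨n, hn⟩ := exists_minimalFor_of_wellFoundedLT (fun _ : ℕ => True) (derivedSeries H)
    ⟨0, trivial⟩
  exact ⟨derivedSeries H n, inferInstance, fun e => hns ⟨n, e⟩,
    le_antisymm (commutator_le_left _ _) (hn.2 (j := n + 1) trivial (commutator_le_left _ _))⟩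

variable {H : Type*} [Group H] [Finite H] {V : Type*} [AddCommGroup V]
  [Module (ZMod 2) V] [Finite V] {ρ : H →* Module.End (ZMod 2) V}

theorem e_simple (h : St 2 ρ) (hns : ¬ Group.IsSolvable H) :
    ∃ L : Subgroup H, L.Normal ∧ IsSimpleGroup L ∧ ¬ IsMulCommutative L := by
  classical
  obtain ⟨K, nK, K0, pK⟩ := E2_perfect hns
  obtain ⟨M, ⟨nM, M0, hM⟩, MK⟩ := CF.Solv.exists_isMinNormal_le K K0
  obtain ⟨T, _, m, sT, m0, ⟨e⟩⟩ := Cfsg.Agent.S0721.result M M0 hM
  obtain ⟨r, hr, r2, rM⟩ : ∃ r : ℕ, r.Prime ∧ r ≠ 2 ∧ r ∣ Nat.card M := by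
    by_contra k
    push Not at k
    exact M0 (h.core M nM (IsPGroup.of_card (Nat.eq_prime_pow_of_unique_prime_dvd Nat.card_pos.ne'
      fun {r} a b => by_contra fun c => k r a c b)))
  obtain rfl | m2 : m = 1 ∨ 2 ≤ m := by omega
  · have sM : IsSimpleGroup M := (e.trans (MulEquiv.piUnique _)).isSimpleGroup
    refine ⟨M, nM, sM, fun c => ?_⟩
    have hp : (Nat.card M).Prime :=
      @IsSimpleGroup.prime_card M { (inferInstance : Group M) with mul_comm := c.1.1 } sM
    exact noCent h K pK hr r2 r2 M MK ((Nat.prime_dvd_prime_iff_eq hr hp).1 rM).symm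
      fun k _ x hx => nM.conj_mem x hx k
  · exfalso
    have fT : Finite T := Finite.of_injective
      (fun t : T => e.symm (Pi.mulSingle ⟨0, m0⟩ t))
      (e.symm.injective.comp (Pi.mulSingle_injective (M := fun _ => T) _))
    rw [Nat.card_congr e.toEquiv, Nat.card_pi, Finset.prod_const] at rM
    have := Fact.mk hr
    obtain ⟨t, ht⟩ := exists_prime_orderOf_dvd_card' r (hr.dvd_of_dvd_pow rM)
    let Z : Subgroup (Fin m → T) := Subgroup.pi Set.univ fun _ => zpowers t
    have hZ : ∀ z : Z, z ^ r = 1 := fun z => Subtype.ext (funext fun i => by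
      obtain ⟨k, hk⟩ := z.2 i trivial
      change z.1 i ^ r = 1
      rw [← hk, ← zpow_natCast, ← zpow_mul, mul_comm, zpow_mul, zpow_natCast, ← ht,
        pow_orderOf_eq_one, one_zpow])
    let f : (Fin m → T) →* H := M.subtype.comp e.symm.toMonoidHom
    have inj : Function.Injective f := Subtype.val_injective.comp e.symm.injective
    have pZ : IsPGroup r Z := fun z => ⟨1, by rw [pow_one, hZ]⟩
    have cZ : IsCyclic Z := by
      have := rcyc h hr r2 r2 (Z.map f) (pZ.map f)
      exact isCyclic_of_surjective _ (Z.equivMapOfInjective f inj).symm.surjective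
    have c1 : Nat.card Z ∣ r := by
      rw [← IsCyclic.exponent_eq_card]
      exact Monoid.exponent_dvd_of_forall_pow_eq_one hZ
    have mem : ∀ i : Fin m, Pi.mulSingle i t ∈ Z := fun i j _ => by
      by_cases k : j = i
      · subst k; simp
      · simp [k]
    have o : orderOf (Pi.mulSingle (⟨0, m0⟩ : Fin m) t : Fin m → T) = r := by
      rw [← ht]
      exact orderOf_injective (MonoidHom.mulSingle (fun _ : Fin m => T) ⟨0, m0⟩)
        (Pi.mulSingle_injective (M := fun _ => T) _) t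
    have eq : zpowers (Pi.mulSingle (⟨0, m0⟩ : Fin m) t : Fin m → T) = Z :=
      eq_of_le_of_card_ge (zpowers_le.2 (mem _)) (by
        rw [Nat.card_zpowers, o]; exact Nat.le_of_dvd hr.pos c1)
    obtain ⟨k, hk⟩ : Pi.mulSingle (⟨1, m2⟩ : Fin m) t ∈
      zpowers (Pi.mulSingle (⟨0, m0⟩ : Fin m) t : Fin m → T) := eq ▸ mem _
    have k1 := congrFun hk ⟨1, m2⟩
    simp at k1
    rw [← k1, orderOf_one] at ht
    exact hr.one_lt.ne ht

end CF.Gg
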