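import Cfsg.Agent.Gg.E5a
import Cfsg.Agent.Gg.E1

/-! S4841, case beta. -/

set_option autoImplicit false

namespace CF.Gg

variable {H : Type*} [Group H] [Finite H] {V : Type*} [AddCommGroup V]
  [Module (ZMod 2) V] [Finite V] {ρ : H →* Module.End (ZMod 2) V}

theorem e_beta (h : St 2 ρ) {x e : H} (hx : orderOf x = 3) (he : orderOf e = 2)
    (hxe : orderOf (x * e) = 3) : NC ρ e :=
  E5_core h (fun _ _ ha hb _ hk => lemA h ha hb hk) hx he hxe

end CF.Gg
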