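import Cfsg.Agent.Gg.B1

/-! S4841, case beta: the ring calculus, with Lemma A as a hypothesis. -/

set_option autoImplicit false
set_option linter.unusedSectionVars false

namespace CF.Gg

theorem E5_ring_semi {R : Type*} [Ring R] (h2 : ∀ c : R, c + c = 0) {X Xi u : R} (hi : Xi * X = 1)
    (hu : u * u = 0) (hq : X * X + X + 1 = 0)
    (hd : (X * (u + 1)) * (X * (u + 1)) + X * (u + 1) + 1 = 0) :
    u * X = (X + 1) * u ∧ u * X * u = 0 := by
  have s1 : X * (X * u + u * X + u * X * u + u) = 0 := by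
    linear_combination (norm := noncomm_ring) hd - hq
  have s2 : X * u + u * X + u * X * u + u = 0 := by
    have := congrArg (Xi * ·) s1
    simpa only [← mul_assoc, hi, one_mul, mul_zero] using this
  have s3 : u * X * u = 0 := by
    linear_combination (norm := noncomm_ring) u * s2 - hu * X - hu * (X * u) - hu
  refine ⟨?_, s3⟩
  linear_combination (norm := noncomm_ring) s2 - s3 - h2 (X * u) - h2 u

variable {H : Type*} [Group H] [Finite H] {V : Type*} [AddCommGroup V]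
  [Module (ZMod 2) V] [Finite V] {ρ : H →* Module.End (ZMod 2) V}

theorem E5_two (c : Module.End (ZMod 2) V) : c + c = 0 := by
  rw [← two_smul (ZMod 2) c, show (2 : ZMod 2) = 0 from rfl, zero_smul]

theorem E5_twov (v : V) : v + v = 0 := by
  rw [← two_smul (ZMod 2) v, show (2 : ZMod 2) = 0 from rfl, zero_smul]

theorem E5_quad (h : St 2 ρ) {x : H} (hx : orderOf x = 3) : ρ x * ρ x + ρ x + 1 = 0 := by
  refine LinearMap.ext fun v => ?_
  have h3 : x * x * x = 1 := by
    have := pow_orderOf_eq_one x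
    rwa [hx, pow_three'] at this
  have h1 : x ≠ 1 := by
    rintro rfl
    rw [orderOf_one] at hx
    omega
  refine fpf h (g := x) (by rw [hx]; norm_num) h1 ?_
  rw [← Module.End.mul_apply, mul_add, mul_add, mul_one, ← mul_assoc, ← map_mul, ← map_mul, h3,
    map_one, map_mul]
  congr 1
  abel

theorem E5_right (h : St 2 ρ) {g : H} {β : Module.End (ZMod 2) V} (hβ : β ≠ 0) (hg : β * ρ g = β) :
    ∃ k : ℕ, g ^ 2 ^ k = 1 := by
  by_cases hinj : Function.Injective (ρ g - 1 : Module.End (ZMod 2) V)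
  · exfalso
    apply hβ
    have hs : Function.Surjective (ρ g - 1 : Module.End (ZMod 2) V) :=
      Finite.injective_iff_surjective.1 hinj
    refine LinearMap.ext fun v => ?_
    obtain ⟨w, rfl⟩ := hs v
    rw [← Module.End.mul_apply, mul_sub, hg, mul_one, sub_self]
    simp
  · rw [injective_iff_map_eq_zero] at hinj
    push Not at hinj
    obtain ⟨v, hv, hv0⟩ := hinj
    refine pel h hv0 ?_
    rw [LinearMap.sub_apply, sub_eq_zero] at hv
    simpa using hv

theorem E5_sq {d : H} (hd : d * d = 1) : (ρ d + 1) * (ρ d + 1) = 0 := by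
  have e : ρ d * ρ d = 1 := by rw [← map_mul, hd, map_one]
  linear_combination (norm := noncomm_ring) e + E5_two (ρ d) + E5_two (1 : Module.End (ZMod 2) V)

theorem E5_semi (h : St 2 ρ) {x d : H} (hx : orderOf x = 3) (hd : d * d = 1)
    (hxd : orderOf (x * d) = 3) :
    (ρ d + 1) * ρ x = (ρ x + 1) * (ρ d + 1) ∧ (ρ d + 1) * ρ x * (ρ d + 1) = 0 := by
  refine E5_ring_semi E5_two (Xi := ρ x⁻¹) (by rw [← map_mul, inv_mul_cancel, map_one]) (E5_sq hd)
    (E5_quad h hx) ?_
  have e : ρ d + 1 + 1 = ρ d := by rw [add_assoc, E5_two, add_zero]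
  rw [e, ← map_mul]
  exact E5_quad h hxd

theorem E5_inv (h : St 2 ρ) {x : H} (hx : orderOf x = 3) : ρ x⁻¹ = ρ x + 1 := by
  have e : ρ x⁻¹ * ρ x = 1 := by rw [← map_mul, inv_mul_cancel, map_one]
  have q := E5_quad h hx
  linear_combination (norm := noncomm_ring) ρ x⁻¹ * q - e * ρ x - e - E5_two (ρ x)
    - E5_two (1 : Module.End (ZMod 2) V)

theorem E5_conj (h : St 2 ρ) {x e : H} (hx : orderOf x = 3) (he : e * e = 1)
    (hxe : orderOf (x * e) = 3) : ρ (x * e * x⁻¹) = (ρ e + 1) * ρ x + 1 := by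
  obtain ⟨s1, -⟩ := E5_semi h hx he hxe
  have q := E5_quad h hx
  rw [map_mul, map_mul, E5_inv h hx]
  linear_combination (norm := noncomm_ring) ρ x * s1 - s1 + q * (ρ e + 1) - q
    - E5_two (ρ e + 1)

theorem E5_self {e : H} (he : e * e = 1) : e ∈ El ρ e := by
  rw [mem_El]
  linear_combination (norm := noncomm_ring) E5_sq (ρ := ρ) he - E5_two (ρ e + 1)

theorem E5_conj_mem (h : St 2 ρ) {x e : H} (hx : orderOf x = 3) (he : e * e = 1)
    (hxe : orderOf (x * e) = 3) : x * e * x⁻¹ ∈ El ρ e := by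
  rw [mem_El, E5_conj h hx he hxe]
  obtain ⟨-, s2⟩ := E5_semi h hx he hxe
  linear_combination (norm := noncomm_ring) s2

theorem E5_swap (a b : H) : orderOf (a * b) = orderOf (b * a) := by
  have : b * a = b * (a * b) * b⁻¹ := by group
  rw [this]
  exact ((MulAut.conj b).orderOf_eq (a * b)).symm

theorem E5_cm {a b : H} (c : Commute a b) : Commute (ρ a + 1) (ρ b + 1) :=
  (((c.map ρ).add_left (Commute.one_left _))).add_right (Commute.one_right _)

/-- the second half of the argument: `x y⁻¹` is a 2-element -/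
theorem E5_fin (h : St 2 ρ)
    (hA : ∀ x y : H, orderOf x = 3 → orderOf y = 3 → ∀ k : ℕ, (x * y⁻¹) ^ 2 ^ k = 1 →
      (x * y⁻¹) ^ 2 = 1)
    {x e y f : H} (hx : orderOf x = 3) (he : e * e = 1) (hxe : orderOf (x * e) = 3)
    (hy : orderOf y = 3) (hf : f * f = 1) (hyf : orderOf (y * f) = 3)
    (hc : ∀ a ∈ El ρ e, ∀ b ∈ El ρ f, Commute a b) {k : ℕ} (hk : (x * y⁻¹) ^ 2 ^ k = 1) :
    (ρ e + 1) * (ρ f + 1) = 0 := by
  by_contra hβ
  have two := E5_two (V := V)
  obtain ⟨d, hd⟩ : ∃ d, d = x * y⁻¹ := ⟨_, rfl⟩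
  have hdd : d * d = 1 := by rw [hd, ← pow_two]; exact hA x y hx hy k hk
  have hdi : d⁻¹ = d := inv_eq_of_mul_eq_one_right hdd
  have hyd : y = d * x := by rw [← hdi, hd]; group
  obtain ⟨s1, s2⟩ := E5_semi h hx he hxe
  obtain ⟨t1, -⟩ := E5_semi h hy hf hyf
  have uu := E5_sq (ρ := ρ) he
  have q := E5_quad h hx
  have cum := (E5_cm (ρ := ρ) (hc _ (E5_self he) _ (E5_self hf))).eq
  have cuxm := (E5_cm (ρ := ρ) (hc _ (E5_conj_mem h hx he hxe) _ (E5_self hf))).eq
  have cumy := (E5_cm (ρ := ρ) (hc _ (E5_self he) _ (E5_conj_mem h hy hf hyf))).eq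
  rw [E5_conj h hx he hxe, add_assoc, two, add_zero] at cuxm
  rw [E5_conj h hy hf hyf, add_assoc, two, add_zero] at cumy
  have eD : ρ d = ρ x * (ρ y + 1) := by rw [hd, map_mul, E5_inv h hy]
  have eY : ρ y = ρ d * ρ x := by rw [hyd, map_mul]
  have DD : ρ d * ρ d = 1 := by rw [← map_mul, hdd, map_one]
  obtain ⟨u, hu⟩ : ∃ u, u = ρ e + 1 := ⟨_, rfl⟩
  obtain ⟨m, hm⟩ : ∃ m, m = ρ f + 1 := ⟨_, rfl⟩
  rw [← hu] at s1 s2 uu cuxm cumy
  rw [← hm] at t1 cuxm cumy
  rw [← hu, ← hm] at cum hβ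
  have bX : u * m * ρ x = (ρ x + 1) * (u * m) := by
    linear_combination (norm := noncomm_ring) cum * ρ x - cuxm + s1 * m
  have bY : u * m * ρ y = (ρ y + 1) * (u * m) := by
    linear_combination (norm := noncomm_ring) cumy + t1 * u - (ρ y + 1) * cum
  have bD : ρ d * (u * m) = u * m * ((ρ x + 1) * ρ y) := by
    rw [eD]
    linear_combination (norm := noncomm_ring) - ρ x * bY - bX * ρ y - two (u * m * ρ y)
  -- a common fixed vector of `d`, `e`, `x e x⁻¹`
  obtain ⟨w, hw0, hwr, hwd⟩ : ∃ w : V, w ≠ 0 ∧ (∃ v, w = (u * m) v) ∧ ρ d w = w := by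
    obtain ⟨v, hv⟩ : ∃ v, (u * m) v ≠ 0 := by
      by_contra hn
      push Not at hn
      exact hβ (LinearMap.ext hn)
    by_cases hfix : ρ d ((u * m) v) = (u * m) v
    · exact ⟨_, hv, ⟨v, rfl⟩, hfix⟩
    · refine ⟨ρ d ((u * m) v) + (u * m) v, ?_, ⟨((ρ x + 1) * ρ y) v + v, ?_⟩, ?_⟩
      · intro h0
        apply hfix
        have := congrArg (· + (u * m) v) h0
        simpa only [add_assoc, E5_twov, add_zero, zero_add] using this
      · rw [map_add, ← Module.End.mul_apply (ρ d), bD, Module.End.mul_apply (u * m)]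
      · rw [map_add, ← Module.End.mul_apply (ρ d) (ρ d), DD, Module.End.one_apply, add_comm]
  obtain ⟨v, hv⟩ := hwr
  have key : ∀ a : H, a * a = 1 → orderOf (a * x) = 3 → ρ a * (u * m) = u * m → Commute a d := by
    intro a haa ha hfix
    have h1 : ρ (a * d) w = w := by
      rw [map_mul, Module.End.mul_apply, hwd, hv, ← Module.End.mul_apply, hfix]
    obtain ⟨j, hj⟩ := pel h hw0 h1
    have e1 : a * x * y⁻¹ = a * d := by rw [hd, mul_assoc]
    have h2 := hA (a * x) y ha hy j (by rw [e1]; exact hj)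
    rw [e1, pow_two] at h2
    have hai : a⁻¹ = a := inv_eq_of_mul_eq_one_right haa
    have := eq_inv_of_mul_eq_one_left h2
    rw [mul_inv_rev, hai, hdi] at this
    exact this
  have eE : ρ e = u + 1 := by rw [hu, add_assoc, two, add_zero]
  have c1 : Commute e d := key e he (by rw [E5_swap, hxe]) (by
    rw [eE]
    linear_combination (norm := noncomm_ring) uu * m)
  have c2 : Commute (x * e * x⁻¹) d := key _ (by
      calc x * e * x⁻¹ * (x * e * x⁻¹) = x * (e * e) * x⁻¹ := by group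
        _ = 1 := by rw [he]; group) (by rw [inv_mul_cancel_right, hxe]) (by
    rw [E5_conj h hx he hxe, ← hu]
    linear_combination (norm := noncomm_ring) s2 * m)
  have c1' := (E5_cm (ρ := ρ) c1).eq
  have c2' := (E5_cm (ρ := ρ) c2).eq
  rw [E5_conj h hx he hxe, add_assoc, two, add_zero, ← hu] at c2'
  rw [← hu] at c1'
  obtain ⟨r1, -⟩ := E5_semi h hx hdd (by rw [E5_swap, ← hyd, hy])
  obtain ⟨δ, hδ⟩ : ∃ δ, δ = ρ d + 1 := ⟨_, rfl⟩
  rw [← hδ] at c1' c2' r1
  have eD' : ρ d = δ + 1 := by rw [hδ, add_assoc, two, add_zero]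
  have uδ : u * δ = 0 := by
    linear_combination (norm := noncomm_ring) c1' * ρ x - c2' - u * r1
  have δu : δ * u = 0 := by rw [← c1', uδ]
  have hdE : d ∈ El ρ e := by
    rw [mem_El, ← hu, eD']
    linear_combination (norm := noncomm_ring) δu
  have c3 := (E5_cm (ρ := ρ) (hc _ hdE _ (E5_self hf))).eq
  rw [← hδ, ← hm] at c3
  -- `m y = y⁻¹ m`
  have eYi : ρ y + 1 = (ρ x + 1) * (δ + 1) := by
    rw [← E5_inv h hy, ← E5_inv h hx, ← eD', ← map_mul, hyd, mul_inv_rev, hdi]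
  rw [eYi, eY, eD'] at t1
  apply hβ
  linear_combination (norm := noncomm_ring) - u * t1 + bX - u * c3 * ρ x + uδ * m * ρ x
    - s1 * (δ + 1) * m - (ρ x + 1) * uδ * m - uδ * m

theorem E5_pair (h : St 2 ρ)
    (hA : ∀ x y : H, orderOf x = 3 → orderOf y = 3 → ∀ k : ℕ, (x * y⁻¹) ^ 2 ^ k = 1 →
      (x * y⁻¹) ^ 2 = 1)
    {x e y f : H} (hx : orderOf x = 3) (he : e * e = 1) (hxe : orderOf (x * e) = 3)
    (hy : orderOf y = 3) (hf : f * f = 1) (hyf : orderOf (y * f) = 3)
    (hc : ∀ a ∈ El ρ e, ∀ b ∈ El ρ f, Commute a b) : f ∈ El ρ e := by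
  have two := E5_two (V := V)
  have main : (ρ e + 1) * (ρ f + 1) = 0 := by
    by_contra hβ
    obtain ⟨s1, -⟩ := E5_semi h hx he hxe
    obtain ⟨t1, -⟩ := E5_semi h hy hf hyf
    have q := E5_quad h hx
    have cum := (E5_cm (ρ := ρ) (hc _ (E5_self he) _ (E5_self hf))).eq
    have cuxm := (E5_cm (ρ := ρ) (hc _ (E5_conj_mem h hx he hxe) _ (E5_self hf))).eq
    have cumy := (E5_cm (ρ := ρ) (hc _ (E5_self he) _ (E5_conj_mem h hy hf hyf))).eq
    have cxy := (E5_cm (ρ := ρ)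
      (hc _ (E5_conj_mem h hx he hxe) _ (E5_conj_mem h hy hf hyf))).eq
    rw [E5_conj h hx he hxe, add_assoc, two, add_zero] at cuxm cxy
    rw [E5_conj h hy hf hyf, add_assoc, two, add_zero] at cumy cxy
    obtain ⟨u, hu⟩ : ∃ u, u = ρ e + 1 := ⟨_, rfl⟩
    obtain ⟨m, hm⟩ : ∃ m, m = ρ f + 1 := ⟨_, rfl⟩
    have hβ' := hβ
    rw [← hu, ← hm] at cum cuxm cumy cxy hβ'
    have yy : ρ y * ρ y⁻¹ = 1 := by rw [← map_mul, mul_inv_cancel, map_one]
    have b1 : u * m * ρ x * ρ y = u * m * ρ y * ρ x := by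
      linear_combination (norm := noncomm_ring) cum * ρ x * ρ y - cuxm * ρ y + cxy - cumy * ρ x
    have b2 : u * m * (ρ x + ρ y) * (ρ x + ρ y⁻¹) = 0 := by
      have yi := E5_inv h hy
      linear_combination (norm := noncomm_ring) u * m * q + u * m * yy + u * m * ρ x * yi + b1
        + two (u * m * ρ y * ρ x)
    by_cases h0 : u * m * (ρ x + ρ y) = 0
    · obtain ⟨k, hk⟩ := E5_right h (g := x * y⁻¹) hβ' (by
        rw [map_mul]
        linear_combination (norm := noncomm_ring) h0 * ρ y⁻¹ - u * m * yy - two (u * m))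
      exact hβ (E5_fin h hA hx he hxe hy hf hyf hc hk)
    · have yy' : ρ y⁻¹ * ρ y = 1 := by rw [← map_mul, inv_mul_cancel, map_one]
      obtain ⟨k, hk⟩ := E5_right h (g := x * y⁻¹⁻¹) h0 (by
        rw [map_mul, inv_inv]
        linear_combination (norm := noncomm_ring) b2 * ρ y - u * m * (ρ x + ρ y) * yy'
          - two (u * m * (ρ x + ρ y)))
      refine hβ (E5_fin h hA hx he hxe (y := y⁻¹) (by rw [orderOf_inv, hy]) hf ?_ hc hk)
      have hfi : f⁻¹ = f := inv_eq_of_mul_eq_one_right hf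
      rw [← orderOf_inv, mul_inv_rev, inv_inv, hfi, E5_swap, hyf]
  have cum := (E5_cm (ρ := ρ) (hc _ (E5_self he) _ (E5_self hf))).eq
  rw [mem_El]
  linear_combination (norm := noncomm_ring) main - cum - two (ρ e + 1)

theorem E5_core (h : St 2 ρ)
    (hA : ∀ x y : H, orderOf x = 3 → orderOf y = 3 → ∀ k : ℕ, (x * y⁻¹) ^ 2 ^ k = 1 →
      (x * y⁻¹) ^ 2 = 1)
    {x e : H} (hx : orderOf x = 3) (he : orderOf e = 2) (hxe : orderOf (x * e) = 3) : NC ρ e := by
  intro g hc
  have hee : e * e = 1 := by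
    have := pow_orderOf_eq_one e
    rwa [he, pow_two] at this
  refine E5_pair h hA hx hee hxe (y := g * x * g⁻¹) ?_ ?_ ?_ hc
  · rw [← hx]
    exact (MulAut.conj g).orderOf_eq x
  · calc g * e * g⁻¹ * (g * e * g⁻¹) = g * (e * e) * g⁻¹ := by group
      _ = 1 := by rw [hee]; group
  · rw [← hxe, show g * x * g⁻¹ * (g * e * g⁻¹) = g * (x * e) * g⁻¹ by group]
    exact (MulAut.conj g).orderOf_eq (x * e)

end CF.Gg
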