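import Cfsg.Agent.Gg.B1
import Cfsg.Agent.Gg.E0
import Cfsg.Agent.Gg.E1
import Cfsg.Agent.S0205

/-! S4841, block E6a: a map from `⟨x, t⟩` to `SL₂` with a `2`-group as kernel. -/

set_option autoImplicit false

namespace CF.Gg

open Matrix TensorProduct

/-- An invariant plane with a basis on which the generators act with determinant one. -/
theorem E6a_hom {H F W : Type*} [Group H] [Field F] [AddCommGroup W] [Module F W]
    (r : H →* Module.End F W) (Ψ : (Fin 2 → F) →ₗ[F] W) (hΨ : Function.Injective Ψ) (S : Set H)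
    (hS : ∀ g ∈ S, ∃ M : SpecialLinearGroup (Fin 2) F, ∀ v, r g (Ψ v) = Ψ ((M : Matrix (Fin 2) (Fin 2) F) *ᵥ v)) :
    ∃ φ : Subgroup.closure S →* SpecialLinearGroup (Fin 2) F,
      ∀ g : Subgroup.closure S, ∀ v, r g (Ψ v) = Ψ ((φ g : Matrix (Fin 2) (Fin 2) F) *ᵥ v) := by
  have all : ∀ g ∈ Subgroup.closure S,
      ∃ M : SpecialLinearGroup (Fin 2) F, ∀ v, r g (Ψ v) = Ψ ((M : Matrix (Fin 2) (Fin 2) F) *ᵥ v) := by
    intro g hg
    induction hg using Subgroup.closure_induction with
    | mem g hg => exact hS g hg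
    | one => exact ⟨1, fun v => by simp⟩
    | mul a b _ _ ha hb =>
      obtain ⟨M, hM⟩ := ha
      obtain ⟨N, hN⟩ := hb
      exact ⟨M * N, fun v => by
        rw [map_mul, Module.End.mul_apply, hN, hM, Matrix.SpecialLinearGroup.coe_mul, mulVec_mulVec]⟩
    | inv a _ ha =>
      obtain ⟨M, hM⟩ := ha
      refine ⟨M⁻¹, fun v => ?_⟩
      have : Ψ v = r a (Ψ (((M⁻¹ : SpecialLinearGroup (Fin 2) F) : Matrix (Fin 2) (Fin 2) F) *ᵥ v)) := by
        rw [hM, mulVec_mulVec, ← Matrix.SpecialLinearGroup.coe_mul, mul_inv_cancel]; simp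
      rw [this, ← Module.End.mul_apply, ← map_mul, inv_mul_cancel, map_one, Module.End.one_apply]
  choose f hf using all
  refine ⟨MonoidHom.mk' (fun g => f g g.2) fun a b => ?_, fun g v => hf g g.2 v⟩
  apply Subtype.ext
  apply mulVec_injective
  funext v
  apply hΨ
  rw [← hf, Matrix.SpecialLinearGroup.coe_mul, ← mulVec_mulVec, ← hf, ← hf, Subgroup.coe_mul, map_mul,
    Module.End.mul_apply]

/-- An involution that does not normalize `⟨x⟩`. -/
theorem E6a_inv {H : Type*} [Group H] [Finite H] [IsSimpleGroup H] (hna : ¬ IsMulCommutative H)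
    {x : H} (hx : x ≠ 1) : ∃ t : H, orderOf t = 2 ∧ t * x * t⁻¹ ∉ Subgroup.zpowers x := by
  by_contra hc
  push Not at hc
  have ev : 2 ∣ Nat.card H := by
    by_contra e
    have : Group.IsSolvable H := Cfsg.Agent.S0205.result (Nat.odd_iff.2 (by omega))
    exact hna ⟨⟨IsSimpleGroup.comm_iff_isSolvable.2 this⟩⟩
  obtain ⟨t, ht⟩ := exists_prime_orderOf_dvd_card' 2 ev
  have hN : ∀ s : H, orderOf s = 2 → s ∈ Subgroup.normalizer (Subgroup.zpowers x : Set H) := by
    intro s hs
    refine Subgroup.mem_normalizer_fintype ?_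
    rintro _ ⟨k, rfl⟩
    simpa [← conj_zpow] using Subgroup.zpow_mem _ (hc s hs) k
  have ht1 : t ≠ 1 := fun e => by simp [e] at ht
  have hT : (Subgroup.normalizer (Subgroup.zpowers x : Set H)).normalCore = ⊤ := by
    refine (Subgroup.normalCore_normal _).eq_bot_or_eq_top.resolve_left fun e => ht1 ?_
    rw [← Subgroup.mem_bot, ← e]
    intro g
    exact hN _ (by rw [← ht]; exact (MulAut.conj g).orderOf_eq t)
  have hn : (Subgroup.zpowers x).Normal :=
    Subgroup.normalizer_eq_top_iff.1 (top_le_iff.1 (hT ▸ Subgroup.normalCore_le _))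
  have hz : Subgroup.zpowers x = ⊤ :=
    hn.eq_bot_or_eq_top.resolve_left (by simpa using hx)
  refine hna ⟨⟨fun a b => ?_⟩⟩
  obtain ⟨i, rfl⟩ : a ∈ Subgroup.zpowers x := hz ▸ Subgroup.mem_top a
  obtain ⟨j, rfl⟩ : b ∈ Subgroup.zpowers x := hz ▸ Subgroup.mem_top b
  exact (Commute.zpow_zpow_self x i j).eq

section Two
variable {H : Type*} [Group H] [Finite H] {V : Type*} [AddCommGroup V]
  [Module (ZMod 2) V] [Finite V] {ρ : H →* Module.End (ZMod 2) V}

/-- a fixed vector after base change -/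
theorem E6a_fix (h : St 2 ρ) {F : Type} [Field F] [Algebra (ZMod 2) F] {g : H}
    {u : F ⊗[ZMod 2] V} (hu : u ≠ 0) (e : Module.End.baseChangeHom (ZMod 2) F V (ρ g) u = u) :
    ∃ k : ℕ, g ^ 2 ^ k = 1 := by
  by_contra hc
  have inj : Function.Injective (ρ g - 1 : Module.End (ZMod 2) V) := by
    rw [injective_iff_map_eq_zero]
    intro v hv
    by_contra h0
    exact hc (pel h h0 (by simpa [sub_eq_zero] using hv))
  have un : IsUnit (ρ g - 1) :=
    (Module.End.isUnit_iff _).2 ⟨inj, Finite.injective_iff_surjective.1 inj⟩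
  have := ((Module.End.isUnit_iff _).1 (un.map (Module.End.baseChangeHom (ZMod 2) F V))).1
  apply hu
  apply this
  rw [map_sub, map_one, LinearMap.sub_apply, e]
  simp

theorem e_map (h : St 2 ρ) [IsSimpleGroup H] (hna : ¬ IsMulCommutative H) (h3 : 3 ∣ Nat.card H) (hA : Alpha H) :
    ∃ x t : H, orderOf x = 3 ∧ orderOf t = 2 ∧ t * x * t⁻¹ ∉ Subgroup.zpowers x ∧
      ∃ (F : Type) (_ : Field F) (_ : Fintype F) (_ : CharP F 2)
        (φ : Subgroup.closure ({x, t} : Set H) →* SpecialLinearGroup (Fin 2) F), IsPGroup 2 φ.ker := by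
  have : Fact (Nat.Prime 3) := ⟨Nat.prime_three⟩
  obtain ⟨x, hx⟩ := exists_prime_orderOf_dvd_card' 3 h3
  obtain ⟨t, ht, hn⟩ := E6a_inv hna (x := x) (fun e => by simp [e] at hx)
  refine ⟨x, t, hx, ht, hn, ?_⟩
  have : Module.Finite (ZMod 2) V := Module.Finite.of_finite
  obtain ⟨v0, hv0⟩ := h.nt
  have : Nontrivial V := nontrivial_of_ne v0 0 hv0
  set c0 : Module.End (ZMod 2) V := ρ x * ρ t + ρ t * ρ x + ρ t with hc0
  let F := (LinearMap.charpoly c0).SplittingField
  let ι := Module.End.baseChangeHom (ZMod 2) F V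
  let r : H →* Module.End F (F ⊗[ZMod 2] V) := (ι : _ →* _).comp ρ
  have hr : ∀ g, r g = ι (ρ g) := fun g => rfl
  have two : ∀ w : F ⊗[ZMod 2] V, w + w = 0 := fun w => by
    rw [← two_smul F w, show (2 : F) = 0 from CharP.cast_eq_zero F 2, zero_smul]
  have tt : t * t = 1 := by rw [← sq, ← ht, pow_orderOf_eq_one]
  have hT : ∀ w, r t (r t w) = w := fun w => by
    rw [← Module.End.mul_apply, ← map_mul, tt, map_one, Module.End.one_apply]
  have hX : ∀ w, r x (r x w) = w + r x w := fun w => by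
    have := congrArg (fun f => ι f w) (quad h hx)
    simp only [map_add, map_mul, map_one, map_zero, LinearMap.add_apply, Module.End.mul_apply,
      Module.End.one_apply, LinearMap.zero_apply, ← hr] at this
    linear_combination (norm := module) this - two w - two (r x w)
  have hc : ∀ w, ι c0 w = r x (r t w) + r t (r x w) + r t w := fun w => by
    simp only [hc0, map_add, map_mul, LinearMap.add_apply, Module.End.mul_apply, hr]
  -- an eigenvector of `c` fixed by `t`
  obtain ⟨γ, hγ⟩ := (Polynomial.SplittingField.splits (LinearMap.charpoly c0)).exists_eval_eq_zero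
    (by
      rw [Polynomial.degree_map, Polynomial.degree_eq_natDegree (LinearMap.charpoly_monic c0).ne_zero,
        LinearMap.charpoly_natDegree]
      exact_mod_cast Module.finrank_pos.ne')
  have ev : Module.End.HasEigenvalue (ι c0) γ := by
    rw [Module.End.hasEigenvalue_iff_isRoot_charpoly]
    have : LinearMap.charpoly (ι c0) = (LinearMap.charpoly c0).map (algebraMap (ZMod 2) F) :=
      LinearMap.charpoly_baseChange _ _
    rw [this]
    exact hγ
  obtain ⟨w, hw⟩ := ev.exists_hasEigenvector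
  obtain ⟨u, hu0, hu, hut⟩ : ∃ u : F ⊗[ZMod 2] V, u ≠ 0 ∧ ι c0 u = γ • u ∧ r t u = u := by
    by_cases e : r t w + w = 0
    · exact ⟨w, hw.2, hw.apply_eq_smul, by linear_combination (norm := module) e - two w⟩
    · refine ⟨r t w + w, e, ?_, by rw [map_add, hT, add_comm]⟩
      have e1 := hw.apply_eq_smul
      have e2 : ι c0 (r t w) = r t (ι c0 w) := by
        rw [hc, hc, map_add, map_add, hT, hT]; abel
      rw [map_add, e2, e1, map_smul, smul_add]
  have tx : r t (r x u) = (1 + γ) • u + r x u := by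
    rw [hc, hut] at hu
    rw [add_smul, one_smul]
    linear_combination (norm := module) hu - two (r x u) - two u
  have xu : r x u ≠ 0 := fun e => hu0 (by have := hX u; rw [e, map_zero, add_zero] at this; exact this.symm)
  let Ψ : (Fin 2 → F) →ₗ[F] F ⊗[ZMod 2] V :=
    (LinearMap.proj 0).smulRight u + (LinearMap.proj 1).smulRight (r x u)
  have hΨ : ∀ v, Ψ v = v 0 • u + v 1 • r x u := fun v => rfl
  have inj : Function.Injective Ψ := by
    rw [injective_iff_map_eq_zero]
    intro v hv
    rw [hΨ] at hv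
    by_cases e : v 1 = 0
    · rw [e, zero_smul, add_zero, smul_eq_zero] at hv
      funext i
      fin_cases i
      exacts [hv.resolve_right hu0, e]
    · exfalso
      have e1 : r x u = (-(v 1)⁻¹ * v 0) • u := by
        have : r x u = (v 1)⁻¹ • v 1 • r x u := by rw [smul_smul, inv_mul_cancel₀ e, one_smul]
        rw [this, eq_neg_of_add_eq_zero_right hv]
        module
      have e2 : r t (r x u) = r x u := by rw [e1, map_smul, hut]
      have ti : t⁻¹ = t := inv_eq_of_mul_eq_one_right tt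
      have e3 : r (x * (t * x * t⁻¹)⁻¹) (r x u) = r x u := by
        have : r (t * x * t⁻¹) u = r x u := by
          rw [ti, map_mul, map_mul, Module.End.mul_apply, Module.End.mul_apply, hut, e2]
        conv_lhs => rw [← this, ← Module.End.mul_apply, ← map_mul, inv_mul_cancel_right]
      obtain ⟨k, hk⟩ := E6a_fix h xu e3
      have := alpha_eq h hA hx (by rw [← hx]; exact (MulAut.conj t).orderOf_eq x) hk
      exact hn (this ▸ Subgroup.mem_zpowers x)
  have c2 : (2 : F) = 0 := CharP.cast_eq_zero F 2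
  obtain ⟨φ, hφ⟩ := E6a_hom r Ψ inj {x, t} (by
    rintro g (rfl | rfl)
    · refine ⟨⟨!![0, 1; 1, 1], by rw [det_fin_two_of]; linear_combination -c2⟩, fun v => ?_⟩
      simp only [hΨ, map_add, map_smul, hX, mulVec, dotProduct, Fin.sum_univ_two]
      simp only [of_apply, cons_val', cons_val_zero, cons_val_one, cons_val_fin_one]
      module
    · refine ⟨⟨!![1, 1 + γ; 0, 1], by rw [det_fin_two_of]; ring⟩, fun v => ?_⟩
      simp only [hΨ, map_add, map_smul, tx, hut, mulVec, dotProduct, Fin.sum_univ_two]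
      simp only [of_apply, cons_val', cons_val_zero, cons_val_one, cons_val_fin_one]
      module)
  refine ⟨F, inferInstance, Fintype.ofFinite F, inferInstance, φ, ?_⟩
  rintro ⟨g, hg⟩
  have e := hφ g ![1, 0]
  rw [MonoidHom.mem_ker.1 hg] at e
  simp only [hΨ, Matrix.SpecialLinearGroup.coe_one, one_mulVec, cons_val_zero, cons_val_one, one_smul,
    zero_smul, add_zero] at e
  obtain ⟨k, hk⟩ := E6a_fix h hu0 e
  exact ⟨k, Subtype.ext (Subtype.ext hk)⟩

end Two

end CF.Gg
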