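import Cfsg.Agent.Gg.A
import Cfsg.Agent.S0799
import Cfsg.Agent.Classical.SL2Schur

/-! Case alpha of S4841: Dickson's theorem and the multiplier of `SL₂(2^n)`. -/

set_option autoImplicit false

namespace CF.Gg
open Matrix Subgroup CF.Classical
open scoped MatrixGroups

/-- The hypotheses that pass to quotients by normal 2-subgroups. -/
structure E6bHyp {K : Type*} [Group K] (x t : K) : Prop where
  al : Alpha K
  ox : orderOf x = 3
  tt : t * t = 1
  nn : t * x * t⁻¹ ∉ zpowers x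

theorem E6b_pow4 {G : Type*} [Group G] {g : G} (hg : g ^ 3 = 1) (k : ℕ) : g ^ 4 ^ k = g := by
  induction k with
  | zero => simp
  | succ k ih => rw [pow_succ, pow_mul, ih, show g ^ 4 = g ^ 3 * g from pow_succ g 3, hg, one_mul]

theorem E6b_triv {G : Type*} [Group G] {n : G} (h3 : n ^ 3 = 1) {k : ℕ} (h2 : n ^ 2 ^ k = 1) : n = 1 := by
  have h4 : n ^ 4 ^ k = 1 := by
    rw [show (4 : ℕ) = 2 * 2 from rfl, mul_pow, pow_mul, h2, one_pow]
  rw [← E6b_pow4 h3 k, h4]

theorem E6b_order {G : Type*} [Group G] {g : G} (h3 : g ^ 3 = 1) (h1 : g ≠ 1) : orderOf g = 3 :=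
  haveI : Fact (Nat.Prime 3) := ⟨Nat.prime_three⟩
  orderOf_eq_prime h3 h1

theorem E6b_ker_pow {K G : Type*} [Group K] [Group G] {π : K →* G} (hk : IsPGroup 2 π.ker) {n : K}
    (hn : π n = 1) : ∃ k : ℕ, n ^ 2 ^ k = 1 := by
  obtain ⟨k, hk⟩ := hk ⟨n, hn⟩
  exact ⟨k, congrArg Subtype.val hk⟩

theorem E6b_alpha {K G : Type*} [Group K] [Group G] (hA : Alpha K) (π : K →* G)
    (hs : Function.Surjective π) (hk : IsPGroup 2 π.ker) : Alpha G := by
  intro g hg T hT hn a ha
  obtain ⟨y0, rfl⟩ := hs g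
  obtain ⟨a0, rfl⟩ := hs a
  have g3 : π y0 ^ 3 = 1 := by rw [← hg]; exact pow_orderOf_eq_one _
  obtain ⟨k, hk'⟩ := E6b_ker_pow hk (n := y0 ^ 3) (by rw [map_pow, g3])
  have e : π (y0 ^ 4 ^ k) = π y0 := by rw [map_pow, E6b_pow4 g3]
  have y3 : (y0 ^ 4 ^ k) ^ 3 = 1 := by
    rw [← pow_mul, mul_comm, pow_mul, show (4 : ℕ) = 2 * 2 from rfl, mul_pow, pow_mul, hk', one_pow]
  have y1 : y0 ^ 4 ^ k ≠ 1 := by
    intro h
    rw [h, map_one] at e
    rw [← e, orderOf_one] at hg
    omega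
  have := hA _ (E6b_order y3 y1) (T.comap π) (hT.comap_of_ker_isPGroup π hk) (fun b hb => by
    rw [mem_comap, map_mul, map_mul, map_inv, e]
    exact hn _ hb) a0 ha
  rw [← e]
  exact this.map π

theorem E6b_cent {K G : Type*} [Group K] [Group G] (hA : Alpha K) {π : K →* G}
    (hk : IsPGroup 2 π.ker) {x : K} (hx : orderOf x = 3) {n : K} (hn : π n = 1) : Commute x n :=
  hA x hx π.ker hk (fun a ha => (MonoidHom.normal_ker π).conj_mem a ha x) n hn

theorem E6bHyp.pass {K G : Type*} [Group K] [Group G] {x t : K} (h : E6bHyp x t) (π : K →* G)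
    (hs : Function.Surjective π) (hk : IsPGroup 2 π.ker) : E6bHyp (π x) (π t) := by
  have x3 : x ^ 3 = 1 := by rw [← h.ox]; exact pow_orderOf_eq_one _
  refine ⟨E6b_alpha h.al π hs hk, E6b_order (by rw [← map_pow, x3, map_one]) fun e => ?_,
    by rw [← map_mul, h.tt, map_one], fun m => h.nn ?_⟩
  · obtain ⟨k, hk'⟩ := E6b_ker_pow hk e
    have := h.ox
    rw [E6b_triv x3 hk', orderOf_one] at this
    omega
  · obtain ⟨j, hj⟩ := mem_zpowers_iff.1 m
    set y := t * x * t⁻¹ with hy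
    have hn : π ((x ^ j)⁻¹ * y) = 1 := by
      rw [map_mul, map_inv, map_zpow, hj, hy, map_mul, map_mul, map_inv, inv_mul_cancel]
    have c : Commute (x ^ j) ((x ^ j)⁻¹ * y) := (E6b_cent h.al hk h.ox hn).zpow_left j
    have y3 : y ^ 3 = 1 := by rw [hy, conj_pow, x3, mul_one, mul_inv_cancel]
    have xj : (x ^ j) ^ 3 = 1 := by
      rw [← zpow_natCast, ← _root_.zpow_mul, mul_comm, _root_.zpow_mul, zpow_natCast, x3, _root_.one_zpow]
    have e := c.mul_pow 3
    rw [mul_inv_cancel_left, y3, xj, one_mul] at e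
    obtain ⟨k, hk'⟩ := E6b_ker_pow hk hn
    have := E6b_triv e.symm hk'
    rw [inv_mul_eq_one] at this
    rw [← this]
    exact zpow_mem (mem_zpowers x) j

theorem E6bHyp.equiv {K G : Type*} [Group K] [Group G] {x t : K} (h : E6bHyp x t) (e : K ≃* G) :
    E6bHyp (e x) (e t) :=
  h.pass e.toMonoidHom e.surjective (by
    rw [(MonoidHom.ker_eq_bot_iff _).2 e.injective]; exact IsPGroup.of_bot)

theorem E6bHyp.ncomm {K : Type*} [Group K] {x t : K} (h : E6bHyp x t) (c : Commute x t) : False :=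
  h.nn (by rw [← c.eq, mul_inv_cancel_right]; exact mem_zpowers x)

theorem E6b_notAlpha {G : Type*} [Group G] (x a b : G) (h3 : x ^ 3 = 1) (ha : a * a = 1) (hb : b * b = 1)
    (hab : a * b = b * a) (h1 : x * a * x⁻¹ = b) (h2 : x * b * x⁻¹ = a * b) (hne : a ≠ b) : ¬ Alpha G := by
  intro hA
  have x1 : x ≠ 1 := by
    rintro rfl
    exact hne (by simpa using h1)
  have e1 : a * (a * b) = b := by rw [← mul_assoc, ha, one_mul]
  have e2 : b * (a * b) = a := by rw [hab, ← mul_assoc, hb, one_mul]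
  have e3 : a * b * a = b := by rw [mul_assoc, ← hab, e1]
  have e4 : a * b * b = a := by rw [mul_assoc, hb, mul_one]
  have e5 : a * b * (a * b) = 1 := by rw [mul_assoc, e2, ha]
  let T : Subgroup G :=
    { carrier := {g | g = 1 ∨ g = a ∨ g = b ∨ g = a * b}
      one_mem' := Or.inl rfl
      mul_mem' := by
        rintro u v (rfl | rfl | rfl | rfl) (rfl | rfl | rfl | rfl) <;>
          simp [ha, hb, e1, e2, e3, e4, e5, ← hab]
      inv_mem' := by
        rintro u (rfl | rfl | rfl | rfl)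
        · simp
        · rw [inv_eq_of_mul_eq_one_right ha]; simp
        · rw [inv_eq_of_mul_eq_one_right hb]; simp
        · rw [inv_eq_of_mul_eq_one_right e5]; simp }
  have hT : IsPGroup 2 T := by
    rintro ⟨u, hu⟩
    refine ⟨1, Subtype.ext ?_⟩
    show u ^ 2 ^ 1 = 1
    rw [pow_one, sq]
    rcases hu with rfl | rfl | rfl | rfl
    exacts [one_mul _, ha, hb, e5]
  have c := hA x (E6b_order h3 x1) T hT (by
    rintro u (rfl | rfl | rfl | rfl)
    · exact Or.inl (by simp)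
    · exact Or.inr (Or.inr (Or.inl h1))
    · exact Or.inr (Or.inr (Or.inr h2))
    · refine Or.inr (Or.inl ?_)
      rw [show x * (a * b) * x⁻¹ = (x * a * x⁻¹) * (x * b * x⁻¹) by group, h1, h2, e2]) a (Or.inr (Or.inl rfl))
  exact hne (by rw [← h1, c.eq, mul_inv_cancel_right])

theorem E6b_S4 : ¬ Alpha (Equiv.Perm (Fin 4)) :=
  E6b_notAlpha (c[0, 1, 2] : Equiv.Perm (Fin 4)) (Equiv.swap 0 1 * Equiv.swap 2 3) (Equiv.swap 1 2 * Equiv.swap 0 3)
    (by decide) (by decide) (by decide) (by decide) (by decide) (by decide) (by decide)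

theorem E6b_A4 : ¬ Alpha (alternatingGroup (Fin 4)) :=
  E6b_notAlpha (⟨c[0, 1, 2], Equiv.Perm.mem_alternatingGroup.2 (by decide)⟩ : alternatingGroup (Fin 4))
    ⟨Equiv.swap 0 1 * Equiv.swap 2 3, Equiv.Perm.mem_alternatingGroup.2 (by decide)⟩
    ⟨Equiv.swap 1 2 * Equiv.swap 0 3, Equiv.Perm.mem_alternatingGroup.2 (by decide)⟩
    (by decide) (by decide) (by decide) (by decide) (by decide) (by decide) (by decide)

theorem E6b_A5 : ¬ Alpha (alternatingGroup (Fin 5)) :=
  E6b_notAlpha (⟨c[0, 1, 2], Equiv.Perm.mem_alternatingGroup.2 (by decide)⟩ : alternatingGroup (Fin 5))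
    ⟨Equiv.swap 0 1 * Equiv.swap 2 3, Equiv.Perm.mem_alternatingGroup.2 (by decide)⟩
    ⟨Equiv.swap 1 2 * Equiv.swap 0 3, Equiv.Perm.mem_alternatingGroup.2 (by decide)⟩
    (by decide) (by decide) (by decide) (by decide) (by decide) (by decide) (by decide)

theorem E6b_dih {k : ℕ} {x t : DihedralGroup k} (h : E6bHyp x t) : False := by
  have ox := h.ox
  rcases x with i | i
  · apply h.nn
    rcases t with j | j
    · have : DihedralGroup.r j * DihedralGroup.r i * (DihedralGroup.r j)⁻¹ = DihedralGroup.r i := by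
        rw [mul_inv_eq_iff_eq_mul]; simp [add_comm]
      rw [this]; exact mem_zpowers _
    · have : DihedralGroup.sr j * DihedralGroup.r i * (DihedralGroup.sr j)⁻¹ = (DihedralGroup.r i)⁻¹ := by
        rw [mul_inv_eq_iff_eq_mul, eq_inv_mul_iff_mul_eq]; simp
      rw [this]; exact inv_mem (mem_zpowers _)
  · rw [DihedralGroup.orderOf_sr] at ox
    omega

theorem E6b_borel {G : Type*} [Group G] (P : Sylow 2 G) (B : Subgroup G)
    (hB : B ≤ normalizer ((P : Subgroup G) : Set G)) {x t : B} (h : E6bHyp x t) : False := by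
  apply h.ncomm
  have hz : IsPGroup 2 (zpowers (t : G)) := by
    rintro ⟨u, hu⟩
    obtain ⟨j, rfl⟩ := mem_zpowers_iff.1 hu
    refine ⟨1, Subtype.ext ?_⟩
    have t2 : (t : G) ^ 2 = 1 := by rw [sq, ← Subgroup.coe_mul, h.tt, Subgroup.coe_one]
    show ((t : G) ^ j) ^ 2 ^ 1 = 1
    rw [pow_one, ← zpow_natCast, ← _root_.zpow_mul, mul_comm, _root_.zpow_mul, zpow_natCast, t2,
      _root_.one_zpow]
  have ht : (t : G) ∈ (P : Subgroup G) := by
    have e := hz.inf_normalizer_sylow P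
    have m : (t : G) ∈ zpowers (t : G) ⊓ normalizer ((P : Subgroup G) : Set G) := ⟨mem_zpowers _, hB t.2⟩
    exact (e.le m).2
  refine h.al x h.ox ((P : Subgroup G).comap B.subtype) (P.2.comap_of_injective _ B.subtype_injective)
    (fun a ha => ?_) t ht
  exact (mem_normalizer_iff.1 (hB x.2) (a : G)).1 ha

theorem E6b_six {G : Type*} [Group G] [Finite G] (h6 : Nat.card G = 6) {x t : G} (h : E6bHyp x t) : False := by
  have c := (zpowers x).card_mul_index
  rw [Nat.card_zpowers, h.ox, h6] at c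
  have : (zpowers x).Normal := normal_of_index_eq_two (by omega)
  exact h.nn (this.conj_mem _ (mem_zpowers x) t)

theorem E6b_four {F : Type*} [Field F] [Fintype F] (h2 : (2 : F) = 0) (h4 : Fintype.card F = 4) :
    ¬ Alpha SL(2, F) := by
  classical
  obtain ⟨w, hw⟩ : ∃ w : F, w ∉ ({0, 1} : Finset F) := by
    by_contra hn
    push Not at hn
    have := Finset.card_le_card (show (Finset.univ : Finset F) ⊆ {0, 1} from fun w _ => hn w)
    have h' : ({0, 1} : Finset F).card ≤ 2 := Finset.card_le_two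
    rw [Finset.card_univ] at this
    omega
  simp only [Finset.mem_insert, Finset.mem_singleton, not_or] at hw
  have w3 : w ^ 3 = 1 := by
    have := FiniteField.pow_card_sub_one_eq_one w hw.1
    rwa [h4] at this
  have wq : w ^ 2 + w + 1 = 0 := by
    have : (w - 1) * (w ^ 2 + w + 1) = 0 := by linear_combination w3
    exact (mul_eq_zero.1 this).resolve_left (sub_ne_zero.2 hw.2)
  refine E6b_notAlpha (sl2 w 0 0 (w ^ 2) (by linear_combination w3)) (sl2 1 1 0 1 (by ring))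
    (sl2 1 (w ^ 2) 0 1 (by ring)) ?_ ?_ ?_ ?_ ?_ ?_ ?_
  · rw [pow_succ, sq, sl2_mul, sl2_mul, one_eq_sl2, sl2_eq_sl2_iff]
    exact ⟨by linear_combination w3, by ring, by ring, by linear_combination (w ^ 3 + 1) * w3⟩
  · rw [sl2_mul, one_eq_sl2, sl2_eq_sl2_iff]
    exact ⟨by ring, by linear_combination h2, by ring, by ring⟩
  · rw [sl2_mul, one_eq_sl2, sl2_eq_sl2_iff]
    exact ⟨by ring, by linear_combination w ^ 2 * h2, by ring, by ring⟩
  · rw [sl2_mul, sl2_mul, sl2_eq_sl2_iff]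
    exact ⟨by ring, by ring, by ring, by ring⟩
  · rw [sl2_inv, sl2_mul, sl2_mul, sl2_eq_sl2_iff]
    exact ⟨by linear_combination w3, by ring, by ring, by linear_combination w3⟩
  · rw [sl2_inv, sl2_mul, sl2_mul, sl2_mul, sl2_eq_sl2_iff]
    exact ⟨by linear_combination w3, by linear_combination w * w3 - wq + w * h2, by ring,
      by linear_combination w3⟩
  · rw [Ne, sl2_eq_sl2_iff]
    rintro ⟨-, e, -, -⟩
    apply hw.2
    linear_combination w * e + w3

theorem E6b_pgl (F : Type*) [Field F] [Fintype F] (h2 : ringChar F = 2) : Nonempty (PSL(2, F) ≃* PGL(2, F)) := by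
  refine ⟨MulEquiv.ofBijective _ ⟨Matrix.ProjectiveSpecialLinearGroup.toPGL_injective,
    Matrix.ProjectiveSpecialLinearGroup.toPGL_surj_of_roots fun r => ?_⟩⟩
  obtain ⟨k, hk⟩ := FiniteField.isSquare_of_char_two h2 (r : F)
  refine ⟨Units.mk0 k (by rintro rfl; simp at hk), Units.ext ?_⟩
  simp [hk, sq]

theorem E6b_main {K : Type*} [Group K] {x t : K} (h : E6bHyp x t) {F : Type} [Field F] [Fintype F]
    (h2 : (2 : F) = 0) (h8 : 8 ≤ Fintype.card F) (h9 : Fintype.card F ≠ 9) (π : K →* SL(2, F))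
    (hs : Function.Surjective π) (hk : IsPGroup 2 π.ker) : ∃ ψ : SL(2, F) →* K, Function.Injective ψ := by
  have c4 : 4 ≤ Nat.card F := by rw [Nat.card_eq_fintype_card]; omega
  haveI : IsSimpleGroup PSL(2, F) := isSimpleGroup_PSL2 c4
  haveI : IsSimpleGroup SL(2, F) :=
    (MulEquiv.ofBijective (slToPSL F) ⟨slToPSL_injective h2, slToPSL_surjective⟩).isSimpleGroup
  set C := centralizer (π.ker : Set K) with hC
  haveI : C.Normal := inferInstance
  have hM : (C.map π).Normal := Normal.map inferInstance π hs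
  have xC : x ∈ C := fun n hn => (E6b_cent h.al hk h.ox hn).symm
  have top : C.map π = ⊤ := (hM.eq_bot_or_eq_top).resolve_left fun e => by
    have m := mem_map_of_mem π xC
    rw [e, mem_bot] at m
    have := (h.pass π hs hk).ox
    rw [m, orderOf_one] at this
    omega
  obtain ⟨η, e⟩ := Schur.exists_lift_of_trivial (commutator_SL2_eq_top c4)
    (trivial_schur_SL2 (F := F) (by rw [Nat.card_eq_fintype_card]; omega) (by rwa [Nat.card_eq_fintype_card]))
    (ξ := π.comp C.subtype) ⟨fun g => by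
      obtain ⟨y, hy, rfl⟩ : g ∈ C.map π := by rw [top]; trivial
      exact ⟨⟨y, hy⟩, rfl⟩, fun z hz => mem_center_iff.2 fun y => Subtype.ext (y.2 _ hz).symm⟩ (MonoidHom.id _)
  refine ⟨C.subtype.comp η, C.subtype_injective.comp fun a b hab => ?_⟩
  have ea : (π.comp C.subtype) (η a) = a := DFunLike.congr_fun e a
  have eb : (π.comp C.subtype) (η b) = b := DFunLike.congr_fun e b
  rw [← ea, ← eb, hab]

theorem e_dickson {K : Type*} [Group K] [Finite K] (hA : Alpha K) {x t : K} (hx : orderOf x = 3)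
    (ht : orderOf t = 2) (hgen : Subgroup.closure ({x, t} : Set K) = ⊤) (hn : t * x * t⁻¹ ∉ Subgroup.zpowers x)
    {F : Type} [Field F] [Fintype F] [CharP F 2] (φ : K →* SpecialLinearGroup (Fin 2) F)
    (hφ : IsPGroup 2 φ.ker) :
    ∃ (F₀ : Type) (_ : Field F₀) (_ : Fintype F₀) (_ : CharP F₀ 2), 8 ≤ Fintype.card F₀ ∧
      ∃ ψ : SpecialLinearGroup (Fin 2) F₀ →* K, Function.Injective ψ := by
  have h0 : E6bHyp x t := ⟨hA, hx, by rw [← sq, ← ht]; exact pow_orderOf_eq_one _, hn⟩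
  have h2 : (2 : F) = 0 := CharP.cast_eq_zero F 2
  let π0 : K →* PSL(2, F) := (slToPSL F).comp φ
  let π : K →* π0.range := π0.rangeRestrict
  have hs : Function.Surjective π := π0.rangeRestrict_surjective
  have hk : IsPGroup 2 π.ker := by
    rw [MonoidHom.ker_rangeRestrict, MonoidHom.ker_comp_of_injective _ _ (slToPSL_injective h2)]
    exact hφ
  have h := h0.pass π hs hk
  rcases Cfsg.Agent.S0799.result rfl 2 π0.range with ⟨k, -, ⟨hc, -⟩ | ⟨⟨e⟩⟩⟩ | ⟨P, B, hB, ⟨e⟩⟩ | ⟨⟨e⟩⟩ | ⟨⟨e⟩⟩ |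
    ⟨⟨e⟩⟩ | ⟨L, _, _, m, hm, he⟩
  · exact (h.ncomm (hc.isMulCommutative.is_comm.comm _ _)).elim
  · exact (E6b_dih (h.equiv e)).elim
  · exact (E6b_borel P B hB (h.equiv e)).elim
  · exact (E6b_A4 (h.equiv e).al).elim
  · exact (E6b_S4 (h.equiv e).al).elim
  · exact (E6b_A5 (h.equiv e).al).elim
  obtain ⟨n, -, hn2⟩ := FiniteField.card F 2
  have hm0 : m ≠ 0 := by
    rintro rfl
    have := Fintype.one_lt_card (α := F)
    rw [pow_zero] at hm
    omega
  obtain ⟨j, -, hj⟩ := (Nat.dvd_prime_pow Nat.prime_two).1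
    (show Fintype.card L ∣ 2 ^ (n : ℕ) by rw [← hn2, ← hm]; exact dvd_pow_self _ hm0)
  have j0 : j ≠ 0 := by
    rintro rfl
    have := Fintype.one_lt_card (α := L)
    rw [pow_zero] at hj
    omega
  have rc : ringChar L = 2 := FiniteField.even_card_iff_char_two.2 (by
    rw [hj]; exact Nat.even_iff.1 (Nat.even_pow.2 ⟨even_two, j0⟩))
  haveI cL : CharP L 2 := ringChar.of_eq rc
  have l2 : (2 : L) = 0 := CharP.cast_eq_zero L 2
  let e1 : SL(2, L) ≃* PSL(2, L) := MulEquiv.ofBijective (slToPSL L) ⟨slToPSL_injective l2, slToPSL_surjective⟩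
  obtain ⟨e⟩ : Nonempty (π0.range ≃* SL(2, L)) := by
    rcases he with ⟨⟨e⟩⟩ | ⟨⟨e⟩⟩
    · exact ⟨e.trans e1.symm⟩
    · obtain ⟨e2⟩ := E6b_pgl L rc
      exact ⟨(e.trans e2.symm).trans e1.symm⟩
  by_cases j1 : j = 1
  · exact (E6b_six (by rw [card_SL_two, hj, j1]; norm_num) (h.equiv e)).elim
  by_cases j2 : j = 2
  · exact (E6b_four l2 (by rw [hj, j2]; norm_num) (h.equiv e).al).elim
  have h8 : 8 ≤ Fintype.card L := by
    rw [hj]
    exact Nat.pow_le_pow_right (n := 2) (by norm_num) (show 3 ≤ j by omega)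
  have h9 : Fintype.card L ≠ 9 := by
    intro e9
    have : 2 ∣ Fintype.card L := by rw [hj]; exact dvd_pow_self _ j0
    omega
  refine ⟨L, inferInstance, inferInstance, cL, h8, E6b_main h0 l2 h8 h9 (e.toMonoidHom.comp π)
    (e.surjective.comp hs) ?_⟩
  rw [MonoidHom.ker_comp_of_injective _ _ e.injective]
  exact hk

end CF.Gg
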