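import Cfsg.Agent.Gg.A
import Cfsg.Agent.CIT.HigRing

/-! S4841, case alpha: the natural `SL₂`-structure carried by a subgroup `SL₂(F₀)`. -/

set_option autoImplicit false

namespace CF.Gg
open Matrix CF.Classical CF.CIT.Hig

variable {H : Type*} [Group H] [Finite H] {V : Type*} [AddCommGroup V]
  [Module (ZMod 2) V] [Finite V] {ρ : H →* Module.End (ZMod 2) V}

omit [Finite H] [Finite V] in
theorem E6c_quad (h : St 2 ρ) {x : H} (h3 : x * x * x = 1) (h1 : x ≠ 1) :
    1 + ρ x + ρ x * ρ x = 0 := by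
  refine LinearMap.ext fun v => ?_
  by_contra hv
  obtain ⟨P, hP⟩ := h.syl _ hv
  have hx : x ∈ (P : Subgroup H) := (hP x).2 (by
    rw [← Module.End.mul_apply, mul_add, mul_add, mul_one, ← mul_assoc, ← map_mul, ← map_mul, h3,
      map_one, map_mul]
    congr 1
    abel)
  obtain ⟨k, hk⟩ := P.2 ⟨x, hx⟩
  have a : orderOf x ∣ 2 ^ k := orderOf_dvd_of_pow_eq_one (congrArg Subtype.val hk)
  have b : orderOf x ∣ 3 := orderOf_dvd_of_pow_eq_one (by rw [pow_three', h3])
  exact h1 (orderOf_eq_one_iff.1 (Nat.eq_one_of_dvd_coprimes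
    (Nat.Coprime.pow_left k (by norm_num)) a b))

omit [Finite V] in
theorem E6c_two (c : Module.End (ZMod 2) V) : c + c = 0 := by
  rw [← two_smul (ZMod 2) c, show (2 : ZMod 2) = 0 from rfl, zero_smul]

theorem e_dat (h : St 2 ρ) {F₀ : Type} [Field F₀] [Fintype F₀] [CharP F₀ 2] (h8 : 8 ≤ Fintype.card F₀)
    (ψ : SpecialLinearGroup (Fin 2) F₀ →* H) (hψ : Function.Injective ψ) :
    ∃ t : H, orderOf t = 2 ∧ Dat ρ t := by
  have h2 : (2 : F₀) = 0 := two
  obtain ⟨Φ, hΦ⟩ := (tri_of (ρ := ρ.comp ψ) fun m hm => by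
    refine E6c_quad h ?_ fun e => ?_
    · rw [← map_mul, ← map_mul, map_eq_one_iff ψ hψ]
      obtain ⟨a, b, c, d, e, rfl⟩ := exists_sl2 m
      rw [coe_sl2, trace_fin_two_of] at hm
      simp only [sl2_mul, one_eq_sl2, sl2_eq_sl2_iff]
      obtain rfl : d = 1 - a := by linear_combination hm
      refine ⟨?_, ?_, ?_, ?_⟩
      · linear_combination (-(a + 1)) * e - h2
      · linear_combination (-b) * e
      · linear_combination (-c) * e
      · linear_combination (a - 2) * e - h2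
    · rw [(map_eq_one_iff ψ hψ).1 e, one_eq_sl2, coe_sl2, trace_fin_two_of] at hm
      exact one_ne_zero (α := F₀) (by linear_combination hm)).exists_hom_two E6c_two
  have hρ : ∀ g, ρ (ψ g) = Φ g := fun g => (hΦ g).symm
  have hn : ρ (ψ (U 1)) + 1 = Φ !![0, 1; 0, 0] := by
    rw [hρ, ← map_one Φ, ← map_add]
    congr 1
    ext i j
    fin_cases i <;> fin_cases j <;> simp [U, CharTwo.add_self_eq_zero]
  refine ⟨ψ (U 1), ?_, F₀, inferInstance, inferInstance, Φ.comp (scalar (Fin 2)),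
    Φ !![0, 0; 1, 0], h8, ?_⟩
  · rw [orderOf_injective ψ hψ]
    refine orderOf_eq_prime (by rw [pow_two, U_sq]) fun e => ?_
    simp [U, one_eq_sl2, sl2_eq_sl2_iff] at e
  rw [hn]
  refine ⟨?_, ?_, ?_, fun μ => ?_, fun μ => ?_, fun μ => ⟨ψ (U μ), ?_⟩, fun μ => ⟨ψ (L μ), ?_⟩⟩
  · rw [← map_mul Φ, ← map_zero Φ]
    congr 1
    ext i j
    fin_cases i <;> fin_cases j <;> simp
  · rw [← map_mul Φ, ← map_zero Φ]
    congr 1
    ext i j
    fin_cases i <;> fin_cases j <;> simp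
  · rw [← map_mul Φ, ← map_mul Φ, ← map_add, ← map_one Φ]
    congr 1
    ext i j
    fin_cases i <;> fin_cases j <;> simp
  · rw [RingHom.comp_apply, ← map_mul Φ, ← map_mul Φ, (scalar_commute μ (fun _ => mul_comm _ _) _).eq]
  · rw [RingHom.comp_apply, ← map_mul Φ, ← map_mul Φ, (scalar_commute μ (fun _ => mul_comm _ _) _).eq]
  · rw [RingHom.comp_apply, ← map_mul Φ, ← map_one Φ, ← map_add, hρ]
    congr 1
    ext i j
    fin_cases i <;> fin_cases j <;> simp [U]
  · rw [RingHom.comp_apply, ← map_mul Φ, ← map_one Φ, ← map_add, hρ]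
    congr 1
    ext i j
    fin_cases i <;> fin_cases j <;> simp [L]

end CF.Gg
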