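import Cfsg.Agent.Gg.A2
import Cfsg.Agent.Gg.E0

/-! S4841, case alpha: calculus with one `SL₂(Φ)`-datum. -/

set_option autoImplicit false
set_option linter.unusedSectionVars false

namespace CF.Gg

variable {H : Type*} [Group H] [Finite H] {V : Type*} [AddCommGroup V]
  [Module (ZMod 2) V] [Finite V] {ρ : H →* Module.End (ZMod 2) V}
variable {Φ : Type} [Field Φ] [Fintype Φ] {s s' : Φ →+* Module.End (ZMod 2) V}
  {n n' m' : Module.End (ZMod 2) V} {t t' : H}

namespace E7a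

theorem two (c : Module.End (ZMod 2) V) : c + c = 0 := by
  rw [← two_smul (ZMod 2) c, show (2 : ZMod 2) = 0 from rfl, zero_smul]

theorem one_ne (h : St 2 ρ) : (1 : Module.End (ZMod 2) V) ≠ 0 := fun e => by
  obtain ⟨v, hv⟩ := h.nt
  exact hv (by simpa using LinearMap.congr_fun e v)

theorem ord3 (h : St 2 ρ) {x : H} (hx : ρ x * ρ x + ρ x + 1 = 0) : orderOf x = 3 := by
  haveI : Fact (Nat.Prime 3) := ⟨Nat.prime_three⟩
  refine orderOf_eq_prime (h.inj ?_) fun e => one_ne h ?_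
  · rw [map_pow, map_one, ← sub_eq_zero]
    calc _ = (ρ x - 1) * (ρ x * ρ x + ρ x + 1) := by noncomm_ring
      _ = 0 := by rw [hx, mul_zero]
  · rwa [e, map_one, mul_one, two, zero_add] at hx

/-- the matrix `[[a, b], [c, d]]` -/
def M (s : Φ →+* Module.End (ZMod 2) V) (n n' : Module.End (ZMod 2) V) (a b c d : Φ) :
    Module.End (ZMod 2) V := s a * (n * n') + s b * n + s c * n' + s d * (n' * n)

section
variable (D : Dat0 ρ s n n')
include D

theorem nsn : n * (n' * n) = n := by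
  have := congrArg (n * ·) D.unit
  simpa only [mul_add, ← mul_assoc n n, D.nn, zero_mul, zero_add, mul_one] using this

theorem nsn' : n' * (n * n') = n' := by
  have := congrArg (n' * ·) D.unit
  simpa only [mul_add, ← mul_assoc n' n', D.nn', zero_mul, add_zero, mul_one] using this

theorem l1 (x : Module.End (ZMod 2) V) : n * (n * x) = 0 := by rw [← mul_assoc, D.nn, zero_mul]
theorem l2 (x : Module.End (ZMod 2) V) : n' * (n' * x) = 0 := by rw [← mul_assoc, D.nn', zero_mul]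
theorem l3 (x : Module.End (ZMod 2) V) : n * (n' * (n * x)) = n * x := by
  rw [← mul_assoc n', ← mul_assoc, nsn D]
theorem l4 (x : Module.End (ZMod 2) V) : n' * (n * (n' * x)) = n' * x := by
  rw [← mul_assoc n, ← mul_assoc, nsn' D]
theorem l5 (μ : Φ) (x : Module.End (ZMod 2) V) : n * (s μ * x) = s μ * (n * x) := by
  rw [← mul_assoc, ← D.sn, mul_assoc]
theorem l6 (μ : Φ) (x : Module.End (ZMod 2) V) : n' * (s μ * x) = s μ * (n' * x) := by
  rw [← mul_assoc, ← D.sn', mul_assoc]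

theorem M_mul (a b c d a' b' c' d' : Φ) : M s n n' a b c d * M s n n' a' b' c' d' =
    M s n n' (a * a' + b * c') (a * b' + b * d') (c * a' + d * c') (c * b' + d * d') := by
  simp only [M, add_mul, mul_add, mul_assoc, l1 D, l2 D, l3 D, l4 D, l5 D, l6 D, D.nn, D.nn',
    nsn D, nsn' D, map_add, map_mul, mul_zero, add_zero, zero_add]
  abel

theorem M_s (a : Φ) : M s n n' a 0 0 a = s a := by
  simp only [M, map_zero, zero_mul, add_zero, ← mul_add, D.unit, mul_one]

theorem M_one : M s n n' 1 0 0 1 = 1 := by rw [M_s D, map_one]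

theorem M_up (a : Φ) : ∃ g : H, ρ g = M s n n' 1 a 0 1 := by
  obtain ⟨g, hg⟩ := D.up a
  refine ⟨g, ?_⟩
  rw [hg, ← D.unit]
  simp only [M, map_zero, map_one, zero_mul, one_mul]
  abel

theorem M_low (a : Φ) : ∃ g : H, ρ g = M s n n' 1 0 a 1 := by
  obtain ⟨g, hg⟩ := D.low a
  refine ⟨g, ?_⟩
  rw [hg, ← D.unit]
  simp only [M, map_zero, map_one, zero_mul, one_mul]
  abel

end

theorem M_add (a b c d a' b' c' d' : Φ) : M s n n' a b c d + M s n n' a' b' c' d' =
    M s n n' (a + a') (b + b') (c + c') (d + d') := by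
  simp only [M, map_add, add_mul]
  abel

theorem M_zero : M s n n' 0 0 0 0 = 0 := by simp [M]
theorem M_n : M s n n' 0 1 0 0 = n := by simp [M]
theorem M_n' : M s n n' 0 0 1 0 = n' := by simp [M]
theorem M_tor (μ : Φ) : tor s n n' μ = M s n n' μ 0 0 μ⁻¹ := by simp [M, tor]

theorem M_ck {z : H} (hz : z ∈ CK ρ s n n') (a b c d : Φ) : Commute (ρ z) (M s n n' a b c d) :=
  ((((hz.2.2 a).mul_right (hz.1.mul_right hz.2.1)).add_right
    ((hz.2.2 b).mul_right hz.1)).add_right ((hz.2.2 c).mul_right hz.2.1)).add_right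
    ((hz.2.2 d).mul_right (hz.2.1.mul_right hz.1))

/-- in characteristic two the matrix only depends on the entries modulo `2` -/
theorem M_congr {a b c d a' b' c' d' : Φ} (h1 : ∃ k, a = a' + 2 * k) (h2 : ∃ k, b = b' + 2 * k)
    (h3 : ∃ k, c = c' + 2 * k) (h4 : ∃ k, d = d' + 2 * k) :
    M s n n' a b c d = M s n n' a' b' c' d' := by
  have e : ∀ {x y : Φ}, (∃ k, x = y + 2 * k) → s x = s y := by
    rintro x y ⟨k, rfl⟩
    rw [two_mul, map_add, map_add, two, add_zero]
  simp only [M, e h1, e h2, e h3, e h4]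

theorem cg {γ : Module.End (ZMod 2) V} {a b c d a' b' c' d' : Φ}
    (h : Commute γ (M s n n' a b c d)) (h1 : a = a') (h2 : b = b') (h3 : c = c') (h4 : d = d') :
    Commute γ (M s n n' a' b' c' d') := by
  rwa [← h1, ← h2, ← h3, ← h4]

end E7a

open E7a

theorem a_char (h : St 2 ρ) (s : Φ →+* Module.End (ZMod 2) V) : (2 : Φ) = 0 := by
  haveI : Nontrivial (Module.End (ZMod 2) V) := ⟨⟨1, 0, one_ne h⟩⟩
  apply s.injective
  rw [← one_add_one_eq_two (R := Φ), map_add, two, map_zero]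

theorem a_mu (h8 : 8 ≤ Fintype.card Φ) : ∃ μ : Φ, μ ≠ 0 ∧ μ ≠ 1 ∧ μ ^ 2 + μ + 1 ≠ 0 := by
  open Polynomial in
  have hm : (X * (X ^ 3 - C 1) : Φ[X]).Monic := monic_X.mul (monic_X_pow_sub_C _ (by norm_num))
  have hd : (X * (X ^ 3 - C 1) : Φ[X]).natDegree ≤ 4 := by compute_degree
  obtain ⟨μ, hμ⟩ := exists_eval_ne_zero_of_natDegree_lt_card _ hm.ne_zero (by
    rw [Cardinal.mk_fintype, Nat.cast_lt]
    omega)
  simp only [eval_mul, eval_X, eval_sub, eval_pow, eval_C] at hμ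
  refine ⟨μ, fun e => hμ (by rw [e, zero_mul]), fun e => hμ (by rw [e]; ring), fun e => hμ ?_⟩
  linear_combination μ * (μ - 1) * e

theorem a_tor (D : Dat0 ρ s n n') {μ : Φ} (hμ : μ ≠ 0) : ∃ g : H, ρ g = tor s n n' μ := by
  obtain ⟨a, ha⟩ := M_up D μ
  obtain ⟨b, hb⟩ := M_low D μ⁻¹
  obtain ⟨c, hc⟩ := M_up D 1
  obtain ⟨d, hd⟩ := M_low D 1
  refine ⟨a * b * a * (c * d * c), ?_⟩
  have e := mul_inv_cancel₀ hμ
  have e1 : ρ (a * b * a) = M s n n' 0 μ μ⁻¹ 0 := by
    simp only [map_mul, ha, hb, M_mul D]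
    exact M_congr ⟨1, by linear_combination e⟩ ⟨μ, by linear_combination μ * e⟩ ⟨0, by ring⟩
      ⟨1, by linear_combination e⟩
  have e2 : ρ (c * d * c) = M s n n' 0 1 1 0 := by
    simp only [map_mul, hc, hd, M_mul D]
    exact M_congr ⟨1, by ring⟩ ⟨1, by ring⟩ ⟨0, by ring⟩ ⟨1, by ring⟩
  rw [map_mul, e1, e2, M_mul D, M_tor]
  congr 1 <;> ring

theorem a_tor_mul (D : Dat0 ρ s n n') (μ κ : Φ) :
    tor s n n' μ * tor s n n' κ = tor s n n' (μ * κ) := by
  simp only [M_tor, M_mul D]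
  congr 1 <;> ring

theorem a_tor_one (D : Dat0 ρ s n n') : tor s n n' 1 = 1 := by
  rw [M_tor, inv_one, M_one D]

theorem a_tor_left (D : Dat0 ρ s n n') (μ : Φ) {δ : Module.End (ZMod 2) V} (hδ : n * δ = 0) :
    tor s n n' μ * δ = s μ * δ := by
  conv_rhs => rw [← one_mul δ, ← D.unit]
  simp only [tor, add_mul, mul_assoc, hδ, mul_zero, add_zero]

theorem a_tor_right (D : Dat0 ρ s n n') (μ : Φ) {δ : Module.End (ZMod 2) V} (hδ : δ * n = 0) :
    δ * tor s n n' μ = δ * s μ⁻¹ := by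
  have e : ∀ κ, δ * (s κ * (n * n')) = 0 := fun κ => by
    rw [← l5 D, ← mul_assoc, hδ, zero_mul]
  conv_rhs => rw [← mul_one (s μ⁻¹), ← D.unit]
  simp only [tor, mul_add, e]

theorem a_tor_ck {z : H} (hz : z ∈ CK ρ s n n') (μ : Φ) : Commute (ρ z) (tor s n n' μ) := by
  rw [M_tor]
  exact M_ck hz _ _ _ _

theorem a_zero (D : Dat0 ρ s n n') {γ : Module.End (ZMod 2) V} (h1 : Commute γ n) (h2 : Commute γ n')
    (h0 : n * γ = 0) : γ = 0 := by
  rw [← one_mul γ, ← D.unit, add_mul, mul_assoc, mul_assoc, h0, ← h2.eq, ← mul_assoc, h0,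
    zero_mul, mul_zero, add_zero]

theorem a_fix0 (h : St 2 ρ) (h8 : 8 ≤ Fintype.card Φ) {β : Module.End (ZMod 2) V}
    (hβ : ∀ μ : Φ, μ ≠ 0 → s μ * β * s μ = β) : β = 0 := by
  obtain ⟨μ, h0, h1, h2⟩ := a_mu h8
  have c := a_char h s
  have h3 : 1 + μ ≠ 0 := fun e => h1 (by linear_combination e - c)
  have e : ∀ κ : Φ, κ ≠ 0 → β * s κ = s κ⁻¹ * β := fun κ hκ => by
    conv_rhs => rw [← hβ κ hκ, ← mul_assoc, ← mul_assoc, ← map_mul, inv_mul_cancel₀ hκ, map_one,
      one_mul]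
  have e1 := e _ h3
  rw [map_add, mul_add, map_one, mul_one, e μ h0] at e1
  have e2 : s (1 + μ⁻¹ - (1 + μ)⁻¹) * β = 0 := by
    rw [map_sub, map_add, sub_mul, add_mul, map_one, one_mul, e1, sub_self]
  have h4 : 1 + μ⁻¹ - (1 + μ)⁻¹ ≠ 0 := fun k => h2 (by
    field_simp at k
    linear_combination k)
  rw [← one_mul β, ← map_one s, ← inv_mul_cancel₀ h4, map_mul, mul_assoc, e2, mul_zero]

theorem a_dec (h : St 2 ρ) (h8 : 8 ≤ Fintype.card Φ) (ht : orderOf t = 2) (D : Dat0 ρ s (ρ t + 1) n') {f : H}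
    (hf : ∀ μ : Φ, Commute (ρ f) (s μ * (ρ t + 1))) :
    ∃ e ∈ El ρ t, ∃ z ∈ CK ρ s (ρ t + 1) n', f = e * z := by
  classical
  have hE : ∀ {a b : H}, a ∈ El ρ t → b ∈ El ρ t → (ρ a + 1) * (ρ b + 1) = 0 :=
    fun ha hb => El_mul h ht ha hb
  have mE : ∀ {a : H}, a ∈ El ρ t ↔ ρ a * (ρ t + 1) = ρ t + 1 := mem_El
  generalize ρ t + 1 = n at *
  have f1 : ρ f * n = n * ρ f := by simpa using (hf 1).eq
  have f2 : ∀ x, n * (ρ f * x) = ρ f * (n * x) := fun x => by rw [← mul_assoc, ← f1, mul_assoc]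
  have f3 : ∀ μ x, s μ * (ρ f * (n * x)) = ρ f * (s μ * (n * x)) := fun μ x => by
    rw [← f2, ← mul_assoc, ← mul_assoc, ← (hf μ).eq, mul_assoc, mul_assoc]
  have i1 : ρ f * ρ f⁻¹ = 1 := by rw [← map_mul, mul_inv_cancel, map_one]
  have i2 : ρ f⁻¹ * ρ f = 1 := by rw [← map_mul, inv_mul_cancel, map_one]
  have f4 : ρ f⁻¹ * n = n * ρ f⁻¹ := by
    calc _ = ρ f⁻¹ * (n * ρ f) * ρ f⁻¹ := by rw [mul_assoc, mul_assoc, i1, mul_one]
      _ = _ := by rw [← f1, ← mul_assoc, i2, one_mul]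
  obtain ⟨b, hb⟩ : ∃ b, b = n * (n' * (ρ f * (n' * n))) := ⟨_, rfl⟩
  obtain ⟨d, hd⟩ : ∃ d, d = n * (n' * (ρ f * (n * n'))) + n' * (ρ f * n) := ⟨_, rfl⟩
  have hF : ρ f = d + b := by
    conv_lhs => rw [← one_mul (ρ f), ← mul_one (ρ f), ← D.unit]
    simp only [hb, hd, add_mul, mul_add, mul_assoc, f2, l1 D, nsn D, mul_zero, add_zero, zero_add]
    abel
  have nb : n * b = 0 := by rw [hb, l1 D]
  have bn : b * n = 0 := by simp only [hb, mul_assoc, D.nn, mul_zero]
  have g1 : n * (n' * (ρ f * n)) = ρ f * n := by rw [f1, l3 D]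
  have dn : Commute d n := by
    change d * n = n * d
    simp only [hd, add_mul, mul_add, mul_assoc, l1 D, D.nn, nsn D, mul_zero, add_zero, zero_add]
  have dn' : Commute d n' := by
    change d * n' = n' * d
    simp only [hd, add_mul, mul_add, mul_assoc, l2 D, l4 D, D.nn', mul_zero, add_zero, zero_add]
  have ds : ∀ μ, Commute d (s μ) := fun μ => by
    change d * s μ = s μ * d
    have f5 : s μ * (ρ f * n) = ρ f * (s μ * n) := by simpa using f3 μ 1
    simp only [hd, add_mul, mul_add, mul_assoc, ← D.sn, ← D.sn']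
    rw [l5 D μ n', ← f3, ← f5, l6 D, l6 D, l5 D]
  have dt : ∀ μ, Commute d (tor s n n' μ) := fun μ =>
    ((ds μ).mul_right (dn.mul_right dn')).add_right ((ds _).mul_right (dn'.mul_right dn))
  let A : AddSubmonoid (Module.End (ZMod 2) V) :=
    { carrier := {δ | ∃ a ∈ El ρ t, ρ a + 1 = δ}
      add_mem' := by
        rintro _ _ ⟨a, ha, rfl⟩ ⟨c, hc, rfl⟩
        refine ⟨a * c, mul_mem ha hc, ?_⟩
        have e := hE ha hc
        rw [map_mul, ← add_zero (ρ a + 1 + _), ← e, ← sub_eq_zero]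
        calc _ = -((ρ a + ρ c + 1) + (ρ a + ρ c + 1)) := by noncomm_ring
          _ = 0 := by rw [two, neg_zero]
      zero_mem' := ⟨1, one_mem _, by rw [map_one, two]⟩ }
  have hA : ∀ μ : Φ, μ ≠ 0 → (s μ * b * s μ + b) * ρ f⁻¹ ∈ A := fun μ hμ => by
    obtain ⟨g, hg⟩ := a_tor D hμ
    have hg' : ρ g⁻¹ = tor s n n' μ⁻¹ := by
      rw [← mul_one (ρ g⁻¹), ← a_tor_one D, ← mul_inv_cancel₀ hμ, ← a_tor_mul D, ← hg, ← mul_assoc,
        ← map_mul, inv_mul_cancel, map_one, one_mul]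
    have e : ρ (g * f * g⁻¹) = ρ f + (s μ * b * s μ + b) := by
      rw [map_mul, map_mul, hg, hg', hF, mul_add, add_mul, ← (dt μ).eq, mul_assoc d, a_tor_mul D,
        mul_inv_cancel₀ hμ, a_tor_one D, mul_one, a_tor_left D _ nb, mul_assoc,
        a_tor_right D _ bn, inv_inv, ← mul_assoc, add_comm (s μ * b * s μ) b, add_assoc,
        ← add_assoc b, two, zero_add]
    have e' : ρ (g * f * g⁻¹ * f⁻¹) = 1 + (s μ * b * s μ + b) * ρ f⁻¹ := by
      rw [map_mul, e, add_mul, i1]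
    refine ⟨g * f * g⁻¹ * f⁻¹, mE.2 ?_, ?_⟩
    · rw [e', add_mul, one_mul, mul_assoc, f4, ← mul_assoc, add_mul, bn, mul_assoc _ _ n, D.sn,
        ← mul_assoc, mul_assoc _ b, bn]
      simp
    · rw [e', add_comm, ← add_assoc, two, zero_add]
  have hs : ∑ μ : Φ, s μ * b * s μ = 0 := a_fix0 (s := s) h h8 fun κ hκ => by
    rw [Finset.mul_sum, Finset.sum_mul]
    conv_rhs => rw [← Equiv.sum_comp (Equiv.mulLeft₀ κ hκ)]
    refine Finset.sum_congr rfl fun μ _ => ?_
    change _ = s (κ * μ) * b * s (κ * μ)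
    conv_rhs => enter [2]; rw [mul_comm]
    simp only [map_mul, mul_assoc]
  have hq : ∑ _μ : Φ, b = 0 := by
    rw [Finset.sum_const, Finset.card_univ, nsmul_eq_mul, ← map_natCast s,
      FiniteField.cast_card_eq_zero, map_zero, zero_mul]
  have hB : b * ρ f⁻¹ ∈ A := by
    have e := A.sum_mem (t := Finset.univ.erase 0) fun μ hμ => hA μ (Finset.ne_of_mem_erase hμ)
    have e1 := Finset.sum_erase_add Finset.univ (fun μ : Φ => s μ * b * s μ + b)
      (Finset.mem_univ 0)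
    rw [Finset.sum_add_distrib (s := Finset.univ), hs, hq, add_zero, map_zero, mul_zero,
      zero_add, ← two b, add_left_inj] at e1
    rwa [← Finset.sum_mul, e1] at e
  obtain ⟨a, ha, e⟩ := hB
  have e2 : ρ (a * f) = d := by
    rw [map_mul, ← add_zero (ρ a), ← two 1, ← add_assoc, e, add_mul, mul_assoc, i2, mul_one,
      one_mul, hF, add_comm d, ← add_assoc, two, zero_add]
  exact ⟨a⁻¹, inv_mem ha, a * f, ⟨e2 ▸ dn, e2 ▸ dn', fun μ => e2 ▸ ds μ⟩, by group⟩

theorem a_cen (h : St 2 ρ) (hA : Alpha H) (h8 : 8 ≤ Fintype.card Φ) (D : Dat0 ρ s n n') {z : H}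
    (hz : z ∈ CK ρ s n n') (hz2 : orderOf z = 2) : El ρ z ≤ CK ρ s n n' := by
  intro a ha
  have c := a_char h s
  haveI : CharP Φ 2 := CharTwo.of_one_ne_zero_of_two_eq_zero one_ne_zero c
  have key : ∀ (x : H) (i j k : Φ), j * k = i * i + i + 1 → ρ x = M s n n' i j k (i + 1) →
      Commute (ρ a) (M s n n' i j k (i + 1)) := fun x i j k e hx => by
    have o : orderOf x = 3 := ord3 h (by
      rw [hx, M_mul D, ← M_one D, M_add, M_add, ← M_zero (s := s) (n := n) (n' := n')]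
      congr 1
      · linear_combination e + (i * i + i + 1) * c
      · linear_combination (i * j + j) * c
      · linear_combination (i * k + k) * c
      · linear_combination e + (i * i + 2 * i + 2) * c)
    have xz : x * z * x⁻¹ = z := mul_inv_eq_iff_eq_mul.2 (h.inj (by
      rw [map_mul, map_mul, hx, (M_ck hz _ _ _ _).eq]))
    rw [← hx]
    exact ((hA x o _ (El_pgroup h hz2) (fun b hb => by
      have := (El_conj (ρ := ρ) z x b).2 hb
      rwa [xz] at this) a ha).symm.map ρ)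
  have k1 : ∀ μ : Φ, μ ≠ 0 → Commute (ρ a) (M s n n' 0 μ μ⁻¹ 1) := fun μ hμ => by
    obtain ⟨u, hu⟩ := M_up D μ
    obtain ⟨w, hw⟩ := M_low D μ⁻¹
    have e := mul_inv_cancel₀ hμ
    have := key (u * w) 0 μ μ⁻¹ (by linear_combination e) (by
      rw [map_mul, hu, hw, M_mul D]
      congr 1
      · linear_combination e + c
      all_goals ring)
    rwa [zero_add] at this
  have k2 : ∀ k v : Φ, k ≠ 0 → v ≠ 0 → Commute (ρ a) (M s n n' v (k * (v + 1)) 0 v) :=
    fun k v hk hv => by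
    have hμ : k / v ≠ 0 := div_ne_zero hk hv
    obtain ⟨u, hu⟩ := M_up D (k / v)
    obtain ⟨w, hw⟩ := M_low D (k / v)⁻¹
    obtain ⟨y, hy⟩ := M_up D k
    have e := mul_inv_cancel₀ hμ
    have e1 : k * (k / v)⁻¹ = v := by field_simp
    have a1 := k1 _ hμ
    generalize k / v = μ at *
    generalize μ⁻¹ = ν at *
    have := (key (y * (u * w) * y) v (k * v + μ + k) ν
      (by linear_combination e + (v + 1) * e1) (by
      rw [map_mul, map_mul, map_mul, hu, hw, hy, M_mul D, M_mul D, M_mul D]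
      congr 1
      · linear_combination e + e1 + c
      · linear_combination k * e + k * e1 + k * c
      · ring
      · linear_combination e1)).add_right a1
    rw [M_add] at this
    exact cg this (by ring) (by linear_combination μ * c) (by linear_combination ν * c)
      (by linear_combination c)
  have k3 : ∀ l : Φ, Commute (ρ a) (s l) := fun l => by
    obtain ⟨v, rfl⟩ := isSquare_of_charTwo' l
    by_cases hv : v = 0
    · simp [hv]
    have := (k2 1 v one_ne_zero hv).mul_right (k2 1 v one_ne_zero hv)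
    rw [M_mul D] at this
    rw [← M_s D]
    exact cg this (by ring) (by linear_combination (v * (v + 1)) * c) (by ring) (by ring)
  have k4 : Commute (ρ a) n := by
    obtain ⟨v, h0, h1, -⟩ := a_mu h8
    have h3 : v + 1 ≠ 0 := fun e => h1 (by linear_combination e - c)
    have := (k2 _ v (inv_ne_zero h3) h0).add_right (k3 v)
    rw [← M_s D, M_add, inv_mul_cancel₀ h3] at this
    rw [← M_n (s := s) (n := n) (n' := n')]
    exact cg this (by linear_combination v * c) (by ring) (by ring) (by linear_combination v * c)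
  refine ⟨k4, ?_, k3⟩
  have k5 : Commute (ρ a) (M s n n' 1 0 0 1) := by rw [M_one D]; exact Commute.one_right _
  have k6 : Commute (ρ a) (M s n n' 0 1 0 0) := by rwa [M_n]
  have := ((k5.add_right k6).mul_right (k1 1 one_ne_zero)).add_right k5
  rw [M_add, M_mul D, M_add, inv_one] at this
  rw [← M_n' (s := s) (n := n) (n' := n')]
  exact cg this (by linear_combination c) (by linear_combination c) (by ring)
    (by linear_combination c)

theorem a_x (h : St 2 ρ) (D : Dat0 ρ s n n') :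
    ∃ x : H, orderOf x = 3 ∧ ρ x = (1 + n) * (1 + n') ∧ x ∉ CK ρ s n n' := by
  obtain ⟨u, hu⟩ := D.up 1
  obtain ⟨w, hw⟩ := D.low 1
  rw [map_one, one_mul] at hu hw
  have e : ρ (u * w) = (1 + n) * (1 + n') := by rw [map_mul, hu, hw]
  refine ⟨u * w, ord3 h ?_, e, fun k => one_ne h ?_⟩
  · have c := a_char h s
    have e1 : 1 + n = M s n n' 1 1 0 1 := by
      rw [← M_one D]
      nth_rw 2 [← M_n (s := s) (n := n) (n' := n')]
      rw [M_add]
      congr 1 <;> ring
    have e2 : 1 + n' = M s n n' 1 0 1 1 := by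
      rw [← M_one D]
      nth_rw 2 [← M_n' (s := s) (n := n) (n' := n')]
      rw [M_add]
      congr 1 <;> ring
    rw [e, e1, e2, M_mul D, M_mul D, ← M_one D, M_add, M_add,
      ← M_zero (s := s) (n := n) (n' := n')]
    congr 1
    · linear_combination 4 * c
    · linear_combination 2 * c
    · linear_combination 2 * c
    · linear_combination 2 * c
  · have k1 := congrArg (n * ·) k.1.eq
    simp only [e, add_mul, mul_add, mul_assoc, one_mul, mul_one, l1 D, D.nn, nsn D, mul_zero,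
      add_zero, zero_add] at k1
    rw [← D.unit, k1, zero_mul, mul_zero, add_zero]

end CF.Gg
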