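import Cfsg.Agent.Gg.E0
import Cfsg.Agent.Gg.E7a

/-! Case alpha of S4841: two commuting data. -/

set_option autoImplicit false

namespace CF.Gg

variable {H : Type*} [Group H] [Finite H] {V : Type*} [AddCommGroup V]
  [Module (ZMod 2) V] [Finite V] {ρ : H →* Module.End (ZMod 2) V}
  {Φ : Type} [Field Φ] [Fintype Φ] {s s' : Φ →+* Module.End (ZMod 2) V}
  {n n' m' : Module.End (ZMod 2) V} {t t' : H}

omit [Finite V] in
theorem E7b_two (x : Module.End (ZMod 2) V) : x + x = 0 := by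
  rw [← two_smul (ZMod 2), show (2 : ZMod 2) = 0 from rfl, zero_smul]

omit [Finite V] in
theorem E7b_eq {x y : Module.End (ZMod 2) V} (h : x + y = 0) : x = y :=
  add_right_cancel (h.trans (E7b_two y).symm)

omit [Finite H] [Finite V] in
theorem E7b_mem {a : H} (h : (ρ a + 1) * (ρ t + 1) = 0) : a ∈ El ρ t := by
  rw [add_mul, one_mul] at h
  exact E7b_eq h

omit [Finite H] [Finite V] [Fintype Φ] in
theorem E7b_up (D : Dat0 ρ s (ρ t + 1) n') (μ : Φ) : ∃ g ∈ El ρ t, ρ g = 1 + s μ * (ρ t + 1) := by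
  obtain ⟨g, hg⟩ := D.up μ
  exact ⟨g, by rw [mem_El, hg, add_mul, one_mul, mul_assoc, D.nn, mul_zero, add_zero], hg⟩

omit [Finite V] in
theorem E7b_cm {x y : Module.End (ZMod 2) V} (h : Commute x (1 + y)) : Commute x y := by
  have := h.add_right (Commute.one_right x)
  rwa [add_comm 1 y, add_assoc, E7b_two, add_zero] at this

omit [Finite H] in
theorem E7b_ord {a : H} (h : a * a = 1) (h1 : a ≠ 1) : orderOf a = 2 :=
  orderOf_eq_prime (by rw [pow_two, h]) h1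

omit [Finite H] in
theorem E7b_ne (ht : orderOf t = 2) : t ≠ 1 := fun e => by simp [e] at ht

theorem E7b_conj (h : St 2 ρ) (ht : orderOf t = 2) (D : Dat0 ρ s (ρ t + 1) n') {μ : Φ} (hμ : μ ≠ 0)
    {g : H} (hg : ρ g = tor s (ρ t + 1) n' μ) {a : H} (ha : a ∈ El ρ t) :
    ρ (g * a * g⁻¹) + 1 = s μ * (ρ a + 1) * s μ ∧ g * a * g⁻¹ ∈ El ρ t := by
  have i : ρ g * tor s (ρ t + 1) n' μ⁻¹ = 1 := by
    rw [hg, a_tor_mul D, mul_inv_cancel₀ hμ, a_tor_one D]
  have j : ρ g⁻¹ = tor s (ρ t + 1) n' μ⁻¹ := by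
    have := congrArg (ρ g⁻¹ * ·) i
    simpa only [← mul_assoc, ← map_mul, inv_mul_cancel, map_one, one_mul, mul_one] using this.symm
  have l := El_mul h ht (El_self ht) ha
  have r := El_mul h ht ha (El_self ht)
  have k : ρ (g * a * g⁻¹) + 1 = s μ * (ρ a + 1) * s μ := by
    have : ρ (g * a * g⁻¹) + 1 = ρ g * (ρ a + 1) * ρ g⁻¹ := by
      rw [mul_add, add_mul, mul_one, ← map_mul, ← map_mul, ← map_mul, mul_inv_cancel, map_one]
    rw [this, j, hg, a_tor_left D μ l, mul_assoc, a_tor_right D μ⁻¹ r, inv_inv, mul_assoc]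
  refine ⟨k, E7b_mem ?_⟩
  rw [k, mul_assoc, D.sn, mul_assoc, ← mul_assoc (ρ a + 1), r, zero_mul, mul_zero]

theorem Two.symm (T : Two ρ t t' s s' n' m') : Two ρ t' t s' s m' n' :=
  ⟨T.st, T.al, T.big, T.ht', T.ht, T.D', T.D, fun a ha b hb => (T.comm b hb a ha).symm,
    fun m => T.ne (El_eq T.st T.ht' m (E7b_ne T.ht) ▸ El_self T.ht'), T.card.symm⟩

theorem b_disj (T : Two ρ t t' s s' n' m') {a : H} (ha : a ∈ El ρ t) (ha' : a ∈ El ρ t') : a = 1 := by
  by_contra k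
  refine T.ne ?_
  rw [← El_eq T.st T.ht ha k, El_eq T.st T.ht' ha' k]
  exact El_self T.ht'

theorem b_dec (T : Two ρ t t' s s' n' m') {f : H} (hf : f ∈ El ρ t') :
    ∃ e ∈ El ρ t, ∃ z ∈ CK ρ s (ρ t + 1) n', f = e * z := by
  refine a_dec T.st T.big T.ht T.D fun μ => ?_
  obtain ⟨g, m, hg⟩ := E7b_up T.D μ
  exact E7b_cm (hg ▸ (T.comm g m f hf).symm.map ρ)

omit [Finite H] [Finite V] [Fintype Φ] in
theorem E7b_x (h : St 2 ρ) {x z : H} (hx : ρ x = (1 + n) * (1 + n')) (hz : z ∈ CK ρ s n n') :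
    Commute z x := by
  have : Commute (ρ z) (ρ x) :=
    hx ▸ ((Commute.one_right _).add_right hz.1).mul_right ((Commute.one_right _).add_right hz.2.1)
  exact h.inj (by rw [map_mul, map_mul, this.eq])

theorem b_inj (T : Two ρ t t' s s' n' m') {f : H} (hf : f ∈ El ρ t') (hc : f ∈ CK ρ s (ρ t + 1) n') :
    f = 1 := by
  by_contra k
  have le := a_cen T.st T.al T.big T.D hc (E7b_ord (El_sq T.st T.ht' hf) k)
  rw [El_eq T.st T.ht' hf k] at le
  obtain ⟨x, x3, hx, -⟩ := a_x T.st T.D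
  obtain ⟨y, y3, hy, ny⟩ := a_x T.st T.D'
  obtain ⟨e, me, z, mz, hz⟩ := a_dec T.st T.big T.ht' T.D' (f := x) fun μ => by
    obtain ⟨g, m, hg⟩ := E7b_up T.D' μ
    exact E7b_cm (hg ▸ (E7b_x T.st hx (le m)).symm.map ρ)
  have c : Commute e x := E7b_x T.st hx (le me)
  have e2 := El_sq T.st T.ht' me
  have zz : z * z = x * x := by
    have : z = e * x := by rw [hz, ← mul_assoc, e2, one_mul]
    rw [this, c.symm.mul_mul_mul_comm, e2, one_mul]
  have x4 : x = z * z * (z * z) := by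
    rw [zz]
    have : x * x * (x * x) = x ^ 3 * x := by simp only [pow_succ, pow_zero, one_mul, mul_assoc]
    rw [this, ← x3, pow_orderOf_eq_one, one_mul]
  have mx : x ∈ CK ρ s' (ρ t' + 1) m' := x4 ▸ mul_mem (mul_mem mz mz) (mul_mem mz mz)
  rcases three_comm T.st x3 y3 (E7b_x T.st hy mx) with rfl | rfl
  · exact ny mx
  · exact ny (inv_mem mx)

theorem b_surj (T : Two ρ t t' s s' n' m') {a : H} (ha : a ∈ El ρ t) :
    ∃ f ∈ El ρ t', ∃ z ∈ CK ρ s (ρ t + 1) n', f = a * z := by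
  choose e he z hz hf using fun f : El ρ t' => b_dec T f.2
  let φ : El ρ t' → El ρ t := fun f => ⟨e f, he f⟩
  have inj : Function.Injective φ := fun f g k => by
    have k : e f = e g := congrArg Subtype.val k
    have : (f : H)⁻¹ * g = (z f)⁻¹ * z g := by
      conv_lhs => rw [hf f, hf g, k]
      group
    have := b_inj T (mul_mem (inv_mem f.2) g.2) (this ▸ mul_mem (inv_mem (hz f)) (hz g))
    exact Subtype.ext (inv_mul_eq_one.1 this)
  obtain ⟨f, k⟩ := (inj.bijective_of_nat_card_le T.card.le).2 ⟨a, ha⟩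
  have k : e f = a := congrArg Subtype.val k
  exact ⟨f, f.2, z f, hz f, k ▸ hf f⟩

theorem E7b_zc (T : Two ρ t t' s s' n' m') {a z b : H} (ha : a ∈ El ρ t) (hf : a * z ∈ El ρ t')
    (hb : b ∈ El ρ t) : Commute b z := by
  have := (El_comm T.st T.ht hb ha).inv_right.mul_right (T.comm b hb _ hf)
  rwa [inv_mul_cancel_left] at this

theorem E7b_n (T : Two ρ t t' s s' n' m') {a : H} (z : H) (ha : a ∈ El ρ t) :
    (ρ t + 1) * (ρ (a * z) + 1) = (ρ t + 1) * (ρ z + 1) := by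
  have := El_mul T.st T.ht (El_self T.ht) ha
  rw [mul_add, mul_one] at this
  rw [map_mul, mul_add, ← mul_assoc, E7b_eq this, mul_add]

theorem E7b_zz (T : Two ρ t t' s s' n' m') {a z a' z' : H} (ha : a ∈ El ρ t) (hf : a * z ∈ El ρ t')
    (hz : z ∈ CK ρ s (ρ t + 1) n') (ha' : a' ∈ El ρ t) (hf' : a' * z' ∈ El ρ t')
    (hz' : z' ∈ CK ρ s (ρ t + 1) n') : (ρ z + 1) * (ρ z' + 1) = 0 := by
  have c1 : Commute (ρ z + 1) (ρ t + 1) := hz.1.add_left (Commute.one_left _)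
  refine a_zero T.D (c1.mul_left (hz'.1.add_left (Commute.one_left _)))
    ((hz.2.1.add_left (Commute.one_left _)).mul_left (hz'.2.1.add_left (Commute.one_left _))) ?_
  rw [← mul_assoc, ← c1.eq, mul_assoc, ← E7b_n T z' ha', ← mul_assoc, c1.eq, ← E7b_n T z ha, mul_assoc,
    El_mul T.st T.ht' hf hf', mul_zero]

theorem E7b_dz (T : Two ρ t t' s s' n' m') {a z a' z' : H} (ha : a ∈ El ρ t) (hf : a * z ∈ El ρ t')
    (hz : z ∈ CK ρ s (ρ t + 1) n') (ha' : a' ∈ El ρ t) (hf' : a' * z' ∈ El ρ t')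
    (hz' : z' ∈ CK ρ s (ρ t + 1) n') : (ρ a + 1) * (ρ z' + 1) = (ρ a' + 1) * (ρ z + 1) := by
  have e := El_mul T.st T.ht' hf hf'
  have zz := E7b_zz T ha hf hz ha' hf' hz'
  have dd := El_mul T.st T.ht ha ha'
  have c : (ρ z + 1) * (ρ a' + 1) = (ρ a' + 1) * (ρ z + 1) :=
    (((((E7b_zc T ha hf ha').map ρ).add_left (Commute.one_left _)).add_right
      (Commute.one_right _)).eq).symm
  have k : ∀ a z : H, ρ (a * z) + 1 = (ρ a + 1) + (ρ z + 1) + (ρ a + 1) * (ρ z + 1) := fun a z => by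
    have := E7b_two (ρ a + ρ z + 1)
    rw [map_mul, ← add_zero (ρ a * ρ z + 1), ← this]
    noncomm_ring
  rw [k, k] at e
  generalize ρ a + 1 = d at *
  generalize ρ a' + 1 = d' at *
  generalize ρ z + 1 = y at *
  generalize ρ z' + 1 = y' at *
  have : (d + y + d * y) * (d' + y' + d' * y') = d * d' + d * y' + d * d' * y' + y * d' + y * y' +
      y * d' * y' + d * (y * d') + d * (y * y') + d * (y * d') * y' := by noncomm_ring
  rw [this, c, mul_assoc d' y, ← mul_assoc d d', zz, dd] at e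
  exact E7b_eq (by simpa using e)

theorem b_z (T : Two ρ t t' s s' n' m') :
    ∃ z ∈ CK ρ s (ρ t + 1) n', orderOf z = 2 ∧ (ρ t + 1) * (ρ t' + 1) = (ρ t + 1) * (ρ z + 1) ∧
      (∀ κ : Φ, ∃ z' ∈ El ρ z, ρ z' = 1 + s κ * (ρ z + 1)) ∧
      (∀ f ∈ El ρ t', ∀ a ∈ El ρ t, ∀ z' ∈ CK ρ s (ρ t + 1) n', f = a * z' → z' ∈ El ρ z) := by
  obtain ⟨a, ha, z, hz, e⟩ := b_dec T (El_self T.ht')
  have hf : a * z ∈ El ρ t' := e ▸ El_self T.ht'
  have four : ∀ f ∈ El ρ t', ∀ a ∈ El ρ t, ∀ z' ∈ CK ρ s (ρ t + 1) n', f = a * z' → z' ∈ El ρ z := by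
    rintro _ hf' a' ha' z' hz' rfl
    exact E7b_mem (E7b_zz T ha' hf' hz' ha hf hz)
  refine ⟨z, hz, E7b_ord ?_ fun k => T.ne ?_, ?_, fun κ => ?_, four⟩
  · have := El_sq T.st T.ht' hf
    rwa [(E7b_zc T ha hf ha).symm.mul_mul_mul_comm, El_sq T.st T.ht ha, one_mul] at this
  · rw [e, k, mul_one]; exact ha
  · rw [← E7b_n T z ha, ← e]
  obtain ⟨μ, rfl⟩ := FiniteField.isSquare_of_char_two
    (CharP.ringChar_of_prime_eq_zero Nat.prime_two (by simpa using a_char T.st s)) κ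
  by_cases hμ : μ = 0
  · exact ⟨1, one_mem _, by simp [hμ]⟩
  obtain ⟨g, hg⟩ := a_tor T.D hμ
  obtain ⟨k, m⟩ := E7b_conj T.st T.ht T.D hμ hg ha
  obtain ⟨_, hf2, z2, hz2, rfl⟩ := b_surj T m
  obtain ⟨_, hf1, z1, hz1, rfl⟩ := b_surj T (El_self T.ht)
  refine ⟨z2, four _ hf2 _ m _ hz2 rfl, ?_⟩
  have e1 := E7b_dz T ha hf hz (El_self T.ht) hf1 hz1
  have e2 := E7b_dz T m hf2 hz2 (El_self T.ht) hf1 hz1
  have c1 : Commute (ρ z1 + 1) (s μ) := (hz1.2.2 μ).add_left (Commute.one_left _)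
  have c : Commute (ρ z + 1) (s μ) := (hz.2.2 μ).add_left (Commute.one_left _)
  rw [k, mul_assoc, ← c1.eq, mul_assoc, ← mul_assoc (ρ a + 1), e1, mul_assoc, c.eq, ← mul_assoc,
    T.D.sn, mul_assoc, ← mul_assoc (s μ), ← map_mul] at e2
  have := a_zero T.D (γ := s (μ * μ) * (ρ z + 1) + (ρ z2 + 1))
    ((Commute.mul_left (T.D.sn _) (hz.1.add_left (Commute.one_left _))).add_left
      (hz2.1.add_left (Commute.one_left _)))
    ((Commute.mul_left (T.D.sn' _) (hz.2.1.add_left (Commute.one_left _))).add_left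
      (hz2.2.1.add_left (Commute.one_left _))) (by rw [mul_add, e2, E7b_two])
  rw [E7b_eq this, add_comm, add_assoc, E7b_two, add_zero]

theorem b_norm (T : Two ρ t t' s s' n' m') {μ : Φ} (hμ : μ ≠ 0) {g : H} (hg : ρ g = tor s (ρ t + 1) n' μ)
    (hn : ∀ f ∈ El ρ t', g * f * g⁻¹ ∈ El ρ t') : μ = 1 := by
  obtain ⟨_, hf, z, hz, rfl⟩ := b_surj T (El_self T.ht)
  obtain ⟨k, m⟩ := E7b_conj T.st T.ht T.D hμ hg (El_self T.ht)
  have c : z * g = g * z := T.st.inj (by rw [map_mul, map_mul, hg, (a_tor_ck hz μ).eq])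
  have e : g * (t * z) * g⁻¹ * (t * z)⁻¹ = g * t * g⁻¹ * t⁻¹ := by
    have : z = g⁻¹ * z * g := by rw [mul_assoc, c, inv_mul_cancel_left]
    nth_rw 1 [this]
    group
  have := b_disj T (mul_mem m (inv_mem (El_self T.ht))) (e ▸ mul_mem (hn _ hf) (inv_mem hf))
  rw [mul_inv_eq_one.1 this, mul_assoc, ← T.D.sn, ← mul_assoc, ← map_mul] at k
  have h2 := a_char T.st s
  by_contra h1
  have h0 : μ * μ - 1 ≠ 0 := fun e => by
    have : (μ - 1) ^ 2 = 0 := by linear_combination e + (1 - μ) * h2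
    exact h1 (sub_eq_zero.1 (pow_eq_zero_iff two_ne_zero |>.1 this))
  have n0 : ρ t + 1 = 0 := by
    have : s (μ * μ - 1) * (ρ t + 1) = 0 := by rw [map_sub, map_one, sub_mul, ← k, one_mul, sub_self]
    have := congrArg (s (μ * μ - 1)⁻¹ * ·) this
    simpa only [← mul_assoc, ← map_mul, inv_mul_cancel₀ h0, map_one, one_mul, mul_zero] using this
  have u := T.D.unit
  rw [n0, zero_mul, mul_zero, add_zero] at u
  obtain ⟨v, hv⟩ := T.st.nt
  exact hv (by simpa using (congrArg (· v) u).symm)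

end CF.Gg
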