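import Cfsg.Agent.Gg.B1
import Cfsg.Agent.Gg.E7a

/-! Case alpha of S4841: matching the two scalar actions on the range of `n m`. -/

set_option autoImplicit false

namespace CF.Gg
open Polynomial

/-- Restriction of a scalar action to an invariant subspace. -/
def E7c_res {V : Type*} [AddCommGroup V] [Module (ZMod 2) V] {Φ : Type} [Field Φ]
    (s : Φ →+* Module.End (ZMod 2) V) (W : Submodule (ZMod 2) V) (h : ∀ a, ∀ w ∈ W, s a w ∈ W) :
    Φ →+* Module.End (ZMod 2) W where
  toFun a := (s a).restrict (h a)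
  map_one' := by ext w; simp [LinearMap.restrict_apply]
  map_mul' a b := by ext w; simp [LinearMap.restrict_apply]
  map_zero' := by ext w; simp [LinearMap.restrict_apply]
  map_add' a b := by ext w; simp [LinearMap.restrict_apply]

theorem E7c_eig {W : Type*} [AddCommGroup W] [Module (ZMod 2) W] {Φ : Type} [Field Φ] [Fintype Φ]
    (r : Φ →+* Module.End (ZMod 2) W) (σ : Module.End (ZMod 2) W) (hc : ∀ a, Commute (r a) σ)
    (hσ : σ ^ Fintype.card Φ = σ) {w0 : W} (hw0 : w0 ≠ 0) : ∃ (μ : Φ) (w : W), w ≠ 0 ∧ σ w = r μ w := by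
  classical
  by_contra hn
  push Not at hn
  let ev : Φ[X] →+* Module.End (ZMod 2) W := eval₂RingHom' r σ hc
  have hX : ev X = σ := eval₂_X _ _
  have hC : ∀ a, ev (C a) = r a := fun a => eval₂_C _ _
  have h1 := Fintype.one_lt_card (α := Φ)
  have hm : (X ^ Fintype.card Φ - X : Φ[X]).Monic :=
    monic_X_pow_sub (by rw [degree_X]; exact_mod_cast h1)
  have hp := prod_multiset_X_sub_C_of_monic_of_roots_card_eq hm (by
    rw [FiniteField.roots_X_pow_card_sub_X, FiniteField.X_pow_card_sub_X_natDegree_eq _ h1]; rfl)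
  have key : Function.Injective (ev (X ^ Fintype.card Φ - X)) := by
    rw [← hp]
    refine Multiset.prod_induction (fun f => Function.Injective (ev f)) _ (fun a b ha hb => ?_) ?_ ?_
    · rw [map_mul]; exact ha.comp hb
    · rw [map_one]; exact Function.injective_id
    · intro f hf
      obtain ⟨a, -, rfl⟩ := Multiset.mem_map.1 hf
      rw [map_sub, hX, hC, injective_iff_map_eq_zero]
      intro w hw
      by_contra h0
      exact hn a w h0 (sub_eq_zero.1 hw)
  rw [map_sub, map_pow, hX, hσ, sub_self] at key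
  exact hw0 (key rfl)

variable {H : Type*} [Group H] [Finite H] {V : Type*} [AddCommGroup V]
  [Module (ZMod 2) V] [Finite V] {ρ : H →* Module.End (ZMod 2) V}
  {Φ : Type} [Field Φ] [Fintype Φ] {s s' : Φ →+* Module.End (ZMod 2) V}
  {n' m' : Module.End (ZMod 2) V} {t t' : H}

omit [Finite H] [Finite V] in
theorem E7c_comm (T : Two ρ t t' s s' n' m') (k k' : Φ) :
    s k * (ρ t + 1) * (s' k' * (ρ t' + 1)) = s' k' * (ρ t' + 1) * (s k * (ρ t + 1)) := by
  obtain ⟨a, ha⟩ := T.D.up k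
  obtain ⟨b, hb⟩ := T.D'.up k'
  have ma : a ∈ El ρ t := by rw [mem_El, ha, add_mul, one_mul, mul_assoc, T.D.nn, mul_zero, add_zero]
  have mb : b ∈ El ρ t' := by rw [mem_El, hb, add_mul, one_mul, mul_assoc, T.D'.nn, mul_zero, add_zero]
  have c : Commute (ρ a) (ρ b) := (T.comm a ma b mb).map ρ
  rw [ha, hb] at c
  have c1 := (c.sub_right (Commute.one_right _)).sub_left (Commute.one_left _)
  rw [add_sub_cancel_left, add_sub_cancel_left] at c1
  exact c1.eq

theorem c_match (T : Two ρ t t' s s' n' m') {μ' : Φ} (hμ' : μ' ≠ 0) :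
    ∃ μ : Φ, μ ≠ 0 ∧ s μ * ((ρ t + 1) * (ρ t' + 1)) = s' μ' * ((ρ t + 1) * (ρ t' + 1)) := by
  have hcomm := E7c_comm T
  set n := ρ t + 1 with hn
  set m := ρ t' + 1 with hm
  by_cases hβ : n * m = 0
  · exact ⟨1, one_ne_zero, by rw [hβ, mul_zero, mul_zero]⟩
  let B : Φ → Φ → Module.End (ZMod 2) V := fun k k' => s k * n * (s' k' * m)
  have B1 : B 1 1 = n * m := by simp only [B, map_one, one_mul]
  have sB : ∀ l k k', s l * B k k' = B (l * k) k' := fun l k k' => by
    simp only [B, map_mul, mul_assoc]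
  have sB' : ∀ l k k', s' l * B k k' = B k (l * k') := fun l k k' => by
    simp only [B]
    rw [hcomm, hcomm]
    simp only [map_mul, mul_assoc]
  have nB : ∀ k k', n * B k k' = 0 := fun k k' => by
    simp only [B]
    have e : n * (s k * n) = 0 := by rw [← mul_assoc, ← T.D.sn, mul_assoc, T.D.nn, mul_zero]
    rw [← mul_assoc, e, zero_mul]
  have mB : ∀ k k', m * B k k' = 0 := fun k k' => by
    simp only [B]
    have e : m * (s' k' * m) = 0 := by rw [← mul_assoc, ← T.D'.sn, mul_assoc, T.D'.nn, mul_zero]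
    rw [hcomm, ← mul_assoc, e, zero_mul]
  let W : Submodule (ZMod 2) V := ⨆ k : Φ × Φ, LinearMap.range (B k.1 k.2)
  have mem : ∀ k k' v, B k k' v ∈ W := fun k k' v =>
    (le_iSup (fun k : Φ × Φ => LinearMap.range (B k.1 k.2)) (k, k')) ⟨v, rfl⟩
  have ind : ∀ (f : Module.End (ZMod 2) V) (U : Submodule (ZMod 2) V), (∀ k k' v, (f * B k k') v ∈ U) →
      ∀ w ∈ W, f w ∈ U := fun f U h => by
    have : W ≤ U.comap f := iSup_le fun k => by
      rintro _ ⟨v, rfl⟩
      exact h k.1 k.2 v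
    exact fun w hw => this hw
  have eqW : ∀ f g : Module.End (ZMod 2) V, (∀ k k', f * B k k' = g * B k k') → ∀ w ∈ W, f w = g w :=
    fun f g h w hw => by
      have := ind (f - g) ⊥ (fun k k' v => by rw [sub_mul, h, sub_self]; exact Submodule.zero_mem _) w hw
      exact sub_eq_zero.1 ((Submodule.mem_bot _).1 this)
  have st : ∀ a, ∀ w ∈ W, s a w ∈ W := fun a => ind _ _ fun k k' v => by rw [sB]; exact mem _ _ _
  have st' : ∀ a, ∀ w ∈ W, s' a w ∈ W := fun a => ind _ _ fun k k' v => by rw [sB']; exact mem _ _ _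
  let r := E7c_res s W st
  let r' := E7c_res s' W st'
  have rc : ∀ a b, Commute (r a) (r' b) := fun a b => by
    ext w
    exact eqW (s a * s' b) (s' b * s a) (fun k k' => by rw [mul_assoc, mul_assoc, sB', sB, sB, sB']) w w.2
  obtain ⟨v0, hv0⟩ : ∃ v, (n * m) v ≠ 0 := by
    by_contra h
    push Not at h
    exact hβ (LinearMap.ext h)
  have w0W : (n * m) v0 ∈ W := B1 ▸ mem 1 1 v0
  obtain ⟨μ, w, hw, hσ⟩ := E7c_eig r (r' μ') (fun a => rc a μ') (by rw [← map_pow, FiniteField.pow_card])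
    (w0 := ⟨_, w0W⟩) (fun e => hv0 (congrArg Subtype.val e))
  have hμ : μ ≠ 0 := by
    rintro rfl
    apply hw
    have : (r' μ'⁻¹ * r' μ') w = 0 := by rw [Module.End.mul_apply, hσ, map_zero, LinearMap.zero_apply, map_zero]
    rwa [← map_mul, inv_mul_cancel₀ hμ', map_one] at this
  obtain ⟨g, hg⟩ := a_tor T.D hμ
  obtain ⟨g', hg'⟩ := a_tor T.D' hμ'
  have gW : ∀ u ∈ W, ρ g u = s μ u := eqW _ _ fun k k' => by rw [hg, a_tor_left T.D μ (nB k k')]
  have gW' : ∀ u ∈ W, ρ g' u = s' μ' u := eqW _ _ fun k k' => by rw [hg', a_tor_left T.D' μ' (mB k k')]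
  let u : Module.End (ZMod 2) W := r μ⁻¹ * r' μ'
  have back : ∀ x : V, s μ (s μ⁻¹ x) = x := fun x => by
    rw [← Module.End.mul_apply, ← map_mul, mul_inv_cancel₀ hμ, map_one, Module.End.one_apply]
  have yW : ∀ x : W, ρ (g⁻¹ * g') x = (u x : W) := fun x => by
    have e : ρ g (u x : W) = s' μ' x := by
      rw [gW _ (u x).2]
      exact back _
    rw [map_mul, Module.End.mul_apply, gW' _ x.2, ← e, ← Module.End.mul_apply, ← map_mul, inv_mul_cancel, map_one,
      Module.End.one_apply]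
  have yj : ∀ (j : ℕ) (x : W), ρ ((g⁻¹ * g') ^ j) x = ((u ^ j) x : W) := fun j => by
    induction j with
    | zero => intro x; simp
    | succ j ih => intro x; rw [pow_succ, pow_succ, map_mul, Module.End.mul_apply, yW, ih]; rfl
  have uw : u w = w := by
    show r μ⁻¹ (r' μ' w) = w
    rw [hσ, ← Module.End.mul_apply, ← map_mul, inv_mul_cancel₀ hμ, map_one, Module.End.one_apply]
  obtain ⟨k, hk⟩ := pel T.st (g := g⁻¹ * g') (v := (w : V)) (fun e => hw (Subtype.ext e)) (by rw [yW, uw])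
  have u2 : u ^ 2 ^ k = 1 := by
    ext x
    rw [← yj, hk, map_one]
    rfl
  have uq : u ^ (Fintype.card Φ - 1) = 1 := by
    rw [(rc _ _).mul_pow, ← map_pow, ← map_pow, FiniteField.pow_card_sub_one_eq_one _ (inv_ne_zero hμ),
      FiniteField.pow_card_sub_one_eq_one _ hμ', map_one, map_one, one_mul]
  have ev : Fintype.card Φ % 2 = 0 := by
    apply FiniteField.even_card_of_char_two
    haveI : CharP Φ 2 := (CharP.charP_iff_prime_eq_zero Nat.prime_two).2 (by exact_mod_cast a_char T.st s)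
    exact ringChar.eq Φ 2
  have h8 := T.big
  have cop : (2 ^ k).Coprime (Fintype.card Φ - 1) :=
    Nat.Coprime.pow_left _ (Nat.coprime_two_left.2 (Nat.odd_iff.2 (by omega)))
  have u1 : u = 1 := orderOf_eq_one_iff.1
    (Nat.eq_one_of_dvd_coprimes cop (orderOf_dvd_of_pow_eq_one u2) (orderOf_dvd_of_pow_eq_one uq))
  refine ⟨μ, hμ, LinearMap.ext fun v => ?_⟩
  have mv : (n * m) v ∈ W := B1 ▸ mem 1 1 v
  have e : s μ⁻¹ (s' μ' ((n * m) v)) = (n * m) v :=
    congrArg Subtype.val (show u ⟨_, mv⟩ = ⟨_, mv⟩ by rw [u1]; rfl)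
  show s μ ((n * m) v) = s' μ' ((n * m) v)
  rw [← back (s' μ' ((n * m) v)), e]

end CF.Gg
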