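import Cfsg.Agent.Gg.B1
import Cfsg.Agent.Gg.E0
import Cfsg.Agent.Gg.E7a
import Cfsg.Agent.Gg.E7b
import Cfsg.Agent.Gg.E7c

set_option autoImplicit false
set_option linter.unusedSectionVars false
set_option linter.style.haveILetI false

namespace CF.Gg

variable {H : Type*} [Group H] [Finite H] {V : Type*} [AddCommGroup V]
  [Module (ZMod 2) V] [Finite V] {ρ : H →* Module.End (ZMod 2) V}
  {Φ : Type} [Field Φ] [Fintype Φ] {s s' : Φ →+* Module.End (ZMod 2) V}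
  {n' m' : Module.End (ZMod 2) V} {t t' : H}

theorem d_ad (x : Module.End (ZMod 2) V) : x + x = 0 := by
  have h2 : (2 : ZMod 2) = 0 := rfl
  rw [← two_smul (ZMod 2) x, h2, zero_smul]

theorem d_comm (h : St 2 ρ) {a b : H} (hc : Commute (ρ a) (ρ b)) : Commute a b :=
  h.inj (by rw [map_mul, map_mul, hc.eq])

theorem d_nm (T : Two ρ t t' s s' n' m') : (ρ t + 1) * (ρ t' + 1) = (ρ t' + 1) * (ρ t + 1) := by
  have := (T.comm t (El_self T.ht) t' (El_self T.ht')).map ρ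
  exact ((this.add_left (Commute.one_left _)).add_right (Commute.one_right _)).eq

theorem d_beta (T : Two ρ t t' s s' n' m') : (ρ t + 1) * (ρ t' + 1) ≠ 0 := by
  intro h0
  apply T.ne
  rw [d_nm T, add_mul, one_mul] at h0
  rw [mem_El]
  have := d_ad (ρ t + 1)
  exact add_right_cancel (h0.trans this.symm)

theorem d_sbeta (T : Two ρ t t' s s' n' m') (κ : Φ) :
    s κ * ((ρ t + 1) * (ρ t' + 1)) = (ρ t + 1) * (ρ t' + 1) * s κ := by
  obtain ⟨z, hz, -, hβ, -, -⟩ := b_z T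
  have h1 : Commute (s κ) (ρ z + 1) := (hz.2.2 κ).symm.add_right (Commute.one_right _)
  rw [hβ, ← mul_assoc, T.D.sn κ, mul_assoc, h1.eq, mul_assoc]

theorem d_inv (T : Two ρ t t' s s' n' m') {κ : Φ} (hκ : κ ≠ 0) {g : H}
    (hg : ρ g = tor s (ρ t + 1) n' κ) : ρ g⁻¹ = tor s (ρ t + 1) n' κ⁻¹ := by
  have h1 : tor s (ρ t + 1) n' κ * tor s (ρ t + 1) n' κ⁻¹ = 1 := by
    rw [a_tor_mul T.D, mul_inv_cancel₀ hκ, a_tor_one T.D]
  calc ρ g⁻¹ = ρ g⁻¹ * (ρ g * tor s (ρ t + 1) n' κ⁻¹) := by rw [hg, h1, mul_one]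
    _ = _ := by rw [← mul_assoc, ← map_mul, inv_mul_cancel, map_one, one_mul]

theorem d_normE (T : Two ρ t t' s s' n' m') {κ : Φ} (hκ : κ ≠ 0) {g : H}
    (hg : ρ g = tor s (ρ t + 1) n' κ) {a : H} (ha : a ∈ El ρ t) : g * a * g⁻¹ ∈ El ρ t := by
  rw [mem_El] at ha ⊢
  have e1 : tor s (ρ t + 1) n' κ⁻¹ * (ρ t + 1) = (ρ t + 1) * s κ⁻¹ := by
    rw [a_tor_left T.D _ T.D.nn, T.D.sn]
  have e2 : tor s (ρ t + 1) n' κ * (ρ t + 1) = (ρ t + 1) * s κ := by
    rw [a_tor_left T.D _ T.D.nn, T.D.sn]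
  rw [map_mul, map_mul, d_inv T hκ hg, hg, mul_assoc, e1, mul_assoc, ← mul_assoc (ρ a), ha,
    ← mul_assoc, e2, mul_assoc, ← map_mul, mul_inv_cancel₀ hκ, map_one, mul_one]

/-- The product of the two elation groups. -/
def dA (T : Two ρ t t' s s' n' m') : Subgroup H where
  carrier := {g | ∃ a ∈ El ρ t, ∃ f ∈ El ρ t', g = a * f}
  mul_mem' := by
    rintro _ _ ⟨a, ha, f, hf, rfl⟩ ⟨b, hb, g, hg, rfl⟩
    refine ⟨a * b, mul_mem ha hb, f * g, mul_mem hf hg, ?_⟩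
    have := (T.comm b hb f hf).eq
    calc a * f * (b * g) = a * (f * b) * g := by group
      _ = a * (b * f) * g := by rw [this]
      _ = _ := by group
  one_mem' := ⟨1, one_mem _, 1, one_mem _, by simp⟩
  inv_mem' := by
    rintro _ ⟨a, ha, f, hf, rfl⟩
    refine ⟨a⁻¹, inv_mem ha, f⁻¹, inv_mem hf, ?_⟩
    rw [mul_inv_rev, (T.comm _ (inv_mem ha) _ (inv_mem hf)).eq]

theorem dA_symm (T : Two ρ t t' s s' n' m') {g : H} (hg : g ∈ dA T) : g ∈ dA T.symm := by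
  obtain ⟨a, ha, f, hf, rfl⟩ := hg
  exact ⟨f, hf, a, ha, (T.comm a ha f hf).eq⟩

theorem d_normA (T : Two ρ t t' s s' n' m') {κ : Φ} (hκ : κ ≠ 0) {g : H}
    (hg : ρ g = tor s (ρ t + 1) n' κ) {x : H} (hx : x ∈ dA T) : g * x * g⁻¹ ∈ dA T := by
  obtain ⟨a, ha, f, hf, rfl⟩ := hx
  obtain ⟨e, he, z, hz, rfl⟩ := b_dec T hf
  have hc : Commute z g := d_comm T.st (by rw [hg]; exact a_tor_ck hz κ)
  refine ⟨g * (a * e) * g⁻¹ * e⁻¹, mul_mem (d_normE T hκ hg (mul_mem ha he)) (inv_mem he), e * z, hf, ?_⟩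
  calc g * (a * (e * z)) * g⁻¹ = g * (a * e) * (z * g⁻¹) := by group
    _ = g * (a * e) * (g⁻¹ * z) := by rw [hc.inv_right.eq]
    _ = _ := by group

theorem d_mem_norm (T : Two ρ t t' s s' n' m') {κ : Φ} (hκ : κ ≠ 0) {g : H}
    (hg : ρ g = tor s (ρ t + 1) n' κ) : g ∈ Subgroup.normalizer (dA T : Set H) := by
  rw [Subgroup.mem_normalizer_iff]
  intro x
  refine ⟨d_normA T hκ hg, fun hx => ?_⟩
  have := d_normA T (inv_ne_zero hκ) (d_inv T hκ hg) hx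
  simpa [mul_assoc] using this

theorem d_mem_norm' (T : Two ρ t t' s s' n' m') {κ : Φ} (hκ : κ ≠ 0) {g : H}
    (hg : ρ g = tor s' (ρ t' + 1) m' κ) : g ∈ Subgroup.normalizer (dA T : Set H) := by
  have := d_mem_norm T.symm hκ hg
  have e : dA T.symm = dA T := le_antisymm (fun x hx => dA_symm T.symm hx) (fun x hx => dA_symm T hx)
  rwa [e] at this

/-- an element commuting with a nonidentity element of `E` normalizes `E` -/
theorem d_nz (h : St 2 ρ) (ht : orderOf t = 2) {y w : H} (hw : w ∈ El ρ t) (hw1 : w ≠ 1)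
    (hc : Commute y w) {a : H} (ha : a ∈ El ρ t) : y * a * y⁻¹ ∈ El ρ t := by
  have e := El_eq h ht hw hw1
  rw [← e] at ha ⊢
  have := (El_conj (ρ := ρ) w y a).2 ha
  rwa [hc.eq, mul_inv_cancel_right] at this

theorem d_ck (T : Two ρ t t' s s' n' m') {z y : H} (hz : z ∈ dA T)
    (hy : ∀ w ∈ El ρ t, Commute y w → w = 1) (h1 : Commute y z)
    (h2 : ∀ κ : Φ, κ ≠ 0 → ∀ g : H, ρ g = tor s (ρ t + 1) n' κ → Commute y (g * z * g⁻¹)) :
    z ∈ CK ρ s (ρ t + 1) n' ∧ ∃ f ∈ El ρ t', ∃ e ∈ El ρ t, f = e * z := by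
  obtain ⟨a, ha, f, hf, rfl⟩ := hz
  obtain ⟨e, he, z, hz, rfl⟩ := b_dec T hf
  have hae : a * e ∈ El ρ t := mul_mem ha he
  have key : a * e = 1 := by
    have hδ : ρ (a * e) + 1 = 0 := by
      refine a_fix0 (s := s) T.st T.big fun κ hκ => ?_
      obtain ⟨g, hg⟩ := a_tor T.D hκ
      have hc : Commute z g := d_comm T.st (by rw [hg]; exact a_tor_ck hz κ)
      have hw : g * (a * e) * g⁻¹ * (a * e)⁻¹ = 1 := by
        refine hy _ (mul_mem (d_normE T hκ hg hae) (inv_mem hae)) ?_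
        have : g * (a * e) * g⁻¹ * (a * e)⁻¹ = g * (a * (e * z)) * g⁻¹ * (a * (e * z))⁻¹ := by
          calc _ = g * (a * e) * (g⁻¹ * z) * (z⁻¹ * (a * e)⁻¹) := by group
            _ = g * (a * e) * (z * g⁻¹) * (z⁻¹ * (a * e)⁻¹) := by rw [hc.inv_right.eq]
            _ = _ := by group
        rw [this]
        exact (h2 κ hκ g hg).mul_right h1.inv_right
      have hw' : g * (a * e) * g⁻¹ = a * e := mul_inv_eq_one.1 hw
      have l1 : (ρ t + 1) * (ρ (a * e) + 1) = 0 := El_mul T.st T.ht (El_self T.ht) hae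
      have l2 : (ρ (a * e) + 1) * (ρ t + 1) = 0 := El_mul T.st T.ht hae (El_self T.ht)
      have l3 : ρ g * (ρ (a * e) + 1) * ρ g⁻¹ = ρ (a * e) + 1 := by
        rw [mul_add, add_mul, mul_one, ← map_mul, ← map_mul, hw', ← map_mul, mul_inv_cancel, map_one]
      rw [d_inv T hκ hg, hg, a_tor_left T.D _ l1, mul_assoc, a_tor_right T.D _ l2, inv_inv,
        ← mul_assoc] at l3
      exact l3
    apply T.st.inj
    rw [map_one]
    exact add_right_cancel (hδ.trans (d_ad 1).symm)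
  have hz' : a * (e * z) = z := by rw [← mul_assoc, key, one_mul]
  rw [hz']
  exact ⟨hz, e * z, hf, e, he, rfl⟩

/-- The final three-term argument. -/
theorem d_final (T : Two ρ t t' s s' n' m') {z y : H} (hz : z ∈ CK ρ s (ρ t + 1) n') (hz2 : orderOf z = 2)
    (hκz : ∀ κ : Φ, ∃ z' ∈ El ρ z, ρ z' = 1 + s κ * (ρ z + 1))
    (hyN : ∀ u ∈ El ρ z, Commute y u)
    (hl : ρ y * ((ρ t + 1) * (ρ z + 1)) = (ρ t + 1) * (ρ z + 1))
    (hr : (ρ t + 1) * (ρ z + 1) * ρ y = (ρ t + 1) * (ρ z + 1)) : Commute y t := by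
  classical
  obtain ⟨n, hn⟩ : ∃ n, n = ρ t + 1 := ⟨_, rfl⟩
  obtain ⟨ζ, hζ⟩ : ∃ ζ, ζ = ρ z + 1 := ⟨_, rfl⟩
  have D := T.D
  have hN : El ρ z ≤ CK ρ s (ρ t + 1) n' := a_cen T.st T.al T.big D hz hz2
  have hinv := fun {κ : Φ} (hκ : κ ≠ 0) {g : H} => d_inv T hκ (g := g)
  have memz : ∀ g : H, g ∈ El ρ z ↔ ρ g * ζ = ζ := fun g => by rw [mem_El, hζ]
  rw [← hn] at D hN hz hinv hl hr
  rw [← hζ] at hκz hl hr
  have c2 : (2 : Φ) = 0 := a_char T.st s
  have ζn : Commute ζ n := by rw [hζ]; exact hz.1.add_left (Commute.one_left _)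
  have ζn' : Commute ζ n' := by rw [hζ]; exact hz.2.1.add_left (Commute.one_left _)
  have ζs : ∀ κ, Commute ζ (s κ) := fun κ => by rw [hζ]; exact (hz.2.2 κ).add_left (Commute.one_left _)
  have ζtor : ∀ κ, Commute ζ (tor s n n' κ) := fun κ => by
    rw [hζ]; exact (a_tor_ck hz κ).add_left (Commute.one_left _)
  have ysζ : ∀ κ, Commute (ρ y) (s κ * ζ) := fun κ => by
    obtain ⟨z', hz', e⟩ := hκz κ
    have := (hyN z' hz').map ρ
    rw [e] at this
    have h2 := this.add_right (Commute.one_right (ρ y))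
    rwa [add_comm (1 : Module.End (ZMod 2) V), add_assoc, d_ad, add_zero] at h2
  have yζ : Commute (ρ y) ζ := by simpa using ysζ 1
  have ns : ∀ κ, Commute (s κ) n := D.sn
  obtain ⟨θ, hθ⟩ : ∃ θ, θ = (ρ y + 1) * ζ := ⟨_, rfl⟩
  have yζ' : ρ y * ζ = ζ + θ := by
    rw [hθ, add_mul, one_mul, add_comm, add_assoc, d_ad, add_zero]
  have nθ : n * θ = 0 := by
    rw [hθ, add_mul, one_mul, yζ.eq, mul_add, ← mul_assoc, hr, d_ad]
  have θn : θ * n = 0 := by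
    rw [hθ, mul_assoc, ζn.eq, add_mul, one_mul, hl, d_ad]
  have θs : ∀ κ, s κ * θ = θ * s κ := fun κ => by
    have e1 : Commute (ρ y + 1) (s κ * ζ) := (ysζ κ).add_left (Commute.one_left _)
    have e2 : Commute (ρ y + 1) ζ := yζ.add_left (Commute.one_left _)
    rw [hθ, mul_assoc, (ζs κ).eq, e1.eq, e2.eq, mul_assoc]
  have θβ : θ = n * ζ * (n' * (ρ y + 1)) := by
    have e2 : Commute (ρ y + 1) ζ := yζ.add_left (Commute.one_left _)
    calc θ = (n * n' + n' * n) * θ := by rw [D.unit, one_mul]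
      _ = n * n' * θ := by rw [add_mul, mul_assoc n' n, nθ, mul_zero, add_zero]
      _ = n * (n' * ζ) * (ρ y + 1) := by rw [hθ, e2.eq]; simp only [mul_assoc]
      _ = _ := by rw [← ζn'.eq]; simp only [mul_assoc]
  have sβ : ∀ κ, s κ * (n * ζ) = n * ζ * s κ := fun κ => ((ns κ).mul_right (ζs κ).symm).eq
  have nβ : n * (n * ζ) = 0 := by rw [← mul_assoc, D.nn, zero_mul]
  -- the torus and the root group
  have ex : ∀ κ : Φ, ∃ g : H, κ ≠ 0 → ρ g = tor s n n' κ := fun κ => by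
    by_cases hκ : κ = 0
    · exact ⟨1, fun h => absurd hκ h⟩
    · obtain ⟨g, hg⟩ := a_tor D hκ
      exact ⟨g, fun _ => hg⟩
  choose hh hhh using ex
  choose ee hee using D.up
  have yκζ : ∀ κ, κ ≠ 0 → ρ (hh κ * y * (hh κ)⁻¹) * ζ = ζ + s (κ * κ) * θ := fun κ hκ => by
    rw [map_mul, map_mul, hinv hκ (hhh κ hκ), hhh κ hκ, mul_assoc, ← (ζtor κ⁻¹).eq, mul_assoc,
      ← mul_assoc (ρ y), yζ', add_mul, mul_add, a_tor_right D _ θn, inv_inv, ← mul_assoc _ θ,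
      a_tor_left D _ nθ, (ζtor κ⁻¹).eq, ← mul_assoc, a_tor_mul D, mul_inv_cancel₀ hκ, a_tor_one D,
      one_mul, mul_assoc, ← θs, ← mul_assoc, ← map_mul]
  have yκβ : ∀ κ, κ ≠ 0 → ρ (hh κ * y * (hh κ)⁻¹) * (n * ζ) = n * ζ := fun κ hκ => by
    rw [map_mul, map_mul, hinv hκ (hhh κ hκ), hhh κ hκ, mul_assoc, a_tor_left D _ nβ, sβ, mul_assoc,
      ← mul_assoc (ρ y), hl, ← mul_assoc, a_tor_left D _ nβ, sβ, mul_assoc, ← map_mul,
      mul_inv_cancel₀ hκ, map_one, mul_one]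
  have yκθ : ∀ κ, κ ≠ 0 → ∀ l, ρ (hh κ * y * (hh κ)⁻¹) * (s l * θ) = s l * θ := fun κ hκ l => by
    rw [θβ, ← mul_assoc (s l), sβ, mul_assoc (n * ζ), ← mul_assoc, yκβ κ hκ]
  -- commutation with N
  have Nh : ∀ u ∈ El ρ z, ∀ κ, κ ≠ 0 → Commute u (hh κ) := fun u hu κ hκ =>
    d_comm T.st (by rw [hhh κ hκ]; exact a_tor_ck (hN hu) κ)
  have Ne : ∀ u ∈ El ρ z, ∀ l, Commute u (ee l) := fun u hu l =>
    d_comm T.st (by
      rw [hee]
      exact (Commute.one_right _).add_right (((hN hu).2.2 l).mul_right (hN hu).1))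
  have Ny : ∀ u ∈ El ρ z, ∀ κ, κ ≠ 0 → Commute u (hh κ * y * (hh κ)⁻¹) := fun u hu κ hκ =>
    ((Nh u hu κ hκ).mul_right (hyN u hu).symm).mul_right (Nh u hu κ hκ).inv_right
  have eadd : ∀ l l', ee (l + l') = ee l * ee l' := fun l l' => T.st.inj (by
    rw [map_mul, hee, hee, hee, map_add, add_mul, add_mul, one_mul, mul_add, mul_one, mul_assoc,
      ← mul_assoc n, ← (ns l').eq, mul_assoc, D.nn, mul_zero, mul_zero, add_zero]
    abel)
  have econj : ∀ κ, κ ≠ 0 → ∀ l, hh κ * ee l * (hh κ)⁻¹ = ee (κ * κ * l) := fun κ hκ l => T.st.inj (by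
    have l1 : n * (s l * n) = 0 := by rw [← mul_assoc, ← (ns l).eq, mul_assoc, D.nn, mul_zero]
    have l2 : s κ * (s l * n) * n = 0 := by rw [mul_assoc, mul_assoc, D.nn, mul_zero, mul_zero]
    rw [map_mul, map_mul, hinv hκ (hhh κ hκ), hhh κ hκ, hee, hee, mul_add, add_mul, mul_one,
      a_tor_mul D, mul_inv_cancel₀ hκ, a_tor_one D, a_tor_left D _ l1, a_tor_right D _ l2, inv_inv,
      mul_assoc, mul_assoc, ← (ns κ).eq, ← mul_assoc, ← mul_assoc, ← map_mul, ← map_mul]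
    congr 3
    ring)
  have e1 : ee 1 = t := T.st.inj (by
    rw [hee, map_one, one_mul, hn, add_comm (ρ t), ← add_assoc, d_ad, zero_add])
  -- the commutators
  obtain ⟨c, hc⟩ : ∃ c : Φ → H, ∀ l, c l = y * ee l * y⁻¹ * (ee l)⁻¹ := ⟨_, fun _ => rfl⟩
  have cN : ∀ l, c l ∈ El ρ z := fun l => by
    have ζe : Commute ζ (ρ (ee l)) := by
      rw [hee]; exact (Commute.one_right _).add_right ((ζs l).mul_right ζn)
    have ζg : ∀ g : H, Commute ζ (ρ g) → Commute ζ (ρ g⁻¹) := fun g hg => by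
      have h1 : ρ g⁻¹ * ρ g = 1 := by rw [← map_mul, inv_mul_cancel, map_one]
      have h2 : ρ g * ρ g⁻¹ = 1 := by rw [← map_mul, mul_inv_cancel, map_one]
      calc ζ * ρ g⁻¹ = (ρ g⁻¹ * ρ g) * ζ * ρ g⁻¹ := by rw [h1, one_mul]
        _ = ρ g⁻¹ * (ζ * ρ g) * ρ g⁻¹ := by rw [hg.eq]; simp only [mul_assoc]
        _ = ρ g⁻¹ * ζ := by rw [mul_assoc, mul_assoc, h2, mul_one]
    have key : ρ y * ρ (ee l) * ζ = ρ (ee l) * ρ y * ζ := by
      have a1 : ρ y * (s l * n * ζ) = s l * n * ζ := by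
        rw [mul_assoc (s l), sβ, ← mul_assoc, hl]
      have a2 : s l * n * (ρ y * ζ) = s l * n * ζ := by
        rw [yζ', mul_add, mul_assoc (s l) n θ, nθ, mul_zero, add_zero]
      rw [hee, mul_assoc, mul_assoc, add_mul, add_mul, one_mul, one_mul, mul_add, a1, a2]
    rw [memz, hc, map_mul, map_mul, map_mul, mul_assoc, ← (ζg _ ζe).eq, ← mul_assoc, mul_assoc _ (ρ y⁻¹),
      ← (ζg _ yζ.symm).eq, ← mul_assoc, key, mul_assoc _ (ρ y), yζ.eq, ← mul_assoc, ← ζe.eq]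
    simp only [mul_assoc, ← map_mul, mul_inv_cancel, map_one, mul_one]
  have yc : ∀ l, y * ee l * y⁻¹ = c l * ee l := fun l => by rw [hc]; group
  have cadd : ∀ l l', c (l + l') = c l * c l' := fun l l' => by
    have := (Ne _ (cN l') l).eq
    calc c (l + l') = (y * ee l * y⁻¹) * (y * ee l' * y⁻¹) * (ee l')⁻¹ * (ee l)⁻¹ := by
          rw [hc, eadd]; group
      _ = c l * (ee l * c l') * (ee l)⁻¹ := by rw [yc, yc]; group
      _ = c l * c l' := by rw [← this]; group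
  have yκc : ∀ κ, κ ≠ 0 → ∀ l, (hh κ * y * (hh κ)⁻¹) * ee l * (hh κ * y * (hh κ)⁻¹)⁻¹ =
      c (l / (κ * κ)) * ee l := fun κ hκ l => by
    have e := econj κ hκ (l / (κ * κ))
    rw [mul_div_cancel₀ _ (mul_ne_zero hκ hκ)] at e
    have hcm := (Nh _ (cN (l / (κ * κ))) κ hκ).eq
    calc _ = hh κ * (y * ee (l / (κ * κ)) * y⁻¹) * (hh κ)⁻¹ := by
          conv_lhs => rw [← e]
          group
      _ = (hh κ * c (l / (κ * κ))) * ee (l / (κ * κ)) * (hh κ)⁻¹ := by rw [yc]; group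
      _ = c (l / (κ * κ)) * (hh κ * ee (l / (κ * κ)) * (hh κ)⁻¹) := by rw [← hcm]; group
      _ = _ := by rw [e]
  obtain ⟨μ, h0, h1, h3⟩ := a_mu T.big
  have h1' : 1 + μ ≠ 0 := fun e => h1 (by linear_combination e - c2)
  obtain ⟨y1, hy1⟩ : ∃ y1, y1 = hh 1 * y * (hh 1)⁻¹ := ⟨_, rfl⟩
  obtain ⟨y2, hy2⟩ : ∃ y2, y2 = hh μ * y * (hh μ)⁻¹ := ⟨_, rfl⟩
  obtain ⟨y3, hy3⟩ : ∃ y3, y3 = hh (1 + μ) * y * (hh (1 + μ))⁻¹ := ⟨_, rfl⟩
  have YN : y1 * y2 * y3 ∈ El ρ z := by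
    have e : 1 * 1 + μ * μ + (1 + μ) * (1 + μ) = 0 := by linear_combination (1 + μ + μ * μ) * c2
    rw [memz, map_mul, map_mul, mul_assoc, hy3, yκζ _ h1', mul_assoc, mul_add, hy2, yκζ _ h0,
      yκθ _ h0, mul_add, mul_add, hy1, yκζ _ one_ne_zero, yκθ _ one_ne_zero, yκθ _ one_ne_zero,
      add_assoc, add_assoc, ← add_mul, ← add_mul, ← map_add, ← map_add, ← add_assoc, e, map_zero,
      zero_mul, add_zero]
  have hτ : 1 / (1 * 1) + 1 / (μ * μ) + 1 / ((1 + μ) * (1 + μ)) ≠ 0 := by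
    intro e
    apply pow_ne_zero 2 h3
    field_simp at e
    linear_combination e + (μ ^ 3 - μ ^ 3 + μ ^ 2 - μ ^ 2 + 0 * μ) * c2
  obtain ⟨l, hl1⟩ : ∃ l : Φ, l / (1 * 1) + l / (μ * μ) + l / ((1 + μ) * (1 + μ)) = 1 :=
    ⟨(1 / (1 * 1) + 1 / (μ * μ) + 1 / ((1 + μ) * (1 + μ)))⁻¹, by
      refine Eq.trans ?_ (inv_mul_cancel₀ hτ); ring⟩
  have fin : c 1 * ee l = ee l := by
    have a3 := yκc _ h1' l
    have a2 := yκc _ h0 l
    have a1 := yκc _ one_ne_zero l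
    rw [← hy3] at a3
    rw [← hy2] at a2
    rw [← hy1] at a1
    have b1 := Ny _ (cN (l / ((1 + μ) * (1 + μ)))) _ h0
    have b2 := Ny _ (cN (l / ((1 + μ) * (1 + μ)))) _ one_ne_zero
    have b3 := Ny _ (cN (l / (μ * μ))) _ one_ne_zero
    rw [← hy2] at b1
    rw [← hy1] at b2 b3
    have cc : ∀ a b, Commute (c a) (c b) := fun a b => El_comm T.st hz2 (cN a) (cN b)
    calc c 1 * ee l = c (l / ((1 + μ) * (1 + μ))) * c (l / (μ * μ)) * (c (l / (1 * 1)) * ee l) := by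
          rw [← mul_assoc, ← cadd, ← cadd]; congr 2; refine hl1.symm.trans ?_; ring
      _ = c (l / ((1 + μ) * (1 + μ))) * (c (l / (μ * μ)) * y1) * ee l * y1⁻¹ := by rw [← a1]; group
      _ = (c (l / ((1 + μ) * (1 + μ))) * y1) * (c (l / (μ * μ)) * ee l) * y1⁻¹ := by rw [b3.eq]; group
      _ = y1 * (c (l / ((1 + μ) * (1 + μ))) * y2) * ee l * y2⁻¹ * y1⁻¹ := by rw [b2.eq, ← a2]; group
      _ = y1 * y2 * (c (l / ((1 + μ) * (1 + μ))) * ee l) * y2⁻¹ * y1⁻¹ := by rw [b1.eq]; group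
      _ = (y1 * y2 * y3) * ee l * (y1 * y2 * y3)⁻¹ := by rw [← a3]; group
      _ = ee l := by rw [(Ne _ YN l).eq]; group
  have c1 : c 1 = 1 := mul_right_cancel (fin.trans (one_mul _).symm)
  have := yc 1
  rw [c1, one_mul, e1] at this
  exact mul_inv_eq_iff_eq_mul.1 this

theorem d_false (T : Two ρ t t' s s' n' m') : False := by
  obtain ⟨μ', h0', h1', -⟩ := a_mu T.big
  obtain ⟨μ, h0, hm⟩ := c_match T h0'
  have c2 : (2 : Φ) = 0 := a_char T.st s
  have β0 := d_beta T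
  have nm := d_nm T
  have sβ := d_sbeta T
  have sβ' := d_sbeta T.symm
  rw [← nm] at sβ'
  have nβ : (ρ t + 1) * ((ρ t + 1) * (ρ t' + 1)) = 0 := by rw [← mul_assoc, T.D.nn, zero_mul]
  have mβ : (ρ t' + 1) * ((ρ t + 1) * (ρ t' + 1)) = 0 := by rw [nm, ← mul_assoc, T.D'.nn, zero_mul]
  have βn : (ρ t + 1) * (ρ t' + 1) * (ρ t + 1) = 0 := by rw [nm, mul_assoc, T.D.nn, mul_zero]
  have βm : (ρ t + 1) * (ρ t' + 1) * (ρ t' + 1) = 0 := by rw [mul_assoc, T.D'.nn, mul_zero]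
  obtain ⟨z0, hz0, hz02, hβ, hκ, hlast⟩ := b_z T
  obtain ⟨β, hβdef⟩ : ∃ β, β = (ρ t + 1) * (ρ t' + 1) := ⟨_, rfl⟩
  rw [← hβdef] at β0 sβ sβ' nβ mβ βn βm hm hβ
  have h1 : μ ≠ 1 := by
    rintro rfl
    apply β0
    have hne : μ' + 1 ≠ 0 := fun e => h1' (by linear_combination e - c2)
    have : s' (μ' + 1) * β = 0 := by
      rw [map_add, add_mul, ← hm, map_one, map_one, d_ad]
    calc β = s' (μ' + 1)⁻¹ * (s' (μ' + 1) * β) := by
          rw [← mul_assoc, ← map_mul, inv_mul_cancel₀ hne, map_one, one_mul]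
      _ = 0 := by rw [this, mul_zero]
  obtain ⟨g, hg⟩ := a_tor T.D h0
  obtain ⟨g', hg'⟩ := a_tor T.D' h0'
  obtain ⟨y, hy⟩ : ∃ y, y = g⁻¹ * g' := ⟨_, rfl⟩
  have yl : ρ y * β = β := by
    rw [hy, map_mul, d_inv T h0 hg, hg', mul_assoc, a_tor_left T.D' _ mβ, ← hm, sβ, ← mul_assoc,
      a_tor_left T.D _ nβ, sβ, mul_assoc, ← map_mul, inv_mul_cancel₀ h0, map_one, mul_one]
  have yr : β * ρ y = β := by
    rw [hy, map_mul, d_inv T h0 hg, hg', ← mul_assoc, a_tor_right T.D _ βn, inv_inv, ← sβ, hm,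
      mul_assoc, a_tor_right T.D' _ βm, ← sβ', ← mul_assoc, ← map_mul, mul_inv_cancel₀ h0', map_one,
      one_mul]
  have yE : ∀ w ∈ El ρ t, Commute y w → w = 1 := by
    intro w hw hc
    by_contra hw1
    refine h1' (b_norm T.symm h0' hg' fun a ha => ?_)
    have := d_normE T h0 hg (d_nz T.st T.ht hw hw1 hc ha)
    have e : g * (y * a * y⁻¹) * g⁻¹ = g' * a * g'⁻¹ := by rw [hy]; group
    rwa [e] at this
  have yF : ∀ w ∈ El ρ t', Commute y w → w = 1 := by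
    intro w hw hc
    by_contra hw1
    refine h1 (b_norm T h0 hg fun a ha => ?_)
    have := d_normE T.symm h0' hg' (d_nz T.st T.ht' hw hw1 hc.inv_left ha)
    have e : g' * (y⁻¹ * a * y⁻¹⁻¹) * g'⁻¹ = g * a * g⁻¹ := by rw [hy]; group
    rwa [e] at this
  -- the 2-group P
  let S : Subgroup H :=
    { carrier := {x | ρ x * β = β}
      mul_mem' := fun {a b} ha hb => by
        have ha' : ρ a * β = β := ha
        have hb' : ρ b * β = β := hb
        show ρ (a * b) * β = β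
        rw [map_mul, mul_assoc, hb', ha']
      one_mem' := by
        show ρ 1 * β = β
        rw [map_one, one_mul]
      inv_mem' := fun {a} ha => by
        have ha' : ρ a * β = β := ha
        show ρ a⁻¹ * β = β
        conv_lhs => rw [← ha', ← mul_assoc, ← map_mul, inv_mul_cancel, map_one, one_mul] }
  let P : Subgroup H := Subgroup.normalizer (dA T : Set H) ⊓ S
  have hP : IsPGroup 2 P := by
    obtain ⟨v, hv⟩ : ∃ v, β v ≠ 0 := by
      by_contra hh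
      push Not at hh
      exact β0 (LinearMap.ext hh)
    refine pgrp T.st P hv fun x hx => ?_
    have : ρ x * β = β := hx.2
    rw [← Module.End.mul_apply, this]
  letI : MulAction P (dA T) :=
    { smul := fun x a => ⟨x * a * x⁻¹, (Subgroup.mem_normalizer_iff.1 x.2.1 a).1 a.2⟩
      one_smul := fun a => Subtype.ext (by
        show ((1 : P) : H) * a * ((1 : P) : H)⁻¹ = a
        simp)
      mul_smul := fun x x' a => Subtype.ext (by
        show ((x * x' : P) : H) * a * ((x * x' : P) : H)⁻¹ = x * (x' * a * (x' : H)⁻¹) * (x : H)⁻¹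
        simp [mul_assoc]) }
  have htA : t ∈ dA T := ⟨t, El_self T.ht, 1, one_mem _, by simp⟩
  have hd : 2 ∣ Nat.card (dA T) := by
    rw [← T.ht]; exact (dA T).orderOf_dvd_natCard htA
  have hone : (1 : dA T) ∈ MulAction.fixedPoints P (dA T) := fun x => Subtype.ext (by
    show (x : H) * 1 * (x : H)⁻¹ = 1
    simp)
  obtain ⟨z, hz, hz1⟩ := hP.exists_fixed_point_of_prime_dvd_card_of_fixed_point (dA T) hd hone
  have hzP : ∀ x ∈ P, Commute x (z : H) := fun x hx =>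
    mul_inv_eq_iff_eq_mul.1 (congrArg Subtype.val (hz ⟨x, hx⟩))
  have yN : y ∈ Subgroup.normalizer (dA T : Set H) := by
    rw [hy]; exact mul_mem (inv_mem (d_mem_norm T h0 hg)) (d_mem_norm' T h0' hg')
  have conjP : ∀ k : H, k ∈ Subgroup.normalizer (dA T : Set H) → (∃ σ, ρ k * β = β * σ) →
      (∃ σ, ρ k⁻¹ * β = β * σ) → Commute y (k * z * k⁻¹) := by
    rintro k hk ⟨σ, hσ⟩ -
    have hm : k⁻¹ * y * k ∈ P := by
      refine Subgroup.mem_inf.2 ⟨mul_mem (mul_mem (inv_mem hk) yN) hk, ?_⟩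
      show ρ (k⁻¹ * y * k) * β = β
      rw [map_mul, map_mul, mul_assoc, hσ, mul_assoc, ← mul_assoc (ρ y), yl, ← hσ, ← mul_assoc,
        ← map_mul, inv_mul_cancel, map_one, one_mul]
    have := (hzP _ hm).eq
    show y * (k * z * k⁻¹) = k * z * k⁻¹ * y
    calc y * (k * z * k⁻¹) = k * (k⁻¹ * y * k * z) * k⁻¹ := by group
      _ = k * (z * (k⁻¹ * y * k)) * k⁻¹ := by rw [this]
      _ = _ := by group
  have yz : Commute y (z : H) := hzP y ⟨yN, yl⟩
  obtain ⟨zK, f, hf, e, he, hfe⟩ := d_ck T z.2 yE yz (fun κ hκ k hk =>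
    conjP k (d_mem_norm T hκ hk) ⟨s κ, by rw [hk, a_tor_left T.D _ nβ, sβ]⟩
      ⟨s κ⁻¹, by rw [d_inv T hκ hk, a_tor_left T.D _ nβ, sβ]⟩)
  obtain ⟨zK', -⟩ := d_ck T.symm (dA_symm T z.2) yF yz (fun κ hκ k hk =>
    conjP k (d_mem_norm' T hκ hk) ⟨s' κ, by rw [hk, a_tor_left T.D' _ mβ, sβ']⟩
      ⟨s' κ⁻¹, by rw [d_inv T.symm hκ hk, a_tor_left T.D' _ mβ, sβ']⟩)
  have zz0 : (z : H) ∈ El ρ z0 := hlast f hf e he z zK hfe
  have z1 : (z : H) ≠ 1 := fun e => hz1 (Subtype.ext e.symm)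
  have z2 : orderOf (z : H) = 2 :=
    orderOf_eq_prime (by rw [pow_two]; exact El_sq T.st hz02 zz0) z1
  have eN : El ρ (z : H) = El ρ z0 := El_eq T.st hz02 zz0 z1
  have N1 : El ρ z0 ≤ CK ρ s (ρ t + 1) n' := a_cen T.st T.al T.big T.D hz0 hz02
  have N2 : El ρ z0 ≤ CK ρ s' (ρ t' + 1) m' := eN ▸ a_cen T.st T.al T.big T.D' zK' z2
  have hyN : ∀ u ∈ El ρ z0, Commute y u := fun u hu => by
    have a1 : Commute u g := d_comm T.st (by rw [hg]; exact a_tor_ck (N1 hu) _)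
    have a2 : Commute u g' := d_comm T.st (by rw [hg']; exact a_tor_ck (N2 hu) _)
    rw [hy]
    exact (a1.inv_right.mul_right a2).symm
  have := d_final T hz0 hz02 hκ hyN (by rw [← hβ]; exact yl) (by rw [← hβ]; exact yr)
  have t1 := yE t (El_self T.ht) this
  have := T.ht
  rw [t1, orderOf_one] at this
  exact absurd this (by decide)

theorem e_alpha (h : St 2 ρ) (hA : Alpha H) {t : H} (ht : orderOf t = 2) (hD : Dat ρ t) : NC ρ t := by
  obtain ⟨Φ, _, _, s, n', h8, D⟩ := hD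
  intro g hc
  by_contra hne
  have i1 : ρ g * ρ g⁻¹ = 1 := by rw [← map_mul, mul_inv_cancel, map_one]
  have i2 : ρ g⁻¹ * ρ g = 1 := by rw [← map_mul, inv_mul_cancel, map_one]
  let cj : Module.End (ZMod 2) V →+* Module.End (ZMod 2) V :=
    { toFun := fun x => ρ g * x * ρ g⁻¹
      map_one' := by rw [mul_one, i1]
      map_mul' := fun x y => by
        calc ρ g * (x * y) * ρ g⁻¹ = ρ g * x * (ρ g⁻¹ * ρ g) * y * ρ g⁻¹ := by
              rw [i2]; simp only [mul_assoc, one_mul]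
          _ = _ := by simp only [mul_assoc]
      map_zero' := by simp
      map_add' := fun x y => by rw [mul_add, add_mul] }
  have cρ : ∀ a : H, ρ (g * a * g⁻¹) = cj (ρ a) := fun a => by rw [map_mul, map_mul]; rfl
  have cn : ρ (g * t * g⁻¹) + 1 = cj (ρ t + 1) := by rw [map_add, map_one, cρ]
  refine d_false (ρ := ρ) (t := t) (t' := g * t * g⁻¹) (s := s) (s' := cj.comp s) (n' := n')
    (m' := cj n') ⟨h, hA, h8, ht, ?_, D, ?_, hc, hne, ?_⟩
  · rw [← ht]; exact (MulAut.conj g).orderOf_eq t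
  · rw [cn]
    refine ⟨?_, ?_, ?_, fun μ => ?_, fun μ => ?_, fun μ => ?_, fun μ => ?_⟩
    · rw [← map_mul, D.nn, map_zero]
    · rw [← map_mul, D.nn', map_zero]
    · rw [← map_mul, ← map_mul, ← map_add, D.unit, map_one]
    · rw [RingHom.comp_apply, ← map_mul, ← map_mul, D.sn]
    · rw [RingHom.comp_apply, ← map_mul, ← map_mul, D.sn']
    · obtain ⟨a, ha⟩ := D.up μ
      exact ⟨g * a * g⁻¹, by rw [cρ, ha, map_add, map_one, map_mul, RingHom.comp_apply]⟩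
    · obtain ⟨a, ha⟩ := D.low μ
      exact ⟨g * a * g⁻¹, by rw [cρ, ha, map_add, map_one, map_mul, RingHom.comp_apply]⟩
  · refine Nat.card_congr
      { toFun := fun a => ⟨g * a * g⁻¹, (El_conj t g a).2 a.2⟩
        invFun := fun b => ⟨g⁻¹ * b * g, (El_conj t g _).1 (by simpa [mul_assoc] using b.2)⟩
        left_inv := fun a => Subtype.ext (by simp [mul_assoc])
        right_inv := fun b => Subtype.ext (by simp [mul_assoc]) }

end CF.Gg
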