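import Cfsg.Agent.Gg.B1
import Cfsg.Agent.S2602
import Cfsg.Agent.Classical.SL2b
import Cfsg.Agent.Classical.SL2Class
import Cfsg.Agent.Classical.SmallIso
import Cfsg.Agent.Fgs2.AutP

/-! S4841: the case of a normal `SL₂(q)` in the defining characteristic. -/

set_option autoImplicit false

namespace CF.Gg
open Matrix Subgroup
open scoped commutatorElement

theorem Fi_num {p a m n : ℕ} (hp : p.Prime) (ha : 1 ≤ a) (hm : 1 ≤ m)
    (h : p ^ n - 1 = (p ^ a + 1) * (p ^ m - 1)) : p ^ n - 1 = (p ^ a) ^ 2 - 1 := by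
  have p2 := hp.two_le
  have key : ∀ u v w : ℕ, 1 ≤ u → 1 ≤ v → p ^ n = p ^ u * w → 1 < w → p ∣ w := by
    intro u v w _ _ e hw
    obtain ⟨k, -, hk⟩ := (Nat.dvd_prime_pow hp).1 (Dvd.intro_left _ e.symm)
    rw [hk] at hw ⊢
    exact dvd_pow_self p (by rintro rfl; simp at hw)
  have n1 := Nat.one_le_pow n p hp.pos
  have m1 := Nat.one_le_pow m p hp.pos
  have e : p ^ n + p ^ a = p ^ a * p ^ m + p ^ m := by
    zify [n1, m1] at h ⊢
    linarith
  rcases lt_trichotomy m a with l | l | l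
  · obtain ⟨c, rfl⟩ := Nat.exists_eq_add_of_lt l
    have c1 : p ^ (c + 1) < p ^ (m + c + 1) := Nat.pow_lt_pow_right p2 (by omega)
    have e2 : p ^ n = p ^ m * (p ^ (m + c + 1) - p ^ (c + 1) + 1) := by
      zify [c1.le] at e ⊢
      linear_combination e
    have h3 := key m 1 _ hm le_rfl e2 (by omega)
    have h4 : p ∣ p ^ (m + c + 1) - p ^ (c + 1) :=
      Nat.dvd_sub (dvd_pow_self p (by omega)) (dvd_pow_self p (by omega))
    exact absurd (Nat.le_of_dvd one_pos ((Nat.dvd_add_right h4).1 h3)) (by omega)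
  · subst l
    rw [h]
    zify [m1, Nat.one_le_pow 2 _ m1]
    ring
  · obtain ⟨c, rfl⟩ := Nat.exists_eq_add_of_lt l
    have c1 : 1 < p ^ (c + 1) := Nat.one_lt_pow (by omega) p2
    have e2 : p ^ n = p ^ a * (p ^ (a + c + 1) + p ^ (c + 1) - 1) := by
      zify [show 1 ≤ p ^ (a + c + 1) + p ^ (c + 1) by omega] at e ⊢
      linear_combination e
    have h3 := key a 1 _ ha le_rfl e2 (by omega)
    have h4 : p ∣ p ^ (a + c + 1) + p ^ (c + 1) :=
      dvd_add (dvd_pow_self p (by omega)) (dvd_pow_self p (by omega))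
    have := Nat.dvd_sub h4 h3
    rw [Nat.sub_sub_self (by omega)] at this
    exact absurd (Nat.le_of_dvd one_pos this) (by omega)

theorem Fi_aut {S : Type*} [Group S] (hS : commutator S = ⊤) (α : MulAut S)
    (h : ∀ x, x⁻¹ * α x ∈ center S) (x : S) : α x = x := by
  have : commutator S ≤ α.toMonoidHom.eqLocus (MonoidHom.id S) := by
    refine commutator_le.2 fun a _ b _ => ?_
    show α ⁅a, b⁆ = ⁅a, b⁆
    obtain ⟨z, hz, ea⟩ : ∃ z ∈ center S, α a = a * z := ⟨_, h a, by group⟩
    obtain ⟨w, hw, eb⟩ : ∃ w ∈ center S, α b = b * w := ⟨_, h b, by group⟩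
    have hz' := mem_center_iff.1 hz
    have hw' := mem_center_iff.1 hw
    rw [map_commutatorElement, ea, eb, commutatorElement_def, commutatorElement_def]
    calc a * z * (b * w) * (a * z)⁻¹ * (b * w)⁻¹
        = a * (z * (b * w)) * z⁻¹ * (a⁻¹ * w⁻¹) * b⁻¹ := by group
      _ = a * (b * w * z) * z⁻¹ * (w⁻¹ * a⁻¹) * b⁻¹ := by
        rw [← hz' (b * w), mem_center_iff.1 (inv_mem hw) a⁻¹]
      _ = _ := by group
  exact this (hS ▸ mem_top x)

variable {p : ℕ} [Fact p.Prime] {H : Type*} [Group H] [Finite H] {V : Type*} [AddCommGroup V]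
  [Module (ZMod p) V] [Finite V] {ρ : H →* Module.End (ZMod p) V}

omit [Finite V] in
theorem Fi_cent (h : St p ρ) (L : Subgroup H) [L.Normal] {k : ℕ} (hk : L.index = p ^ k) :
    centralizer (L : Set H) ≤ L := by
  set C := centralizer (L : Set H)
  have hQ : IsPGroup p (H ⧸ L) := IsPGroup.of_card hk
  have := hQ.isNilpotent
  let f : C →* H ⧸ L := (QuotientGroup.mk' L).comp C.subtype
  have : Group.IsNilpotent C := Subgroup.isNilpotent_of_ker_le_center f fun c hc =>
    mem_center_iff.2 fun d => Subtype.ext (d.2 c ((QuotientGroup.eq_one_iff _).1 hc)).symm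
  obtain ⟨P⟩ : Nonempty (Sylow p C) := inferInstance
  have := P.characteristic_of_normal
    (Sylow.normal_of_normalizerCondition Group.normalizerCondition_of_isNilpotent P)
  have h0 := (map_eq_bot_iff_of_injective _ C.subtype_injective).1
    (h.core ((P : Subgroup C).map C.subtype) inferInstance (P.isPGroup'.map _))
  have h1 := P.not_dvd_index
  rw [h0, index_bot] at h1
  intro c hc
  have h2 : orderOf (f ⟨c, hc⟩) ∣ Nat.card C :=
    (orderOf_map_dvd f _).trans (orderOf_dvd_natCard _)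
  have h3 : orderOf (f ⟨c, hc⟩) ∣ p ^ k := hk ▸ orderOf_dvd_natCard _
  exact (QuotientGroup.eq_one_iff c).1 (orderOf_eq_one_iff.1 (Nat.eq_one_of_dvd_coprimes
    (((Fact.out : p.Prime).coprime_iff_not_dvd.2 h1).pow_left k) h3 h2))

theorem fin_i (h : St p ρ) (ht : Tr ρ) (L : Subgroup H) [L.Normal] {F : Type} [Field F] [Fintype F] {a : ℕ}
    (hF : Fintype.card F = p ^ a) (h4 : 4 ≤ Fintype.card F) (e : L ≃* SpecialLinearGroup (Fin 2) F) :
    Concl p H := by
  have hp : p.Prime := Fact.out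
  have : CharP F p := charP_of_card_eq_prime_pow hF
  have ha : 1 ≤ a := by
    rcases a with _ | a
    · simp [hF] at h4
    · omega
  have hq : Nat.card F = p ^ a := by rw [Nat.card_eq_fintype_card, hF]
  -- the index is a power of `p`
  obtain ⟨k, hk⟩ : ∃ k, L.index = p ^ k := by
    have h' := (h.normal L).equiv e.symm
    obtain ⟨Q⟩ : Nonempty (Sylow p (SpecialLinearGroup (Fin 2) F)) := inferInstance
    have c1 := count h' Q
    have c2 := fix_ne h' Q
    obtain ⟨m, hm⟩ := card_pow (fixS ((ρ.comp L.subtype).comp e.symm.toMonoidHom)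
      (Q : Subgroup (SpecialLinearGroup (Fin 2) F)))
    obtain ⟨n, hn⟩ := card_pow (⊤ : Submodule (ZMod p) V)
    rw [Nat.card_congr Submodule.topEquiv.toEquiv] at hn
    rw [(Classical.isL2_PSL F (AlgebraicClosure F)).card_sylow_cover
      (Classical.isCentralCoprime_slToPSL p) Classical.slToPSL_surjective, hm, hn, hq] at c1
    rw [hm] at c2
    have c3 := Fi_num hp ha (Nat.pos_of_ne_zero (by rintro rfl; simp at c2)) c1
    obtain ⟨P⟩ : Nonempty (Sylow p H) := inferInstance
    have c4 := index_eq h ht P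
    obtain ⟨j, hj⟩ := P.isPGroup'.exists_card_eq
    have c5 := (P : Subgroup H).card_mul_index
    rw [← c4, hn, c3, hj, ← L.card_mul_index, Nat.card_congr e.toEquiv, Classical.card_SL2,
      hq] at c5
    have c6 : 0 < (p ^ a) ^ 2 - 1 := by
      have := Nat.one_lt_pow two_ne_zero (show 1 < p ^ a by omega)
      omega
    have c7 : p ^ j = p ^ a * L.index :=
      Nat.eq_of_mul_eq_mul_right c6 (by rw [c5]; ring)
    obtain ⟨k, -, hk⟩ := (Nat.dvd_prime_pow hp).1 (Dvd.intro_left _ c7.symm)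
    exact ⟨k, hk⟩
  have hC := Fi_cent h L hk
  refine .inl ⟨F, inferInstance, inferInstance, ⟨a, hF⟩, by omega, L, inferInstance, ⟨e⟩, ⟨k, hk⟩,
    ?_, ?_⟩
  · obtain ⟨φ, -, -, hφ⟩ := Cfsg.Agent.S2602.result ha hF (hF ▸ h4)
    let A : H →* MulAut (SpecialLinearGroup (Fin 2) F) :=
      (MulAut.congr e).toMonoidHom.comp MulAut.conjNormal
    have hA : ∀ (g : H) (x : L), A g (e x) = e (MulAut.conjNormal g x) := fun g x => by
      simp [A, MulAut.congr]
    let B : H →* MulAut (ProjectiveSpecialLinearGroup (Fin 2) F) :=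
      (Fgs2.quotAut (center _)).comp A
    have hB : ∀ l : L, B l = MulAut.conj
        (e l : ProjectiveSpecialLinearGroup (Fin 2) F) := fun l => by
      ext ⟨x⟩
      obtain ⟨y, rfl⟩ := e.surjective x
      show ((A l (e y) : SpecialLinearGroup (Fin 2) F) : ProjectiveSpecialLinearGroup (Fin 2) F) =
        ((e l * e y * (e l)⁻¹ : SpecialLinearGroup (Fin 2) F) :
          ProjectiveSpecialLinearGroup (Fin 2) F)
      rw [hA, ← map_inv, ← map_mul, ← map_mul]
      rfl
    let Ψ : H →* Cfsg.Out (ProjectiveSpecialLinearGroup (Fin 2) F) :=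
      (QuotientGroup.mk' _).comp B
    have hker : (φ.comp Ψ).ker ≤ L := by
      intro g hg
      have h1 : orderOf (Ψ g) ∣ Nat.card φ.ker := orderOf_dvd_natCard φ.ker hg
      have h2 : orderOf (Ψ g) ∣ p ^ k := by
        refine orderOf_dvd_of_pow_eq_one ?_
        rw [← map_pow, ← hk]
        exact (QuotientGroup.eq_one_iff _).2 ⟨_, (hB ⟨_, pow_index_mem L g⟩).symm⟩
      have h3 : (p ^ k).Coprime (Nat.card φ.ker) := by
        rw [hφ]
        refine (Nat.Coprime.coprime_dvd_right (Nat.gcd_dvd_right _ _) ?_).pow_left k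
        refine Nat.Coprime.coprime_dvd_left (dvd_pow_self p (by omega : a ≠ 0)) ?_
        exact (Nat.coprime_self_sub_right (Nat.one_le_pow _ _ hp.pos)).2 (Nat.coprime_one_right _)
      obtain ⟨⟨x⟩, hx⟩ := (QuotientGroup.eq_one_iff _).1
        (orderOf_eq_one_iff.1 (Nat.eq_one_of_dvd_coprimes h3 h2 h1) : Ψ g = 1)
      obtain ⟨l, rfl⟩ := e.surjective x
      have h5 : B ((l : H)⁻¹ * g) = 1 := by
        rw [map_mul, map_inv, hB]
        exact inv_mul_eq_one.2 hx
      have h6 := Fi_aut (Classical.commutator_SL2_eq_top (by rwa [Nat.card_eq_fintype_card]))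
        (A ((l : H)⁻¹ * g)) (Fgs2.mem_ker_quotAut.1 h5)
      have h7 : (l : H)⁻¹ * g ∈ centralizer (L : Set H) := fun y hy => by
        have := h6 (e ⟨y, hy⟩)
        rw [hA] at this
        have := congrArg Subtype.val (e.injective this)
        rw [MulAut.conjNormal_apply] at this
        exact (mul_inv_eq_iff_eq_mul.1 this).symm
      simpa using L.mul_mem l.2 (hC h7)
    obtain ⟨⟨_, g₀, rfl⟩, hg₀⟩ := IsCyclic.exists_generator (α := (φ.comp Ψ).range)
    refine ⟨g₀, eq_top_iff.2 fun g _ => ?_⟩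
    obtain ⟨i, hi⟩ := hg₀ ⟨_, g, rfl⟩
    have hi' : (φ.comp Ψ) g₀ ^ i = (φ.comp Ψ) g := congrArg Subtype.val hi
    have h1 : g * (g₀ ^ i)⁻¹ ∈ L := hker (by
      rw [MonoidHom.mem_ker, map_mul, map_inv, map_zpow, hi', mul_inv_cancel])
    have := mul_mem_sup h1 (zpow_mem_zpowers g₀ i)
    rwa [inv_mul_cancel_right] at this
  · ext c
    constructor
    · intro hc
      exact ⟨⟨c, hC hc⟩, mem_center_iff.2 fun y => Subtype.ext (hc y y.2), rfl⟩
    · rintro ⟨c, hc, rfl⟩ y hy
      exact congrArg Subtype.val (mem_center_iff.1 hc ⟨y, hy⟩)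

end CF.Gg
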