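import Cfsg.Agent.Gg.B2
import Cfsg.Agent.S3099
import Cfsg.Agent.Fgs1.FPF7
import Cfsg.Agent.Hyp.FTProof

/-! The perfect core in odd characteristic. -/

set_option autoImplicit false

namespace CF.Gg

open Matrix Cfsg Subgroup

variable {p : ℕ} [Fact p.Prime] {H : Type*} [Group H] [Finite H] {V : Type*} [AddCommGroup V]
  [Module (ZMod p) V] [Finite V] {ρ : H →* Module.End (ZMod p) V}

/-- A normal subgroup of odd order inside a perfect normal subgroup is trivial. -/
theorem O0_odd (h : St p ρ) {L N : Subgroup H} (hL : ⁅L, L⁆ = L) [N.Normal] (hN : N ≤ L)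
    (o : Odd (Nat.card N)) : N = ⊥ := by
  by_contra k
  have := CF.Hyp.isSolvable_of_odd o
  obtain ⟨M, r, hr, hM, hMN, hE, hP⟩ := CF.Solv.exists_isMinNormal_pGroup_le N k
  have := hM.1
  have := Fact.mk hr
  have hrp : r ≠ p := by
    rintro rfl
    exact hM.2.1 (h.core M hM.1 hP)
  obtain ⟨n, hn⟩ := IsPGroup.iff_card.1 hP
  have hn0 : n ≠ 0 := by
    rintro rfl
    exact hM.2.1 (card_eq_one.1 hn)
  have hr2 : r ≠ 2 := by
    rintro rfl
    exact o.not_two_dvd_nat ((dvd_pow_self 2 hn0).trans (hn ▸ card_dvd_of_le hMN))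
  obtain ⟨g, hg⟩ := (rcyc h hr hr2 hrp M hP).exists_generator
  have h1 : orderOf g = Nat.card M := orderOf_eq_card_of_forall_mem_zpowers hg
  have h2 : Nat.card M ∣ r := h1 ▸ orderOf_dvd_of_pow_eq_one (Subtype.ext (hE.2 g g.2))
  refine noCent h L hL hr hr2 hrp M (hMN.trans hN)
    ((hr.eq_one_or_self_of_dvd _ h2).resolve_left fun e => hM.2.1 (card_eq_one.1 e))
    fun k _ m hm => hM.1.conj_mem m hm k

theorem o_core (h : St p ρ) (hp : p ≠ 2) (hns : ¬ Group.IsSolvable H) :
    ∃ L : Subgroup H, L.Normal ∧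
      ((∃ (F : Type) (_ : Field F) (_ : Fintype F), Odd (Fintype.card F) ∧ 3 < Fintype.card F ∧
        Nonempty (L ≃* SpecialLinearGroup (Fin 2) F)) ∨
       Cfsg.IsNonsplitDoubleCover L (alternatingGroup (Fin 7))) := by
  obtain ⟨L, hn, h1, hL, -⟩ := CF.Fgs1.Fpf.exists_perfect_normal hns
  have h2 : Even (Nat.card L) := Nat.not_odd_iff_even.1 fun o => h1 (O0_odd h hL le_rfl o)
  have h3 : oddCore L = ⊥ := by
    refine (map_eq_bot_iff_of_injective _ L.subtype_injective).1
      (O0_odd h hL (map_subtype_le _) ?_)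
    rw [card_map_of_injective L.subtype_injective]
    exact Nat.coprime_two_right.1 CF.Solv.pPrimeCore_coprime
  have h4 : PRankLE 2 1 L := fun A _ hA => by
    by_contra k
    have : Nontrivial A := Finite.one_lt_card_iff_nontrivial.1 (by omega)
    obtain ⟨a, ha⟩ := exists_ne (1 : A)
    have o : ∀ b : A, b ≠ 1 → orderOf ((b : L) : H) = 2 := fun b hb =>
      orderOf_eq_prime (congrArg Subtype.val (hA b b.2))
        fun e => hb (Subtype.ext (Subtype.ext e))
    refine k (Nat.card_le_card_of_surjective (fun i : Fin 2 => if i = 0 then (1 : A) else a)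
      (fun b => ?_) |>.trans (by simp))
    by_cases hb : b = 1
    · exact ⟨0, by simp [hb]⟩
    · exact ⟨1, by simpa using Subtype.ext (Subtype.ext (inv_unique h hp (o a ha) (o b hb)))⟩
  let e : L ≃* L ⧸ oddCore L :=
    (QuotientGroup.quotientBot.symm).trans (QuotientGroup.quotientMulEquivOfEq h3.symm)
  refine ⟨L, hn, (Cfsg.Agent.S3099.result (isPerfect_iff.2 hL) h4 h2).imp ?_ ?_⟩
  · rintro ⟨F, _, _, k1, k2, ⟨f⟩⟩
    exact ⟨F, _, _, k1, k2, ⟨e.trans f⟩⟩
  · rintro ⟨k1, ⟨f⟩, k3⟩
    have c : (center L).map (e : L →* L ⧸ oddCore L) = center _ := by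
      ext x
      obtain ⟨x, rfl⟩ := e.surjective x
      refine (mem_map_iff_mem (f := (e : L →* L ⧸ oddCore L)) e.injective).trans ?_
      rw [mem_center_iff, mem_center_iff, e.surjective.forall]
      simp only [← map_mul, e.injective.eq_iff]
    refine ⟨by rw [← k1, ← c, card_map_of_injective e.injective],
      ⟨(QuotientGroup.congr _ _ e c).trans f⟩, fun K hK => k3 (K.map (e : L →* _)) ?_⟩
    rw [← c]
    refine isComplement'_of_disjoint_and_mul_eq_univ ?_ ?_
    · exact disjoint_map e.injective hK.disjoint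
    · rw [coe_map, coe_map, ← Set.image_mul, hK.mul_eq, Set.image_univ]
      exact e.surjective.range_eq

end CF.Gg
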