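import Cfsg.Agent.Gg.B1
import Cfsg.Agent.Gg.B2
import Cfsg.Agent.Perm.LinTrans
import Cfsg.Agent.Solv.Fitting
import Cfsg.Agent.Solv.CyclicMax

/-! S4841, block O1: a soluble normal subgroup with a non-abelian centraliser is a `p'`-group. -/

set_option autoImplicit false

namespace CF.Gg
open Subgroup Cfsg

theorem O1_count {G : Type*} [Group G] [Finite G] {p : ℕ} [Fact p.Prime] (F : Subgroup G)
    [F.Normal] (hF : commutator G ≤ F) (P : Sylow p G) : Nat.card (Sylow p G) ≤ Nat.card F := by
  have hN : ((P : Subgroup G) ⊔ F).Normal :=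
    Subgroup.Normal.of_commutator_le G (hF.trans le_sup_right)
  have h1 := Sylow.normalizer_sup_eq_top' P (N := (P : Subgroup G) ⊔ F) le_sup_left
  rw [← sup_assoc, sup_eq_left.2 (show (P : Subgroup G) ≤ normalizer (P : Set G) from
    le_normalizer)] at h1
  rw [P.card_eq_index_normalizer, index_eq_card]
  refine Nat.card_le_card_of_surjective (fun f : F => ((f : G) : G ⧸ normalizer (P : Set G)))
    fun x => ?_
  obtain ⟨g, rfl⟩ := QuotientGroup.mk_surjective x
  have h2 : g ∈ ((F ⊔ normalizer (P : Set G) : Subgroup G) : Set G) := by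
    rw [sup_comm, h1]; trivial
  rw [normal_mul] at h2
  obtain ⟨f, hf, n, hn, rfl⟩ := h2
  exact ⟨⟨f, hf⟩, QuotientGroup.eq.2 (by simpa using hn)⟩

theorem O1_num {p m n s : ℕ} (hp : 1 < p) (hm : 1 < p ^ m) (hn : 1 < p ^ n)
    (h : p ^ n - 1 = s * (p ^ m - 1)) (hs : s ≠ 1) : p ^ n < s ^ 2 := by
  have h0 : s ≠ 0 := by
    rintro rfl
    omega
  have h1 := Nat.mul_le_mul_right (p ^ m - 1) (by omega : 2 ≤ s)
  obtain ⟨t, ht⟩ := pow_dvd_pow p ((Nat.pow_lt_pow_iff_right hp).1 (by omega : p ^ m < p ^ n)).le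
  rw [ht] at h hn ⊢
  generalize p ^ m = Q at *
  obtain ⟨Q, rfl⟩ := Nat.exists_eq_add_of_le' hm.le
  obtain ⟨s, rfl⟩ : ∃ s', s = s' + 1 := ⟨s - 1, by omega⟩
  rw [Nat.add_sub_cancel] at h
  have h2 : (Q + 1) * t + s = (Q + 1) * (s + 1) := by
    have : (Q + 1) * t = (s + 1) * Q + 1 := by omega
    rw [this]; ring
  have h3 : Q + 1 ∣ s := (Nat.dvd_add_right (dvd_mul_right _ _)).1 (h2 ▸ dvd_mul_right _ _)
  have h4 := Nat.le_of_dvd (by omega) h3
  nlinarith

variable {p : ℕ} [Fact p.Prime] {H : Type*} [Group H] [Finite H] {V : Type*} [AddCommGroup V]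
  [Module (ZMod p) V] [Finite V] {ρ : H →* Module.End (ZMod p) V}

theorem O1_sq (h : St p ρ) (ht : Tr ρ) (F : Subgroup H) [F.Normal] (hF : IsMulCommutative F)
    {a b : H} (ha : a ∈ centralizer (F : Set H)) (hb : b ∈ centralizer (F : Set H))
    (hab : ¬ Commute a b) : (Nat.card F + 1) ^ 2 ≤ Nat.card V := by
  letI : DistribMulAction H V := DistribMulAction.compHom V ρ
  have : FaithfulSMul H V := ⟨fun e => h.inj (LinearMap.ext e)⟩
  have : Nontrivial V := h.nt.elim fun v hv => ⟨v, 0, hv⟩
  have ht' : Perm.Tr H V := ht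
  obtain ⟨K, _, _, _, σ, k⟩ := ht'.exists_FS F hF
  have h1 : Module.finrank K V ≠ 1 := fun hd => hab (eq_of_smul_eq_smul fun v : V => by
    obtain ⟨c, hc⟩ := (LinearMap.existsUnique_eq_smul_id_of_finrank_eq_one hd (k.lin ha)).exists
    have h1 : ∀ v : V, a • v = c • v := DFunLike.congr_fun hc
    simp only [mul_smul, h1, k.comm hb])
  have h2 : 0 < Module.finrank K V := Module.finrank_pos
  have h3 := Finite.one_lt_card (α := K)
  have h4 := Nat.le_of_dvd (by omega) k.card_dvd
  rw [Module.natCard_eq_pow_finrank (K := K) (V := V)]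
  exact (Nat.pow_le_pow_left (by omega) 2).trans (Nat.pow_le_pow_right (by omega) (by omega))

theorem o_cent (h : St p ρ) (ht : Tr ρ) (C : Subgroup H) [C.Normal] (hs : Group.IsSolvable C)
    (h2 : ∀ T : Subgroup H, T ≤ C → IsPGroup 2 T → IsCyclic T) (hp : p ≠ 2)
    (a b : H) (ha : ∀ c ∈ C, Commute a c) (hb : ∀ c ∈ C, Commute b c) (hab : ¬ Commute a b) :
    (Nat.card C).Coprime p := by
  have hC := h.normal C
  have hz : IsZGroup (fittingSubgroup C) := ⟨fun r hr Q => by
    have := Fact.mk hr
    have e := Solv.map_sylow_fitting Q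
    have k : IsPGroup r ((Q : Subgroup (fittingSubgroup C)).map (fittingSubgroup C).subtype) :=
      Q.isPGroup'.map _
    have c : IsCyclic ((Q : Subgroup (fittingSubgroup C)).map (fittingSubgroup C).subtype) := by
      by_cases r2 : r = 2
      · subst r2
        have := h2 _ (map_subtype_le _) (k.map C.subtype)
        exact isCyclic_of_surjective _ (equivMapOfInjective _ _ C.subtype_injective).symm.surjective
      · by_cases rp : r = p
        · subst rp
          rw [hC.core _ (e ▸ inferInstance) k]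
          infer_instance
        · exact rcyc hC hr r2 rp _ k
    exact isCyclic_of_surjective _
      (equivMapOfInjective _ _ (fittingSubgroup C).subtype_injective).symm.surjective⟩
  have hc : IsCyclic (fittingSubgroup C) := inferInstance
  have hc' : IsCyclic ((fittingSubgroup C).map C.subtype) :=
    isCyclic_of_surjective _ (equivMapOfInjective _ _ C.subtype_injective).surjective
  have h3 := O1_sq h ht ((fittingSubgroup C).map C.subtype) hc'.isMulCommutative
    (fun c hc => (ha c (map_subtype_le _ hc)).symm) (fun c hc => (hb c (map_subtype_le _ hc)).symm)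
    hab
  rw [card_map_of_injective C.subtype_injective] at h3
  obtain ⟨P⟩ : Nonempty (Sylow p C) := inferInstance
  have h4 := O1_count (fittingSubgroup C)
    ((Solv.commutator_le_centralizer_of_cyclic _).trans Solv.centralizer_fitting_le) P
  have h5 := count hC P
  have h6 := fix_ne hC P
  obtain ⟨m, hm⟩ := card_pow (fixS (ρ.comp C.subtype) P)
  obtain ⟨n, hn⟩ := card_pow (p := p) (⊤ : Submodule (ZMod p) V)
  rw [Nat.card_congr Submodule.topEquiv.toEquiv] at hn
  have : Nontrivial V := h.nt.elim fun v hv => ⟨v, 0, hv⟩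
  have h7 := Finite.one_lt_card (α := V)
  rw [hm] at h5 h6
  rw [hn] at h3 h5 h7
  have h8 : Nat.card (Sylow p C) = 1 := by
    by_contra k
    have := O1_num (Fact.out : p.Prime).one_lt h6 h7 h5 k
    have := Nat.pow_le_pow_left (h4.trans (Nat.le_add_right _ 1)) 2
    omega
  have := (Nat.card_eq_one_iff_unique.1 h8).1
  have h9 := hC.core P P.normal_of_subsingleton P.isPGroup'
  refine ((Nat.Prime.coprime_iff_not_dvd Fact.out).2 fun k => ?_).symm
  have := P.dvd_card_of_dvd_card k
  rw [h9, card_bot, Nat.dvd_one] at this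
  exact (Fact.out : p.Prime).one_lt.ne' this

end CF.Gg
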