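import Cfsg.Agent.Gg.B1
import Cfsg.Agent.Gg.B2

/-! S4841: the double cover of the alternating group of degree seven does not occur. -/

set_option autoImplicit false

namespace CF.Gg

theorem O2_cube (σ : Equiv.Perm (Fin 7)) (h : σ ^ 9 = 1) : σ ^ 3 = 1 := by
  rw [← orderOf_dvd_iff_pow_eq_one] at h ⊢
  rw [← Equiv.Perm.lcm_cycleType, Multiset.lcm_dvd]
  intro n hn
  have h1 := (Equiv.Perm.dvd_of_mem_cycleType hn).trans h
  have h2 := (Equiv.Perm.le_card_support_of_mem_cycleType hn).trans (Finset.card_le_univ _)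
  rw [Fintype.card_fin] at h2
  interval_cases n <;> omega

theorem O2_num {n m s : ℕ} (hm : 1 < 3 ^ m) (h1 : 560 ∣ 3 ^ n - 1) (h2 : s ∣ 560) (h3 : s ≠ 1)
    (h4 : 3 ^ n - 1 = s * (3 ^ m - 1)) : False := by
  have s0 : 0 < s := Nat.pos_of_dvd_of_pos h2 (by norm_num)
  have s1 : s ≤ 560 := Nat.le_of_dvd (by norm_num) h2
  obtain ⟨Q, hQ⟩ : ∃ Q, 3 ^ m = Q + 1 := ⟨3 ^ m - 1, by omega⟩
  obtain ⟨N, hN⟩ : ∃ N, 3 ^ n = N + 1 := ⟨3 ^ n - 1, by have := Nat.one_le_pow n 3; omega⟩
  rw [hQ, hN, Nat.add_sub_cancel, Nat.add_sub_cancel] at h4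
  obtain ⟨t, rfl⟩ : ∃ t, s = t + 1 := ⟨s - 1, by omega⟩
  have t0 : 0 < t := by omega
  have mn : m ≤ n := (Nat.pow_le_pow_iff_right (by norm_num : 1 < 3)).1 (by nlinarith)
  have d1 : Q + 1 ∣ N + 1 := hQ ▸ hN ▸ pow_dvd_pow 3 mn
  have d2 : Q + 1 ∣ t := by
    have e : N + 1 + t = (Q + 1) * (t + 1) := by rw [h4]; ring
    exact (Nat.dvd_add_right d1).1 (e ▸ Dvd.intro _ rfl)
  have d3 := Nat.le_of_dvd t0 d2
  have n12 : n < 12 := (Nat.pow_lt_pow_iff_right (by norm_num : 1 < 3)).1 (by nlinarith)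
  have n0 : n ≠ 0 := by rintro rfl; have : 0 < (t + 1) * Q := Nat.mul_pos (by omega) (by omega); omega
  interval_cases n <;> omega

variable {p : ℕ} [Fact p.Prime] {H : Type*} [Group H] [Finite H] {V : Type*} [AddCommGroup V]
  [Module (ZMod p) V] [Finite V] {ρ : H →* Module.End (ZMod p) V}

theorem o_a7 (h : St p ρ) (hp : p ≠ 2)
    (hH : Cfsg.IsNonsplitDoubleCover H (alternatingGroup (Fin 7))) : False := by
  obtain ⟨h1, ⟨e⟩, -⟩ := hH
  have hc : Nat.card H = 5040 := by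
    have a := two_mul_nat_card_alternatingGroup (α := Fin 7)
    rw [Nat.card_perm, Nat.card_fin] at a
    rw [Subgroup.card_eq_card_quotient_mul_card_subgroup (Subgroup.center H), h1,
      Nat.card_congr e.toEquiv]
    norm_num [Nat.factorial] at a ⊢
    omega
  have : Fact (Nat.Prime 3) := ⟨Nat.prime_three⟩
  have h9 : ∀ P : Sylow 3 H, Nat.card P = 9 := fun P => by
    rw [P.card_eq_multiplicity, hc, show 5040 = 3 ^ 2 * 560 by norm_num,
      Nat.factorization_mul (by norm_num) (by norm_num), Nat.prime_three.factorization_pow]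
    simp [Nat.factorization_eq_zero_of_not_dvd (show ¬ 3 ∣ 560 by norm_num)]
  by_cases p3 : p = 3
  · subst p3
    obtain ⟨P⟩ := (inferInstance : Nonempty (Sylow 3 H))
    have hi : (P : Subgroup H).index = 560 := by
      have := (P : Subgroup H).card_mul_index
      rw [h9, hc] at this
      omega
    obtain ⟨n, hn⟩ := card_pow (p := 3) (⊤ : Submodule (ZMod 3) V)
    rw [Nat.card_congr Submodule.topEquiv.toEquiv] at hn
    obtain ⟨m, hm⟩ := card_pow (fixS ρ (P : Subgroup H))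
    have a := count h P
    have b := index_dvd h P
    have c := fix_ne h P
    rw [hn] at a b
    rw [hm] at a c
    refine O2_num c (hi ▸ b) (hi ▸ P.card_dvd_index) (fun e1 => ?_) a
    have : Subsingleton (Sylow 3 H) := (Nat.card_eq_one_iff_unique.1 e1).1
    have k := h9 P
    rw [h.core P P.normal_of_subsingleton P.isPGroup', Subgroup.card_bot] at k
    omega
  · obtain ⟨P⟩ := (inferInstance : Nonempty (Sylow 3 H))
    have := rcyc h Nat.prime_three (by norm_num) (Ne.symm p3) P P.isPGroup'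
    obtain ⟨g, hg⟩ := IsCyclic.exists_ofOrder_eq_natCard (α := P)
    rw [h9, ← Subgroup.orderOf_coe] at hg
    have a : (g : H) ^ 9 = 1 := hg ▸ pow_orderOf_eq_one _
    have b : e (QuotientGroup.mk (g : H)) ^ 3 = 1 := Subtype.ext (O2_cube _ (by
      rw [← Subgroup.coe_pow, ← map_pow, ← QuotientGroup.mk_pow, a]; simp))
    rw [← map_pow, e.map_eq_one_iff, ← QuotientGroup.mk_pow, QuotientGroup.eq_one_iff] at b
    have c : ((g : H) ^ 3) ^ 2 = 1 :=
      congrArg Subtype.val (h1 ▸ pow_card_eq_one' (x := (⟨_, b⟩ : Subgroup.center H)))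
    rw [← pow_mul, ← orderOf_dvd_iff_pow_eq_one, hg] at c
    omega

end CF.Gg
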