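import Cfsg.Agent.Gg.B2
import Cfsg.Agent.Gg.O1
import Cfsg.Agent.S2602
import Cfsg.Agent.Hyp.FTProof
import Cfsg.Agent.Fgs1.Basic
import Cfsg.Agent.Classical.SmallIso

/-! Cross characteristic: the structure of the normal subgroup `SL₂(r)`. -/

set_option autoImplicit false

namespace CF.Gg
open Matrix Subgroup
open scoped MatrixGroups commutatorElement

section
variable {F : Type} [Field F]

/-- the upper unitriangular matrices -/
def O3u : Multiplicative F →* SL(2, F) :=
  .mk' (fun t => ⟨!![1, t.toAdd; 0, 1], by simp [det_fin_two]⟩) fun a b => Subtype.ext (by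
    change !![1, a.toAdd + b.toAdd; 0, 1] = !![1, a.toAdd; 0, 1] * !![1, b.toAdd; 0, 1]
    simp [add_comm])

theorem O3u_val (t : Multiplicative F) : (O3u t).1 = !![1, t.toAdd; 0, 1] := rfl

theorem O3u_inj : Function.Injective (O3u (F := F)) := fun a b e => by
  simpa [O3u_val] using congrArg (fun g : SL(2, F) => g.1 0 1) e

/-- the diagonal matrices -/
def O3d : Fˣ →* SL(2, F) :=
  .mk' (fun t => ⟨!![t.1, 0; 0, t⁻¹.1], by simp [det_fin_two]⟩) fun a b => Subtype.ext (by
    change !![(a * b).1, 0; 0, (a * b)⁻¹.1] = !![a.1, 0; 0, a⁻¹.1] * !![b.1, 0; 0, b⁻¹.1]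
    simp [mul_comm])

theorem O3d_val (t : Fˣ) : (O3d t).1 = !![t.1, 0; 0, t⁻¹.1] := rfl

theorem O3d_inj : Function.Injective (O3d (F := F)) := fun a b e => Units.ext (by
  simpa [O3d_val] using congrArg (fun g : SL(2, F) => g.1 0 0) e)

theorem O3du (a : Fˣ) (t : F) :
    O3d a * O3u (.ofAdd t) = O3u (.ofAdd (a * a * t)) * O3d a :=
  Subtype.ext (by
    change !![a.1, 0; 0, a⁻¹.1] * !![1, t; 0, 1] = !![1, a * a * t; 0, 1] * !![a.1, 0; 0, a⁻¹.1]
    simp [mul_assoc, mul_comm t])

/-- an element of order four -/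
def O3i : SL(2, F) := ⟨!![0, 1; -1, 0], by simp [det_fin_two]⟩

theorem O3i_val : (O3i : SL(2, F)).1 = !![0, 1; -1, 0] := rfl

theorem O3i_sq : (O3i : SL(2, F)) * O3i = -1 := Subtype.ext (by
  change !![(0 : F), 1; -1, 0] * !![0, 1; -1, 0] = -1
  ext i j
  fin_cases i <;> fin_cases j <;> simp)

theorem O3i_nc : ¬ Commute (O3i : SL(2, F)) (O3u (.ofAdd 1)) := fun e => by
  simpa [O3i_val, O3u_val] using congrArg (fun g : SL(2, F) => g.1 0 0) e.eq

variable [Fintype F]

theorem O3two (hodd : Odd (Fintype.card F)) : (2 : F) ≠ 0 := fun e => by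
  have : ringChar F ∣ 2 := (ringChar.spec F 2).1 (by exact_mod_cast e)
  rcases (Nat.dvd_prime Nat.prime_two).1 this with h | h
  · exact CharP.ringChar_ne_one h
  · have := (FiniteField.even_card_iff_char_two (F := F)).1 h
    rcases hodd with ⟨k, hk⟩
    omega

theorem O3neg (hodd : Odd (Fintype.card F)) : orderOf (-1 : SL(2, F)) = 2 :=
  orderOf_eq_prime (by simp) fun e => O3two hodd (by
    have : (-1 : F) = 1 := by simpa using congrArg (fun g : SL(2, F) => g.1 0 0) e
    linear_combination -this)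

theorem O3aut (h3 : 3 < Fintype.card F) (hpr : (Fintype.card F).Prime) (α : MulAut SL(2, F)) :
    ∃ g, ∀ x, α (α x) = g * x * g⁻¹ := by
  have := Fact.mk hpr
  obtain ⟨φ, -, -, hφ⟩ := Cfsg.Agent.S2602.result (F := F) (p := Fintype.card F) (f := 1) le_rfl
    (pow_one _).symm (by rw [pow_one]; omega)
  let β : MulAut PSL(2, F) := QuotientGroup.congr _ _ α
    (characteristic_iff_map_eq.1 inferInstance α)
  have h1 : (β : Cfsg.Out PSL(2, F)) ^ 2 = 1 := by
    have := congrArg Subtype.val (pow_card_eq_one' (x := (⟨β, Subsingleton.elim _ _⟩ : φ.ker)))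
    exact orderOf_dvd_iff_pow_eq_one.1 ((orderOf_dvd_of_pow_eq_one this).trans
      (hφ ▸ Nat.gcd_dvd_left _ _))
  obtain ⟨g, hg⟩ := (QuotientGroup.eq_one_iff (β ^ 2)).1 h1
  obtain ⟨g, rfl⟩ := QuotientGroup.mk_surjective g
  have h2 : ∀ x, ∃ z ∈ center SL(2, F), g⁻¹ * α (α x) * g = x * z := fun x =>
    ⟨x⁻¹ * (g⁻¹ * α (α x) * g), QuotientGroup.eq.1 (by
      have : (g : PSL(2, F)) * x * (g : PSL(2, F))⁻¹ = α (α x) := DFunLike.congr_fun hg (x : PSL(2, F))
      simp [← this, mul_assoc]), by simp⟩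
  let γ : SL(2, F) →* SL(2, F) := ((MulAut.conj g⁻¹) * α * α).toMonoidHom
  have h4 : commutator SL(2, F) ≤ γ.eqLocus (.id _) := commutator_le.2 fun x _ y _ => by
    obtain ⟨z, hz, e⟩ := h2 x
    obtain ⟨w, hw, e'⟩ := h2 y
    have e1 : γ x = x * z := by simpa [γ] using e
    have e2 : γ y = y * w := by simpa [γ] using e'
    change γ ⁅x, y⁆ = ⁅x, y⁆
    rw [map_commutatorElement, e1, e2]
    rcases Classical.mem_center_SL2_iff.1 hz with rfl | rfl <;>
      rcases Classical.mem_center_SL2_iff.1 hw with rfl | rfl <;> simp [commutatorElement_def]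
  rw [Classical.commutator_SL2_eq_top (by rw [Nat.card_eq_fintype_card]; omega)] at h4
  refine ⟨g, fun x => ?_⟩
  have : γ x = x := h4 (mem_top x)
  have : g⁻¹ * α (α x) * g = x := by simpa [γ] using this
  conv_rhs => rw [← this]
  group

end

variable {p : ℕ} [Fact p.Prime] {H : Type*} [Group H] [Finite H] {V : Type*} [AddCommGroup V]
  [Module (ZMod p) V] [Finite V] {ρ : H →* Module.End (ZMod p) V}

theorem o_prime (h : St p ρ) (hp : p ≠ 2) {F : Type} [Field F] [Fintype F] (hodd : Odd (Fintype.card F))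
    (h3 : 3 < Fintype.card F) (hc : ¬ p ∣ Fintype.card F) (e : H ≃* SpecialLinearGroup (Fin 2) F) :
    (Fintype.card F).Prime ∧ ∃ a b : ℕ, Fintype.card F = 2 ^ a * p ^ b + 1 := by
  have pp : p.Prime := Fact.out
  let u := e.symm.toMonoidHom.comp (O3u (F := F))
  have hu : Function.Injective u := e.symm.injective.comp O3u_inj
  have cu : Nat.card u.range = Fintype.card F := by
    rw [← Nat.card_congr (MonoidHom.ofInjective hu).toEquiv, Nat.card_eq_fintype_card,
      Fintype.card_multiplicative]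
  have cp := (pp.coprime_iff_not_dvd.2 hc).symm
  have hq : (Fintype.card F).Prime := by
    have := cyc h u.range (cu ▸ cp) (.inl inferInstance)
    obtain ⟨r, hr⟩ := CharP.exists F
    have h1 := CharP.char_is_prime F r
    have h2 : Monoid.exponent u.range ∣ r := Monoid.exponent_dvd_of_forall_pow_eq_one (by
      rintro ⟨_, t, rfl⟩
      refine Subtype.ext ?_
      change u t ^ r = 1
      rw [← map_pow, show t ^ r = 1 from Multiplicative.ext (by simp), map_one])
    rw [IsCyclic.exponent_eq_card, cu] at h2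
    rcases (Nat.dvd_prime h1).1 h2 with k | k
    · omega
    · rwa [k]
  refine ⟨hq, ?_⟩
  have key : ∀ s, s.Prime → s ∣ Fintype.card F - 1 → s = 2 ∨ s = p := fun s hs hd => by
    by_contra! hn
    classical
    have := Fact.mk hs
    obtain ⟨a, ha⟩ := exists_prime_orderOf_dvd_card (G := Fˣ) s (by rwa [Fintype.card_units])
    let d := e.symm (O3d a)
    have hd' : orderOf d = s := by
      rw [MulEquiv.orderOf_eq, orderOf_injective _ O3d_inj, ha]
    have du : ∀ t, d * u (.ofAdd t) = u (.ofAdd (a * a * t)) * d := fun t => by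
      simpa [d, u, ← map_mul] using O3du a t
    have hN : zpowers d ≤ normalizer (u.range : Set H) := by
      rw [zpowers_le]
      refine mem_normalizer_fintype ?_
      rintro _ ⟨t, rfl⟩
      exact ⟨.ofAdd (a * a * t.toAdd), by rw [eq_mul_inv_iff_mul_eq, ← du]; rfl⟩
    have h1 := Fgs1.card_sup_of_le_normalizer hN
    have h2 : s.Coprime (Fintype.card F) := (Nat.coprime_primes hs hq).2 fun k => by
      have := Nat.le_of_dvd (by omega) hd
      omega
    rw [Nat.card_zpowers, hd', cu, (inf_eq_bot_of_coprime (by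
      rwa [Nat.card_zpowers, hd', cu])), card_bot, one_mul] at h1
    have h4 := cyc h (zpowers d ⊔ u.range) (h1 ▸ .mul_left ((Nat.coprime_primes hs pp).2 hn.2) cp)
      (.inr ⟨_, _, hs, hq, h1.symm⟩)
    have h5 : d * u (.ofAdd 1) = u (.ofAdd 1) * d := congrArg Subtype.val
      (IsMulCommutative.is_comm.comm (⟨d, mem_sup_left (mem_zpowers d)⟩ : ↥(zpowers d ⊔ u.range))
        ⟨u (.ofAdd 1), mem_sup_right ⟨_, rfl⟩⟩)
    have h6 : (a : F) * a * 1 = 1 := Multiplicative.ofAdd.injective
      (hu (mul_right_cancel ((du 1).symm.trans h5)))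
    exact hn.1 ((Nat.prime_dvd_prime_iff_eq hs Nat.prime_two).1 (ha ▸ orderOf_dvd_of_pow_eq_one
      (Units.ext (by simpa [sq] using h6))))
  obtain ⟨a, m, h1, h2⟩ := Nat.exists_eq_pow_mul_and_not_dvd (n := Fintype.card F - 1) (by omega) 2
    (by omega)
  obtain ⟨b, k, h4, h5⟩ := Nat.exists_eq_pow_mul_and_not_dvd (n := m) (by rintro rfl; simp at h1) p
    pp.ne_one
  obtain rfl : k = 1 := by_contra fun hk => by
    obtain ⟨s, hs, hd⟩ := Nat.exists_prime_and_dvd hk
    have hm : s ∣ m := h5 ▸ hd.mul_left _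
    rcases key s hs (h2 ▸ hm.mul_left _) with rfl | rfl
    exacts [h1 hm, h4 hd]
  exact ⟨a, b, by rw [← mul_one (p ^ b), ← h5, ← h2]; omega⟩

theorem O3sq (h : St p ρ) (hp : p ≠ 2) (L : Subgroup H) {F : Type} [Field F] [Fintype F]
    (hodd : Odd (Fintype.card F)) (e : L ≃* SpecialLinearGroup (Fin 2) F) (k : ℕ) :
    ∀ c ∈ Subgroup.centralizer (L : Set H), c ^ 2 ^ k = 1 → c = 1 ∨ c = e.symm (-1) := by
  have hz : orderOf (e.symm (-1) : H) = 2 := by
    rw [orderOf_coe, MulEquiv.orderOf_eq, O3neg hodd]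
  have h2 : ∀ c : H, c ^ 2 = 1 → c = 1 ∨ c = e.symm (-1) := fun c hc =>
    or_iff_not_imp_left.2 fun n => inv_unique h hp (orderOf_eq_prime hc n) hz
  induction k with
  | zero => exact fun c _ hc => .inl (by simpa using hc)
  | succ k ih =>
    intro c hc hk
    rcases ih (c ^ 2) (pow_mem hc 2) (by rw [← pow_mul, ← pow_succ', hk]) with k1 | k1
    · exact h2 c k1
    have k2 : ∀ x : SL(2, F), Commute c (e.symm x) := fun x => (hc _ (e.symm x).2).symm
    have k3 : (c * e.symm O3i) ^ 2 = 1 := by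
      rw [(k2 _).mul_pow, k1, sq, ← coe_mul, ← coe_mul, ← map_mul, ← map_mul, O3i_sq]
      simp
    have k4 : Commute (c * e.symm O3i) (e.symm (O3u (.ofAdd 1))) := by
      rcases h2 _ k3 with k | k <;> rw [k]
      · exact .one_left _
      · exact (((Commute.neg_one_left _).map e.symm).map L.subtype :)
    have k5 := (k2 _).inv_left.mul_left k4
    rw [inv_mul_cancel_left] at k5
    exact absurd (e.symm.injective (Subtype.ext (by simpa using k5.eq))) O3i_nc

theorem o_two (h : St p ρ) (hp : p ≠ 2) (L : Subgroup H) [L.Normal] {F : Type} [Field F] [Fintype F]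
    (hodd : Odd (Fintype.card F)) (e : L ≃* SpecialLinearGroup (Fin 2) F) {c : H}
    (hc : c ∈ Subgroup.centralizer (L : Set H)) {k : ℕ} (hk : c ^ 2 ^ k = 1) : c ∈ L := by
  rcases O3sq h hp L hodd e k c hc hk with rfl | rfl
  exacts [one_mem _, (e.symm (-1)).2]

theorem o_index (h : St p ρ) (ht : Tr ρ) (hp : p ≠ 2) (L : Subgroup H) [L.Normal] {F : Type} [Field F] [Fintype F]
    (hodd : Odd (Fintype.card F)) (h3 : 3 < Fintype.card F) (hpr : (Fintype.card F).Prime)
    (e : L ≃* SpecialLinearGroup (Fin 2) F) : L.index.Coprime p := by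
  have pp : p.Prime := Fact.out
  set C := centralizer (L : Set H)
  have h2 : ∀ T : Subgroup H, T ≤ C → IsPGroup 2 T → T ≤ zpowers (e.symm (-1) : H) :=
    fun T hT hT' c hc => by
      obtain ⟨k, hk⟩ := hT' ⟨c, hc⟩
      rcases O3sq h hp L hodd e k c (hT hc) (congrArg Subtype.val hk) with rfl | rfl
      exacts [one_mem _, mem_zpowers _]
  have hs : Group.IsSolvable C := by
    obtain ⟨S⟩ : Nonempty (Sylow 2 C) := inferInstance
    have hS : S.1 ≤ center C := fun c hc => mem_center_iff.2 fun x => Subtype.ext (by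
      obtain ⟨n, hn⟩ := h2 (S.1.map C.subtype) (map_subtype_le _) (S.2.map _) ⟨c, hc, rfl⟩
      have : Commute (e.symm (-1) : H) x := x.2 _ (e.symm (-1)).2
      have := (this.zpow_left n).symm.eq
      rwa [show (e.symm (-1) : H) ^ n = c from hn] at this)
    have : Group.IsSolvable (C ⧸ center C) := Hyp.isSolvable_of_odd (Nat.odd_iff.2 (by
      have := mt (dvd_trans · (index_dvd_of_le hS)) S.not_dvd_index
      rw [← index_eq_card]
      omega))
    have : Group.IsSolvable (center C) :=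
      Group.isSolvable_of_comm fun a b => IsMulCommutative.is_comm.comm a b
    exact Group.isSolvable_of_ker_le_range (center C).subtype (QuotientGroup.mk' (center C))
      (by simp)
  have hC := o_cent h ht C hs (fun T a b => isCyclic_of_le (h2 T a b)) hp (e.symm O3i)
    (e.symm (O3u (.ofAdd 1))) (fun c hc => hc _ (e.symm _).2) (fun c hc => hc _ (e.symm _).2)
    fun k => O3i_nc (e.symm.injective (Subtype.ext (by simpa using k.eq)))
  refine (pp.coprime_iff_not_dvd.2 fun hd => ?_).symm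
  obtain ⟨x, hx⟩ := exists_prime_orderOf_dvd_card' (G := H ⧸ L) p hd
  obtain ⟨x, rfl⟩ := QuotientGroup.mk_surjective x
  obtain ⟨g, hg⟩ := O3aut h3 hpr (MulAut.congr e (MulAut.conjNormal x))
  have h4 : (e.symm g : H)⁻¹ * x ^ 2 ∈ C := fun y hy => by
    have := congrArg (fun a => (e.symm a : H)) (hg (e ⟨y, hy⟩))
    simp only [MulAut.congr_apply, MulEquiv.trans_apply, MulEquiv.symm_apply_apply, map_mul,
      map_inv, MulAut.conjNormal_apply, coe_mul, coe_inv] at this
    calc _ = (e.symm g : H)⁻¹ * (e.symm g * y * (e.symm g : H)⁻¹) * x ^ 2 := by group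
      _ = _ := by rw [← this, sq]; group
  have h5 := congrArg (QuotientGroup.mk' L) (congrArg Subtype.val
    (pow_card_eq_one' (x := (⟨_, h4⟩ : C))))
  rw [coe_pow, map_pow, map_mul, map_inv, QuotientGroup.mk'_apply,
    (QuotientGroup.eq_one_iff _).2 (e.symm g).2, inv_one, one_mul, map_pow, ← pow_mul] at h5
  rcases pp.dvd_mul.1 (hx ▸ orderOf_dvd_of_pow_eq_one h5) with k | k
  · exact hp ((Nat.prime_dvd_prime_iff_eq pp Nat.prime_two).1 k)
  · exact pp.ne_one (Nat.eq_one_of_dvd_coprimes hC k dvd_rfl)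

end CF.Gg
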