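import Cfsg.Agent.Gg.A
import Cfsg.Agent.Classical.McKaySL2

/-! The number of Sylow subgroups of `SL₂(F)` in cross characteristic. -/

set_option autoImplicit false

namespace CF.Gg
open Matrix Subgroup CF.Classical
open scoped MatrixGroups

theorem O4main {ℓ : ℕ} [hℓ : Fact ℓ.Prime] (h1 : ℓ ≠ 2) {F : Type} [Field F] [Fintype F]
    (hd : ℓ ∣ Fintype.card F ^ 2 - 1) :
    ∃ n, ℓ ∣ n ∧ (n = Fintype.card F - 1 ∨ n = Fintype.card F + 1) ∧
      2 * n * Nat.card (Sylow ℓ SL(2, F)) = Fintype.card F * (Fintype.card F ^ 2 - 1) := by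
  obtain ⟨p, hp⟩ := CharP.exists F
  have hp' : Fact p.Prime := ⟨CharP.char_is_prime F p⟩
  have q1 := Fintype.one_lt_card (α := F)
  have h3 : ℓ ≠ p := by
    rintro rfl
    have h1 : ℓ ∣ Fintype.card F ^ 2 :=
      ((CharP.cast_eq_zero_iff F ℓ _).1 (FiniteField.cast_card_eq_zero F)).pow two_ne_zero
    have := Nat.dvd_sub h1 hd
    rw [Nat.sub_sub_self (Nat.one_le_pow _ _ (by omega))] at this
    exact hℓ.out.one_lt.ne' (Nat.dvd_one.1 this)
  obtain ⟨S⟩ : Nonempty (Sylow ℓ SL(2, F)) := inferInstance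
  have hc := card_SL2 (F := F)
  rw [Nat.card_eq_fintype_card (α := F)] at hc
  have h0 : (S : Subgroup SL(2, F)) ≠ ⊥ := S.ne_bot_of_dvd_card (hc ▸ hd.mul_left _)
  have := (nontrivial_iff_ne_bot _).2 h0
  have := S.isPGroup'.center_nontrivial
  obtain ⟨⟨⟨s, hs⟩, hc'⟩, s1⟩ := exists_ne (1 : center S)
  have s1 : s ≠ 1 := fun e => s1 (Subtype.ext (Subtype.ext e))
  obtain ⟨k, hk⟩ := (IsPGroup.iff_orderOf.1 S.isPGroup') ⟨s, hs⟩
  rw [← orderOf_coe] at hk
  have hd : ℓ ∣ orderOf s := hk ▸ dvd_pow_self ℓ (by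
    rintro rfl; exact s1 (orderOf_eq_one_iff.1 hk))
  have hss : IsSS (SpecialLinearGroup.toGL s) := isSS_of_not_dvd p fun e => by
    rcases (Nat.Prime.dvd_mul hℓ.out).1 (hd.trans e) with e | e
    exacts [h1 ((Nat.prime_dvd_prime_iff_eq hℓ.out Nat.prime_two).1 e),
      h3 ((Nat.prime_dvd_prime_iff_eq hℓ.out hp'.out).1 e)]
  have hP : (S : Subgroup SL(2, F)) ≤ centralizer {s} := fun t ht =>
    mem_centralizer_singleton_iff.2 (congrArg Subtype.val (mem_center_iff.1 hc' ⟨t, ht⟩))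
  refine ⟨Nat.card (centralizer {s}), hd.trans (orderOf_dvd_natCard _ (hP hs)), ?_, ?_⟩
  · rw [← nsT1_toGL, ← Nat.card_eq_fintype_card]
    rcases hss.cases with h | ⟨a, b, hab, h⟩
    exacts [Or.inr h.card_nsT1, Or.inl (h.card_nsT1_split hab)]
  · have h4 := ((centralizer {s}).subgroupOf (normalizer (centralizer {s} : Set SL(2, F)))).card_mul_index
    rw [hss.index_subgroupOf, Nat.card_congr (subgroupOfEquivOfLe le_normalizer).toEquiv] at h4
    have h5 : normalizer (S : Set SL(2, F)) = _ := hss.normalizer_eq hs hP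
    rw [S.card_eq_index_normalizer, ← hc, h5, mul_comm 2, h4, card_mul_index]

set_option linter.unusedVariables false

theorem syl_minus {p : ℕ} [Fact p.Prime] (hp : p ≠ 2) {F : Type} [Field F] [Fintype F]
    (hodd : Odd (Fintype.card F)) (hd : p ∣ Fintype.card F - 1) :
    2 * Nat.card (Sylow p (SpecialLinearGroup (Fin 2) F)) = Fintype.card F * (Fintype.card F + 1) := by
  have q1 := Fintype.one_lt_card (α := F)
  have e : Fintype.card F ^ 2 - 1 = _ := Nat.sq_sub_sq _ 1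
  obtain ⟨n, h1, rfl | rfl, h3⟩ := O4main hp (e ▸ hd.mul_left _)
  · refine Nat.eq_of_mul_eq_mul_right (m := Fintype.card F - 1) (by omega) ?_
    rw [mul_assoc (Fintype.card F), ← e, ← h3]; ring
  · have := Nat.dvd_sub h1 hd
    rw [show Fintype.card F + 1 - (Fintype.card F - 1) = 2 by omega] at this
    exact absurd ((Nat.prime_dvd_prime_iff_eq Fact.out Nat.prime_two).1 this) hp

theorem syl_plus {p : ℕ} [Fact p.Prime] (hp : p ≠ 2) {F : Type} [Field F] [Fintype F]
    (hodd : Odd (Fintype.card F)) (hd : p ∣ Fintype.card F + 1) :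
    2 * Nat.card (Sylow p (SpecialLinearGroup (Fin 2) F)) = Fintype.card F * (Fintype.card F - 1) := by
  have q1 := Fintype.one_lt_card (α := F)
  have e : Fintype.card F ^ 2 - 1 = _ := Nat.sq_sub_sq _ 1
  obtain ⟨n, h1, rfl | rfl, h3⟩ := O4main hp (e ▸ hd.mul_right _)
  · have := Nat.dvd_sub hd h1
    rw [show Fintype.card F + 1 - (Fintype.card F - 1) = 2 by omega] at this
    exact absurd ((Nat.prime_dvd_prime_iff_eq Fact.out Nat.prime_two).1 this) hp
  · refine Nat.eq_of_mul_eq_mul_right (m := Fintype.card F + 1) (by omega) ?_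
    rw [mul_assoc (Fintype.card F), mul_comm (_ - 1), ← e, ← h3]; ring

end CF.Gg
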