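import Mathlib

/-! S4841, block O5: numerics for the cross-characteristic case. -/

set_option autoImplicit false

namespace CF.Gg

theorem O5_step {p m n s : ℕ} (hp : 2 ≤ p) (hQ : 2 ≤ p ^ m) (hs : 2 ≤ s)
    (h : p ^ n = s * (p ^ m - 1) + 1) :
    ∃ u k, s = 1 + p ^ m * u ∧ p ^ k = u * (p ^ m - 1) + 1 := by
  obtain ⟨q, hq⟩ : ∃ q, p ^ m = q + 1 := ⟨p ^ m - 1, by omega⟩
  rw [hq, Nat.add_sub_cancel] at h ⊢
  have a : p ^ m < p ^ n := by rw [hq, h]; nlinarith [(by omega : 1 ≤ q)]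
  obtain ⟨k, rfl⟩ := Nat.exists_eq_add_of_le ((Nat.pow_lt_pow_iff_right hp).1 a).le
  rw [pow_add, hq] at h
  have b : p ^ k ≤ s := Nat.le_of_mul_le_mul_left (c := q + 1) (by nlinarith) (by omega)
  obtain ⟨u, rfl⟩ := Nat.exists_eq_add_of_le b
  have c : p ^ k = u * q + 1 := by nlinarith
  exact ⟨u, k, by rw [c]; ring, c⟩

theorem O5_geom {p m n s : ℕ} (hp : 2 ≤ p) (hQ : 2 ≤ p ^ m) (hs : 2 ≤ s)
    (h : p ^ n = s * (p ^ m - 1) + 1) : ∃ w, s = 1 + p ^ m * (1 + p ^ m * w) := by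
  obtain ⟨u, k, a, b⟩ := O5_step hp hQ hs h
  rcases (by omega : u = 0 ∨ u = 1 ∨ 2 ≤ u) with rfl | rfl | c
  · omega
  · exact ⟨0, by rw [a]; ring⟩
  · obtain ⟨w, -, d, -⟩ := O5_step hp hQ c b
    exact ⟨w, by rw [a, d]⟩

/-- `p ^ b` divides `p ^ m` when it divides `p ^ m` times a number prime to `p` -/
theorem O5_split {p b m x : ℕ} (hp : p.Prime) (hx : ¬ p ∣ x) (h : p ^ b ∣ p ^ m * x) :
    ∃ t, p ^ m = p ^ b * p ^ t := by
  have a : p ^ b ∣ p ^ m :=
    ((hp.coprime_iff_not_dvd.2 hx).pow_left b).dvd_of_dvd_mul_right h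
  obtain ⟨t, rfl⟩ := Nat.exists_eq_add_of_le ((Nat.pow_dvd_pow_iff_le_right hp.one_lt).1 a)
  exact ⟨t, pow_add _ _ _⟩

theorem O5_nd {p m w : ℕ} (hp : p.Prime) (hQ : 2 ≤ p ^ m) : ¬ p ∣ 1 + p ^ m * w := fun d => by
  have m0 : m ≠ 0 := by rintro rfl; simp at hQ
  exact hp.one_lt.ne' (Nat.dvd_one.1
    ((Nat.dvd_add_left ((dvd_pow_self p m0).mul_right w)).1 d))

theorem num_minus {p r a b c m n s : ℕ} (hp : p.Prime) (hp2 : p ≠ 2) (ha : 1 ≤ a) (hb : 1 ≤ b)
    (hc : 1 ≤ c) (hr : r = 2 ^ a * p ^ b + 1) (hs : 2 * s = r * (r + 1))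
    (hm : p ^ m = 2 ^ (a + 1) * c + 1) (hn : p ^ n = s * (p ^ m - 1) + 1) :
    p = 3 ∧ r = 13 ∧ c = 1 := by
  have p2 : ¬ p ∣ 2 := fun d => hp2 ((Nat.prime_dvd_prime_iff_eq hp Nat.prime_two).1 d)
  have pA : ¬ p ∣ 2 ^ a := fun d => p2 (hp.dvd_of_dvd_pow d)
  have A2 : 2 ∣ 2 ^ a := dvd_pow_self 2 (by omega)
  have A3 : 2 ^ a ≠ 6 := fun e => by
    have : 3 ∣ 2 ^ a := e ▸ by norm_num
    exact absurd (Nat.prime_three.dvd_of_dvd_pow this) (by norm_num)
  have A0 : 0 < 2 ^ a := by positivity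
  have e0 : 0 < p ^ b := pow_pos hp.pos b
  rw [pow_succ] at hm
  generalize 2 ^ a = A at *
  have hQ : 2 ≤ p ^ m := by rw [hm]; nlinarith
  have r3 : 2 ≤ r := by rw [hr]; nlinarith
  obtain ⟨w, hw⟩ := O5_geom hp.two_le hQ (by nlinarith) hn
  have E : p ^ m * (2 * (1 + p ^ m * w)) = p ^ b * ((A * p ^ b + 3) * A) := by
    rw [hw, hr] at hs; nlinarith
  have nd : ¬ p ∣ 2 * (1 + p ^ m * w) := fun d => (hp.dvd_mul.1 d).elim p2 (O5_nd hp hQ)
  obtain ⟨t, ht⟩ := O5_split hp nd (Dvd.intro _ E.symm)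
  have E1 : p ^ t * (2 * (1 + p ^ m * w)) = (A * p ^ b + 3) * A :=
    Nat.eq_of_mul_eq_mul_left e0 (by rw [← E, ← mul_assoc, ← ht])
  have d1 : p ^ t ∣ A * p ^ b + 3 :=
    ((hp.coprime_iff_not_dvd.2 pA).pow_left t).dvd_of_dvd_mul_right (Dvd.intro _ E1)
  rcases t with _ | t
  · exfalso
    rw [pow_zero, mul_one] at ht
    rw [pow_zero, one_mul, ← ht] at E1
    have d : p ^ m ∣ 3 * A - 2 := by
      have : p ^ m * (2 * w) = p ^ m * (A * A) + (3 * A - 2) := by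
        have : 2 ≤ 3 * A := by omega
        zify [this] at E1 ⊢
        linarith
      exact (Nat.dvd_add_right (Dvd.intro _ rfl)).1 (Dvd.intro _ this)
    obtain ⟨k, hk⟩ := d
    rw [hm] at hk
    obtain ⟨B, rfl⟩ := A2
    rcases (by omega : k = 0 ∨ k = 1 ∨ 2 ≤ k) with rfl | rfl | k2
    · omega
    · rcases (by omega : c = 1 ∨ 2 ≤ c) with rfl | c2
      · omega
      · have := Nat.mul_le_mul_left (2 * B * 2) c2
        omega
    · have := Nat.mul_le_mul (Nat.add_le_add_right (Nat.mul_le_mul_left (2 * B * 2) hc) 1) k2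
      omega
  have p3 : p = 3 := (Nat.prime_dvd_prime_iff_eq hp Nat.prime_three).1
    ((Nat.dvd_add_right ((dvd_pow_self p (by omega)).mul_left A)).1
      ((dvd_pow_self p t.succ_ne_zero).trans d1))
  subst p3
  obtain ⟨b, rfl⟩ := Nat.exists_eq_add_of_le' hb
  rw [pow_succ, pow_succ] at ht E1 d1
  rw [pow_succ] at hr
  have E2 : 3 ^ t * (2 * (1 + 3 ^ m * w)) = (A * 3 ^ b + 1) * A := by nlinarith
  have d2 : 3 ^ t ∣ A * 3 ^ b + 1 :=
    ((hp.coprime_iff_not_dvd.2 pA).pow_left t).dvd_of_dvd_mul_right (Dvd.intro _ E2)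
  rcases b with _ | b
  · rw [pow_zero, mul_one] at d2 E2
    rw [pow_zero, one_mul] at ht hr
    obtain ⟨k, hk⟩ := d2
    have f0 : 0 < 3 ^ t := by positivity
    have E3 : 2 * (1 + 3 ^ m * w) = k * A :=
      Nat.eq_of_mul_eq_mul_left f0 (by rw [E2, hk, mul_assoc])
    have E4 : 9 * (A + 1) = (A * 2 * c + 1) * k := by rw [← hm, ht, hk]; ring
    rw [hm] at E3
    have k0 : 1 ≤ k := Nat.pos_of_ne_zero (by rintro rfl; omega)
    have ck : 5 ≤ c * k := by
      by_contra h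
      have h4 : c * k ≤ 4 := by omega
      have : k ≤ c * k := Nat.le_mul_of_pos_left _ hc
      nlinarith
    have A8 : A + k ≤ 9 := by nlinarith
    have c8 : c ≤ 8 := by
      by_contra h
      have : 9 ≤ c * k := (by omega : 9 ≤ c).trans (Nat.le_mul_of_pos_right _ k0)
      nlinarith
    have : A ≤ 8 := by omega
    have : k ≤ 8 := by omega
    clear hm hn hw E ht E1 d1 E2 hk nd hQ hs pA
    interval_cases A <;> interval_cases c <;> omega
  · exfalso
    have t0 : t = 0 := by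
      by_contra h
      have := (Nat.dvd_add_right ((dvd_pow_self 3 b.succ_ne_zero).mul_left A)).1
        ((dvd_pow_self 3 h).trans d2)
      omega
    subst t0
    rw [pow_zero, one_mul] at E2 ht
    obtain ⟨y, hy⟩ : 3 ∣ 3 ^ (b + 1) := dvd_pow_self 3 b.succ_ne_zero
    have y0 : 0 < y := by
      have : 0 < 3 ^ (b + 1) := by positivity
      omega
    rw [hy] at E2 ht
    rw [ht] at E2 hm
    have A22 : 2 ≤ A := Nat.le_of_dvd A0 A2
    obtain ⟨B, rfl⟩ := Nat.exists_eq_add_of_le A22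
    have d : 3 * y ∣ B := by
      have : 3 * y * (18 * w) = 3 * y * ((2 + B) * (2 + B)) + B := by nlinarith
      exact (Nat.dvd_add_right (Dvd.intro _ rfl)).1 (Dvd.intro _ this)
    obtain ⟨k, rfl⟩ := d
    have E3 : 18 * w = (2 + 3 * y * k) * (2 + 3 * y * k) + k :=
      Nat.eq_of_mul_eq_mul_left (by omega : 0 < 3 * y) (by nlinarith)
    have ck : c * k ≤ 4 := by
      by_contra h
      have : 5 ≤ c * k := by omega
      nlinarith
    rcases Nat.eq_zero_or_pos k with rfl | k0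
    · omega
    have : c ≤ 4 := (Nat.le_mul_of_pos_right _ k0).trans ck
    have : k ≤ 4 := (Nat.le_mul_of_pos_left _ hc).trans ck
    clear hn hw E ht E1 d1 E2 nd hQ hs pA d2 hr hy e0
    interval_cases c <;> interval_cases k <;> first | omega | (obtain rfl : y = 3 := (by omega); omega)

theorem num_plus {p r b g c m n s : ℕ} (hp : p.Prime) (hp2 : p ≠ 2) (hb : 1 ≤ b) (hc : 1 ≤ c)
    (hr5 : 5 ≤ r) (hodd : Odd r) (hr : r + 1 = p ^ b * g) (hg : ¬ p ∣ g)
    (hs : 2 * s = r * (r - 1)) (hm : p ^ m = 2 * c * g + 1)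
    (hn : p ^ n = s * (p ^ m - 1) + 1) : p = 3 ∧ r = 5 ∧ c = 2 := by
  have e0 : 0 < p ^ b := pow_pos hp.pos b
  obtain ⟨G, rfl⟩ : 2 ∣ g :=
    (((Nat.coprime_primes Nat.prime_two hp).2 hp2.symm).pow_right b).dvd_of_dvd_mul_left
      (hr ▸ hodd.add_one.two_dvd)
  have pG : ¬ p ∣ G := fun d => hg (d.mul_left 2)
  have G0 : 1 ≤ G := Nat.pos_of_ne_zero (by rintro rfl; omega)
  have hQ : 2 ≤ p ^ m := by rw [hm]; nlinarith
  obtain ⟨x, rfl⟩ : ∃ x, r = x + 2 := ⟨r - 2, by omega⟩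
  rw [show x + 2 - 1 = x + 1 from rfl] at hs
  obtain ⟨w, hw⟩ := O5_geom hp.two_le hQ (by nlinarith) hn
  have E : p ^ m * (1 + p ^ m * w) = p ^ b * (x * G) := by
    have : 2 * (p ^ m * (1 + p ^ m * w)) = x * (x + 2 + 1) := by rw [hw] at hs; nlinarith
    rw [hr] at this
    nlinarith
  obtain ⟨t, ht⟩ := O5_split hp (O5_nd hp hQ) (Dvd.intro _ E.symm)
  have E1 : p ^ t * (1 + p ^ m * w) = x * G :=
    Nat.eq_of_mul_eq_mul_left e0 (by rw [← E, ← mul_assoc, ← ht])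
  have d1 : p ^ t ∣ x :=
    ((hp.coprime_iff_not_dvd.2 pG).pow_left t).dvd_of_dvd_mul_right (Dvd.intro _ E1)
  rcases t with _ | t
  · exfalso
    rw [pow_zero, mul_one] at ht
    rw [pow_zero, one_mul] at E1
    rw [← ht] at hr
    have d : p ^ m ∣ 3 * G + 1 := by
      have : p ^ m * (2 * G * G) = p ^ m * w + (3 * G + 1) := by nlinarith
      exact (Nat.dvd_add_right (Dvd.intro _ rfl)).1 (Dvd.intro _ this)
    have := Nat.le_of_dvd (by omega) d
    rw [hm] at this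
    nlinarith
  have p3 : p = 3 := (Nat.prime_dvd_prime_iff_eq hp Nat.prime_three).1
    ((Nat.dvd_add_right ((dvd_pow_self p t.succ_ne_zero).trans d1)).1
      (show p ∣ x + 3 from hr ▸ (dvd_pow_self p (by omega)).mul_right _))
  subst p3
  obtain ⟨b, rfl⟩ := Nat.exists_eq_add_of_le' hb
  obtain ⟨z, rfl⟩ : 3 ∣ x := (dvd_pow_self 3 t.succ_ne_zero).trans d1
  rw [pow_succ, pow_succ] at ht
  rw [pow_succ] at hr E1
  have hz : z + 1 = 3 ^ b * (2 * G) := by nlinarith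
  have E2 : 3 ^ t * (1 + 3 ^ m * w) = z * G := by nlinarith
  have d2 : 3 ^ t ∣ z :=
    ((hp.coprime_iff_not_dvd.2 pG).pow_left t).dvd_of_dvd_mul_right (Dvd.intro _ E2)
  rcases b with _ | b
  · rw [pow_zero, one_mul] at hz ht
    obtain ⟨k, hk⟩ := d2
    have f0 : 0 < 3 ^ t := by positivity
    have E3 : 1 + 3 ^ m * w = k * G :=
      Nat.eq_of_mul_eq_mul_left f0 (by rw [E2, hk, mul_assoc])
    rw [ht] at hm E3
    generalize 3 ^ t = f at *
    subst hk
    have k0 : 1 ≤ k := Nat.pos_of_ne_zero (by rintro rfl; omega)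
    have E4 : 9 * f = 2 * c * (f * k + 1) + 1 := by rw [hz]; omega
    have ck : c * k ≤ 4 := by
      by_contra h
      have : 5 ≤ c * k := by omega
      nlinarith
    have : c ≤ 4 := (Nat.le_mul_of_pos_right _ k0).trans ck
    have : k ≤ 4 := (Nat.le_mul_of_pos_left _ hc).trans ck
    clear hn hw E ht E1 d1 E2 hQ hs hr e0 hodd hg pG
    interval_cases c <;> interval_cases k <;>
      first | omega | (rcases (by omega : f = 1 ∨ f = 9) with rfl | rfl <;> omega)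
  · exfalso
    have t0 : t = 0 := by
      by_contra h
      have := (Nat.dvd_add_right ((dvd_pow_self 3 h).trans d2)).1
        (hz ▸ (dvd_pow_self 3 b.succ_ne_zero).mul_right _)
      omega
    subst t0
    rw [pow_zero, one_mul] at E2 ht
    obtain ⟨y, hy⟩ : 3 ∣ 3 ^ (b + 1) := dvd_pow_self 3 b.succ_ne_zero
    have y0 : 0 < y := by
      have : 0 < 3 ^ (b + 1) := by positivity
      omega
    rw [hy] at hz ht
    rw [ht] at E2 hm
    have d : 3 * y ∣ G + 1 := by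
      have : 3 * y * (2 * G * G) = 3 * y * (9 * w) + (G + 1) := by nlinarith
      exact (Nat.dvd_add_right (Dvd.intro _ rfl)).1 (Dvd.intro _ this)
    obtain ⟨k, hk⟩ := d
    have k0 : 1 ≤ k := Nat.pos_of_ne_zero (by rintro rfl; omega)
    have E4 : 27 * y + 4 * c = 12 * (c * k) * y + 1 := by
      have : 4 * c * (G + 1) = 12 * (c * k) * y := by rw [hk]; ring
      nlinarith
    have ck : 3 ≤ c * k := by
      by_contra h
      have : c * k ≤ 2 := by omega
      nlinarith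
    have c1 : c ≤ c * k := Nat.le_mul_of_pos_right _ k0
    have ck' : c * k ≤ 3 := by
      by_contra h
      have : 4 ≤ c * k := by omega
      nlinarith
    have : c ≤ 3 := c1.trans ck'
    have : k ≤ 3 := (Nat.le_mul_of_pos_left _ hc).trans ck'
    interval_cases c <;> interval_cases k <;> omega

end CF.Gg
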