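import Cfsg.Agent.Gg.B1
import Cfsg.Agent.Gg.B2
import Cfsg.Agent.Gg.O3
import Cfsg.Agent.Gg.O4
import Cfsg.Agent.Gg.O5
import Cfsg.Agent.Classical.Linear
import Cfsg.Agent.S0689

set_option autoImplicit false

namespace CF.Gg
open Matrix

theorem O6_sl {F K : Type} [Field F] [Fintype F] [Field K] [Fintype K]
    (h : Fintype.card F = Fintype.card K) :
    Nonempty (SpecialLinearGroup (Fin 2) F ≃* SpecialLinearGroup (Fin 2) K) := by
  have e := FiniteField.ringEquivOfCardEq h
  exact ⟨MonoidHom.toMulEquiv (SpecialLinearGroup.map (e : F →+* K))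
    (SpecialLinearGroup.map (e.symm : K →+* F))
    (by ext g i j; simp [SpecialLinearGroup.map_apply_coe])
    (by ext g i j; simp [SpecialLinearGroup.map_apply_coe])⟩

theorem O6_idx {p : ℕ} [hp : Fact p.Prime] {H : Type*} [Group H] [Finite H] (P : Sylow p H)
    {b u : ℕ} (h : Nat.card H = p ^ b * u) (hu : ¬ p ∣ u) : (P : Subgroup H).index = u := by
  obtain ⟨k, hk⟩ := IsPGroup.iff_card.1 P.isPGroup'
  have h1 := (P : Subgroup H).card_mul_index
  rw [hk, h] at h1
  have c1 : ((P : Subgroup H).index).Coprime (p ^ b) :=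
    ((hp.out.coprime_iff_not_dvd.2 P.not_dvd_index).symm).pow_right b
  have c2 : u.Coprime (p ^ k) := ((hp.out.coprime_iff_not_dvd.2 hu).symm).pow_right k
  exact Nat.dvd_antisymm (c1.dvd_of_dvd_mul_left (h1 ▸ dvd_mul_left _ _))
    (c2.dvd_of_dvd_mul_left (h1.symm ▸ dvd_mul_left _ _))

theorem O6_pw {p m q : ℕ} (hp : p.Prime) (hq : q.Prime) (h : p ^ m = q ^ 2) : p = q := by
  have h0 : m ≠ 0 := by
    rintro rfl
    have := hq.two_le
    nlinarith
  exact (Nat.prime_dvd_prime_iff_eq hp hq).1 (hp.dvd_of_dvd_pow (h ▸ dvd_pow_self p h0))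

variable {p : ℕ} [Fact p.Prime] {H : Type*} [Group H] [Finite H] {V : Type*} [AddCommGroup V]
  [Module (ZMod p) V] [Finite V] {ρ : H →* Module.End (ZMod p) V}

theorem O6_reg (h : St p ρ) (ht : Tr ρ) (hns : ¬ Group.IsSolvable H) (hd : ¬ p ∣ Nat.card H) :
    Concl p H := by
  have hp : p.Prime := Fact.out
  let φ : H →* (V ≃ₗ[ZMod p] V) :=
    (LinearMap.GeneralLinearGroup.generalLinearEquiv (ZMod p) V).toMonoidHom.comp ρ.toHomUnits
  have hφ : ∀ g v, φ g v = ρ g v := fun g v => rfl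
  have hi : Function.Injective φ := fun a b hab =>
    h.inj (LinearMap.ext fun v => by rw [← hφ, ← hφ, hab])
  have e : H ≃* φ.range := MonoidHom.ofInjective hi
  obtain ⟨m, hm⟩ := card_pow (p := p) (⊤ : Submodule (ZMod p) V)
  rw [Nat.card_congr Submodule.topEquiv.toEquiv] at hm
  have key := Cfsg.Agent.S0689.result φ.range (fun v w hv hw => by
    obtain ⟨g, hg⟩ := ht v w hv hw
    refine ⟨⟨φ g, g, rfl⟩, hg, ?_⟩
    rintro ⟨_, k, rfl⟩ hk
    have hk' : ρ k v = w := hk
    have h1 : ρ (g⁻¹ * k) v = v := by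
      rw [map_mul, Module.End.mul_apply, hk', ← hg, ← Module.End.mul_apply, ← map_mul,
        inv_mul_cancel, map_one, Module.End.one_apply]
    have h2 : g⁻¹ * k = 1 := by
      by_contra h2
      exact hv (fpf h ((hp.coprime_iff_not_dvd.2 fun h3 =>
        hd (h3.trans (orderOf_dvd_natCard _))).symm) h2 h1)
    rw [inv_mul_eq_one] at h2
    subst h2
    rfl) (fun hs => hns (solvable_of_solvable_injective (f := e.toMonoidHom) e.injective))
  rcases key with ⟨h1, ⟨f⟩⟩ | ⟨h1, ⟨f⟩⟩ | ⟨h1, ⟨f⟩⟩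
  · exact .inr (.inr (.inr (.inl ⟨O6_pw hp (by norm_num) (hm.symm.trans h1), ⟨e.trans f⟩⟩)))
  · exact .inr (.inr (.inr (.inr (.inl ⟨O6_pw hp (by norm_num) (hm.symm.trans h1), ⟨e.trans f⟩⟩))))
  · exact .inr (.inr (.inr (.inr (.inr ⟨O6_pw hp (by norm_num) (hm.symm.trans h1), ⟨e.trans f⟩⟩))))

theorem o_cross (h : St p ρ) (ht : Tr ρ) (hp : p ≠ 2) (hns : ¬ Group.IsSolvable H) (L : Subgroup H) [L.Normal]
    {F : Type} [Field F] [Fintype F] (hodd : Odd (Fintype.card F)) (h3 : 3 < Fintype.card F)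
    (hc : ¬ p ∣ Fintype.card F) (e : L ≃* SpecialLinearGroup (Fin 2) F) : Concl p H := by
  have pp : p.Prime := Fact.out
  have h' := (h.normal L).equiv e.symm
  obtain ⟨hpr, a, b, hr⟩ := o_prime h' hp hodd h3 hc (MulEquiv.refl _)
  have hi := o_index h ht hp L hodd h3 hpr e
  have hi' : ¬ p ∣ L.index := pp.coprime_iff_not_dvd.1 hi.symm
  have hc1 : 1 ≤ L.index := Nat.pos_of_ne_zero Subgroup.index_ne_zero_of_finite
  set r := Fintype.card F with hrF
  obtain ⟨t, hrt⟩ : ∃ t, r = t + 1 := ⟨r - 1, by omega⟩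
  have hH : Nat.card H = r * t * (r + 1) * L.index := by
    rw [← L.card_mul_index, Nat.card_congr e.toEquiv, CF.Classical.card_SL_two, ← hrF, hrt]
    congr 1
    rw [show (t + 1) ^ 2 = t * (t + 1 + 1) + 1 by ring, Nat.add_sub_cancel]
    ring
  have h2 : ¬ p ∣ 2 := fun h => hp ((Nat.prime_dvd_prime_iff_eq pp Nat.prime_two).1 h)
  obtain ⟨P⟩ : Nonempty (Sylow p H) := inferInstance
  obtain ⟨Q⟩ : Nonempty (Sylow p (SpecialLinearGroup (Fin 2) F)) := inferInstance
  have c1 := count h' Q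
  have c2 := index_eq h ht P
  obtain ⟨n, hn⟩ := card_pow (p := p) (⊤ : Submodule (ZMod p) V)
  rw [Nat.card_congr Submodule.topEquiv.toEquiv] at hn
  obtain ⟨m, hm⟩ := card_pow (fixS ((ρ.comp L.subtype).comp e.symm.toMonoidHom)
    (Q : Subgroup (SpecialLinearGroup (Fin 2) F)))
  rw [hm, hn] at c1
  rw [hn] at c2
  set s := Nat.card (Sylow p (SpecialLinearGroup (Fin 2) F)) with hs
  have s0 : 0 < s := Nat.card_pos
  have n0 : 0 < p ^ n := pow_pos pp.pos n
  have m0 : 0 < p ^ m := pow_pos pp.pos m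
  have hn' : p ^ n = s * (p ^ m - 1) + 1 := by omega
  by_cases d1 : p ∣ t
  · have ht' : t = 2 ^ a * p ^ b := by omega
    have d2 : ¬ p ∣ r + 1 := fun d2 => h2 ((Nat.dvd_add_right d1).1 (by rwa [hrt] at d2))
    have hs' := syl_minus hp hodd (by rw [← hrF, hrt]; exact d1)
    rw [← hrF, ← hs] at hs'
    have i1 := O6_idx P (b := b) (u := r * 2 ^ a * (r + 1) * L.index) (by rw [hH, ht']; ring) (by
      intro h
      rcases (Nat.Prime.dvd_mul pp).1 h with h | h
      · rcases (Nat.Prime.dvd_mul pp).1 h with h | h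
        · rcases (Nat.Prime.dvd_mul pp).1 h with h | h
          exacts [hc h, h2 (pp.dvd_of_dvd_pow h)]
        · exact d2 h
      · exact hi' h)
    have hm' : p ^ m = 2 ^ (a + 1) * L.index + 1 := by
      have : s * (p ^ m - 1) = s * (2 ^ (a + 1) * L.index) := by
        rw [← c1, c2, i1]
        calc r * 2 ^ a * (r + 1) * L.index = r * (r + 1) * 2 ^ a * L.index := by ring
          _ = _ := by rw [← hs']; ring
      have := Nat.eq_of_mul_eq_mul_left s0 this
      omega
    have ha : 1 ≤ a := by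
      rcases a with _ | a
      · exfalso
        have o1 : Odd (p ^ b) := (pp.odd_of_ne_two hp).pow
        rw [hr, pow_zero, one_mul] at hodd
        exact (Nat.not_even_iff_odd.2 hodd) o1.add_one
      · omega
    have hb : 1 ≤ b := by
      rcases b with _ | b
      · rw [ht', pow_zero, mul_one] at d1
        exact absurd (pp.dvd_of_dvd_pow d1) h2
      · omega
    obtain ⟨q1, q2, q3⟩ := num_minus pp hp ha hb hc1 hr hs' hm' hn'
    have : Fact (Nat.Prime 13) := ⟨by norm_num⟩
    obtain ⟨f⟩ := O6_sl (F := F) (K := ZMod 13) (by rw [← hrF, q2, ZMod.card])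
    rw [Subgroup.index_eq_one] at q3
    exact .inr (.inr (.inl ⟨q1, ⟨((Subgroup.topEquiv.symm.trans
      (MulEquiv.subgroupCongr q3.symm)).trans e).trans f⟩⟩))
  by_cases d2 : p ∣ r + 1
  · obtain ⟨b, g, hg, hrg⟩ := Nat.exists_eq_pow_mul_and_not_dvd (n := r + 1) (by omega) p pp.ne_one
    have hs' := syl_plus hp hodd d2
    rw [← hrF, ← hs] at hs'
    have i1 := O6_idx P (b := b) (u := r * t * g * L.index) (by rw [hH, hrg]; ring) (by
      intro h
      rcases (Nat.Prime.dvd_mul pp).1 h with h | h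
      · rcases (Nat.Prime.dvd_mul pp).1 h with h | h
        · rcases (Nat.Prime.dvd_mul pp).1 h with h | h
          exacts [hc h, d1 h]
        · exact hg h
      · exact hi' h)
    have hm' : p ^ m = 2 * L.index * g + 1 := by
      have : s * (p ^ m - 1) = s * (2 * L.index * g) := by
        rw [← c1, c2, i1, show t = r - 1 by omega, ← hs']
        ring
      have := Nat.eq_of_mul_eq_mul_left s0 this
      omega
    have hb : 1 ≤ b := by
      rcases b with _ | b
      · rw [hrg, pow_zero, one_mul] at d2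
        exact absurd d2 hg
      · omega
    have hr5 : 5 ≤ r := by
      obtain ⟨k, hk⟩ := hodd
      omega
    obtain ⟨q1, q2, q3⟩ := num_plus pp hp hb hc1 hr5 hodd hrg hg hs' hm' hn'
    obtain ⟨f⟩ := O6_sl (F := F) (K := ZMod 5) (by rw [← hrF, q2, ZMod.card])
    refine .inr (.inl ⟨q1, L, inferInstance, q3, ⟨e.trans f⟩, ?_, fun K hK => ?_⟩)
    · refine le_antisymm (fun x hx => ?_) ?_
      · have hz : ∀ (y : H) (hy : y ∈ L), y ∈ Subgroup.centralizer (L : Set H) →
            (⟨y, hy⟩ : L) ∈ Subgroup.center L := fun y hy hy' =>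
          Subgroup.mem_center_iff.2 fun k => Subtype.ext (hy' k k.2)
        have h1 : x ^ 2 ∈ L := by rw [← q3]; exact L.pow_index_mem x
        have h4 := hz _ h1 (pow_mem hx 2)
        have h5 : e ⟨_, h1⟩ ∈ Subgroup.center (SpecialLinearGroup (Fin 2) F) :=
          Subgroup.mem_center_iff.2 fun k => by
            rw [← e.apply_symm_apply k, ← map_mul, ← map_mul, Subgroup.mem_center_iff.1 h4]
        obtain ⟨z, hz1, hz2⟩ := Matrix.SpecialLinearGroup.mem_center_iff.1 h5
        have h6 : e ⟨_, h1⟩ ^ 2 = 1 := by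
          apply Subtype.ext
          rw [Fintype.card_fin] at hz1
          change ((e ⟨_, h1⟩ : SpecialLinearGroup (Fin 2) F) : Matrix (Fin 2) (Fin 2) F) ^ 2 = 1
          rw [← hz2, ← map_pow, hz1, map_one]
        rw [← map_pow, MulEquiv.map_eq_one_iff] at h6
        have h7 : x ∈ L := o_two h hp L hodd e hx (k := 2) (by
          rw [show 2 ^ 2 = 2 * 2 from rfl, pow_mul]; exact congrArg Subtype.val h6)
        exact ⟨⟨x, h7⟩, hz x h7 hx, rfl⟩
      · rintro _ ⟨x, hx, rfl⟩ k hk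
        exact congrArg Subtype.val (Subgroup.mem_center_iff.1 hx ⟨k, hk⟩)
    · have hK2 : Nat.card K = 2 := by rw [← q3, hK.symm.index_eq_card]
      obtain ⟨k, hk⟩ := exists_prime_orderOf_dvd_card' (G := K) 2 (by rw [hK2])
      obtain ⟨z, hz⟩ := exists_prime_orderOf_dvd_card' (G := L) 2 (by
        rw [Nat.card_congr e.toEquiv, CF.Classical.card_SL_two, ← hrF, q2]; norm_num)
      have h4 := inv_unique h hp ((Subgroup.orderOf_coe k).trans hk)
        ((Subgroup.orderOf_coe z).trans hz)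
      have h5 : (k : H) = 1 := Subgroup.disjoint_def.1 hK.disjoint (h4 ▸ z.2) k.2
      rw [← Subgroup.orderOf_coe, h5, orderOf_one] at hk
      omega
  · refine O6_reg h ht hns fun h => ?_
    rw [hH] at h
    rcases (Nat.Prime.dvd_mul pp).1 h with h | h
    · rcases (Nat.Prime.dvd_mul pp).1 h with h | h
      · rcases (Nat.Prime.dvd_mul pp).1 h with h | h
        exacts [hc h, d1 h]
      · exact d2 h
    · exact hi' h

end CF.Gg
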