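import Cfsg.Agent.Gg.A
import Cfsg.Agent.Solv.Cores

set_option autoImplicit false
set_option linter.style.haveILetI false

namespace CF.Gg

open Cfsg CF.Solv

/-- A representation from additive maps. -/
def R_rep (p : ℕ) {G V : Type*} [Group G] [AddCommGroup V] [Module (ZMod p) V] (c : G → V →+ V)
    (c1 : ∀ v, c 1 v = v) (c2 : ∀ a b v, c (a * b) v = c a (c b v)) : G →* Module.End (ZMod p) V where
  toFun := fun g => { toFun := c g, map_add' := (c g).map_add, map_smul' := ZMod.map_smul (c g) }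
  map_one' := LinearMap.ext c1
  map_mul' := fun a b => LinearMap.ext (c2 a b)

/-- The linear data attached to an elementary abelian normal subgroup with Sylow centralizers. -/
theorem R_core {G : Type*} [Group G] [Finite G] {p : ℕ} [Fact p.Prime] {V : Type*} [AddCommGroup V]
    [Module (ZMod p) V] (ι : V → G) (hι : Function.Injective ι) (h0 : ι 0 = 1)
    (hadd : ∀ v w, ι (v + w) = ι v * ι w) (hn : ∀ g v, ∃ w, ι w = g * ι v * g⁻¹) (hnt : ∃ v : V, v ≠ 0)
    (htr : ∀ v w : V, v ≠ 0 → w ≠ 0 → ∃ g : G, g * ι v * g⁻¹ = ι w)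
    (hs : ∀ v : V, v ≠ 0 → ∃ P : Sylow p G, Subgroup.centralizer ({ι v} : Set G) = P) :
    ∃ ρ : G ⧸ pCore p G →* Module.End (ZMod p) V, St p ρ ∧ Tr ρ := by
  choose f hf using hn
  let c : G → V →+ V := fun g =>
    { toFun := f g
      map_zero' := hι (by rw [hf, h0]; simp)
      map_add' := fun a b => hι (by rw [hf, hadd, hadd, hf, hf]; simp [mul_assoc]) }
  have c1 : ∀ v, c 1 v = v := fun v => hι (by show ι (f 1 v) = _; rw [hf]; simp)
  have c2 : ∀ a b v, c (a * b) v = c a (c b v) := fun a b v =>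
    hι (by show ι (f (a * b) v) = ι (f a (f b v)); rw [hf, hf, hf]; simp [mul_assoc])
  let ρ0 : G →* Module.End (ZMod p) V := R_rep p c c1 c2
  have hρ0 : ∀ g (v w : V), ρ0 g v = w ↔ g * ι v * g⁻¹ = ι w := by
    intro g v w
    rw [← hf]
    exact hι.eq_iff.symm
  have fixP : ∀ v : V, v ≠ 0 → ∃ P : Sylow p G, ∀ g, g ∈ (P : Subgroup G) ↔ ρ0 g v = v := by
    intro v hv
    obtain ⟨P, hP⟩ := hs v hv
    refine ⟨P, fun g => ?_⟩
    rw [← hP, Subgroup.mem_centralizer_singleton_iff, hρ0, mul_inv_eq_iff_eq_mul]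
  have hker : ∀ g ∈ pCore p G, ρ0 g = 1 := by
    intro g hg
    refine LinearMap.ext fun v => ?_
    by_cases hv : v = 0
    · rw [hv, map_zero, map_zero]
    · obtain ⟨P, hP⟩ := fixP v hv
      exact (hP g).1 (IsPGroup.le_sylow_of_normal pCore_isPGroup P hg)
  obtain ⟨x, hx0⟩ := hnt
  refine ⟨QuotientGroup.lift _ ρ0 hker, ⟨?_, ⟨_, hx0⟩, fun v hv => ?_, fun M hM hMp => ?_⟩,
    fun v w hv hw => ?_⟩
  · rw [injective_iff_map_eq_one]
    intro a ha
    obtain ⟨g, rfl⟩ := QuotientGroup.mk_surjective a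
    rw [QuotientGroup.eq_one_iff]
    obtain ⟨P, hP⟩ := fixP _ hx0
    have hle : ρ0.ker ≤ P := fun k hk => (hP k).2 (by rw [MonoidHom.mem_ker.1 hk]; rfl)
    exact le_pCore (P.isPGroup'.to_le hle) (show g ∈ ρ0.ker from ha)
  · obtain ⟨P, hP⟩ := fixP v hv
    refine ⟨P.mapSurjective (QuotientGroup.mk'_surjective _), fun a => ?_⟩
    obtain ⟨g, rfl⟩ := QuotientGroup.mk_surjective a
    rw [Sylow.coe_mapSurjective, Subgroup.mem_map]
    constructor
    · rintro ⟨k, hk, e⟩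
      rw [← e]
      exact (hP k).1 hk
    · intro hg
      exact ⟨g, (hP g).2 hg, rfl⟩
  · haveI := hM
    exact eq_bot_iff.2 ((le_pCore hMp).trans pCore_quotient_pCore.le)
  · obtain ⟨g, hg⟩ := htr v w hv hw
    exact ⟨g, (hρ0 g v w).2 hg⟩

universe u

theorem red {G : Type u} [Group G] [Finite G] {p : ℕ} [Fact p.Prime] (N : Subgroup G) [hN : N.Normal]
    (hN1 : N ≠ ⊥) (hc : IsMulCommutative N) (hp : ∀ a ∈ N, a ^ p = 1)
    (htr : ∀ x ∈ N, ∀ y ∈ N, x ≠ 1 → y ≠ 1 → ∃ g : G, g * x * g⁻¹ = y)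
    (hs : ∀ x ∈ N, x ≠ 1 → ∃ P : Sylow p G, Subgroup.centralizer ({x} : Set G) = P) :
    ∃ (V : Type u) (_ : AddCommGroup V) (_ : Module (ZMod p) V) (_ : Finite V)
      (ρ : G ⧸ pCore p G →* Module.End (ZMod p) V), St p ρ ∧ Tr ρ := by
  letI cg : CommGroup N := { (inferInstance : Group N) with mul_comm := hc.is_comm.comm }
  letI ag : AddCommGroup (Additive N) := Additive.addCommGroup
  letI md : Module (ZMod p) (Additive N) := AddCommGroup.zmodModule (n := p) (fun x => by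
    apply Additive.toMul.injective
    rw [toMul_nsmul]
    exact Subtype.ext (by simpa using hp _ x.toMul.2))
  have ne1 : ∀ v : Additive N, v ≠ 0 → (v.toMul : G) ≠ 1 := fun v hv e =>
    hv (Additive.toMul.injective (Subtype.ext e))
  refine ⟨Additive N, ag, md, inferInstance, ?_⟩
  refine @R_core G _ _ p _ (Additive N) ag md (fun v => (v.toMul : G))
    (fun a b e => Additive.toMul.injective (Subtype.ext e)) rfl (fun _ _ => rfl)
    (fun g v => ⟨Additive.ofMul ⟨_, hN.conj_mem _ v.toMul.2 g⟩, rfl⟩) ?_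
    (fun v w hv hw => htr _ v.toMul.2 _ w.toMul.2 (ne1 v hv) (ne1 w hw))
    (fun v hv => hs _ v.toMul.2 (ne1 v hv))
  obtain ⟨x, hx⟩ := Subgroup.ne_bot_iff_exists_ne_one.1 hN1
  exact ⟨Additive.ofMul x, fun e => hx (Additive.ofMul.injective e)⟩

end CF.Gg
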